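import Cfsg.Agent.OWagner.Elation
import Cfsg.Agent.LAE62.HuaMain

/-!
A plane with all possible elations is the plane over a finite field.
-/

set_option autoImplicit false
set_option linter.all false

namespace Cfsg.Agent.OWagner

/-- All elations exist. -/
def FullElations (G : Type*) {P L : Type*} [SMul G P] [SMul G L] (I : P → L → Prop) : Prop :=
  ∀ (c : P) (l m : L), I c l → I c m → m ≠ l → ∀ A B : P, I A m → A ≠ c → I B m → B ≠ c →
    ∃ e : G, Elat I e c l ∧ e • A = B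

/-- A finite field in the lowest universe isomorphic to a given commutative finite subring that is a
field. -/
theorem exists_small_field {R : Type*} [Ring R] [Finite R] [Nontrivial R] (S : Subring R)
    (hc : ∀ a ∈ S, ∀ b ∈ S, a * b = b * a) (hinv : ∀ a ∈ S, a ≠ 0 → ∃ b ∈ S, a * b = 1) :
    ∃ (F : Type) (_ : Field F) (_ : Fintype F) (ι : F →+* R), Function.Injective ι ∧
      ∀ r, r ∈ S ↔ ∃ f, ι f = r := by
  classical
  letI : CommRing S := { (inferInstance : Ring S) with mul_comm := fun a b => Subtype.ext (hc a a.2 b b.2) }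
  have hf : IsField S := by
    refine ⟨⟨0, 1, fun e => zero_ne_one (congrArg Subtype.val e : (0 : R) = 1)⟩, mul_comm, fun {a} ha => ?_⟩
    obtain ⟨b, hb, h1⟩ := hinv a a.2 fun e => ha (Subtype.ext e)
    exact ⟨⟨b, hb⟩, Subtype.ext h1⟩
  letI : Field S := hf.toField
  let e : {_i : Fin (Nat.card S) // True} ≃ S :=
    (Equiv.subtypeUnivEquiv fun _ => trivial).trans (Finite.equivFin S).symm
  letI : Field {_i : Fin (Nat.card S) // True} := e.field
  refine ⟨{_i : Fin (Nat.card S) // True}, inferInstance, inferInstance, S.subtype.comp e.ringEquiv.toRingHom,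
    Subtype.val_injective.comp e.ringEquiv.injective, fun r => ⟨fun hr => ⟨e.symm ⟨r, hr⟩, ?_⟩, ?_⟩⟩
  · show ((e (e.symm ⟨r, hr⟩) : S) : R) = r
    rw [e.apply_symm_apply]
  · rintro ⟨f, rfl⟩
    exact (e f).2

/-- Affine coordinates over a field. -/
structure Frame {P L : Type*} (I : P → L → Prop) {F : Type} [Field F] (o : L) (Vi : P) (pt : F → F → P)
    (Wf : F → P) : Prop where
  inf_mem : I Vi o
  dir_mem : ∀ s, I (Wf s) o
  dir_ne : ∀ s, Wf s ≠ Vi
  dir_inj : Function.Injective Wf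
  dir_surj : ∀ W, I W o → W ≠ Vi → ∃ s, Wf s = W
  off : ∀ u w, ¬ I (pt u w) o
  inj : ∀ {u w u' w'}, pt u w = pt u' w' → u = u' ∧ w = w'
  surj : ∀ B, ¬ I B o → ∃ u w, pt u w = B
  vertical : ∀ {m : L} {u w : F} (u' w' : F), I Vi m → m ≠ o → I (pt u w) m → (I (pt u' w') m ↔ u' = u)
  slanted : ∀ {m : L} {s u w : F} (u' w' : F), I (Wf s) m → m ≠ o → I (pt u w) m →
    (I (pt u' w') m ↔ w' - w = s * (u' - u))

namespace Setting

variable {G P L : Type*} [Group G] [MulAction G P] [MulAction G L] {I : P → L → Prop} {n : ℕ}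
  (h : Setting G I n) [Finite G] [Finite P] [Finite L]
include h

set_option maxHeartbeats 4000000 in
theorem exists_frame (hfull : FullElations G I) :
    ∃ (F : Type) (_ : Field F) (_ : Fintype F) (o : L) (Vi : P) (pt : F → F → P) (Wf : F → P),
      Fintype.card F = n ∧ Frame I o Vi pt Wf := by
  classical
  obtain ⟨x₀, -⟩ : ∃ x : P, True := ⟨Classical.choice (Nat.card_pos_iff.1 (by rw [h.cardP]; omega)).1, trivial⟩
  obtain ⟨o, -, -⟩ := h.join x₀ x₀
  obtain ⟨Vi, hVi⟩ := h.nonempty_pts o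
  obtain ⟨V0, hV0, hV0i, -⟩ := h.exists_pt_on o Vi Vi
  obtain ⟨V1, hV1, hV1i, hV10⟩ := h.exists_pt_on o Vi V0
  obtain ⟨O, hO, -⟩ := h.exists_pt_off o Vi
  -- translations
  have htwo : TwoDir G I o := by
    have mk : ∀ c, I c o → ∃ e : G, e ≠ 1 ∧ Elat I e c o := by
      intro c hc
      obtain ⟨m, hOm, hcm⟩ := h.join O c
      obtain ⟨B, hB, hBc, hBO⟩ := h.exists_pt_on m c O
      obtain ⟨e, he, heB⟩ := hfull c o m hc hcm (fun e => hO (e ▸ hOm)) O B hOm (fun e => hO (e ▸ hc)) hB hBc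
      exact ⟨e, fun e' => hBO (by rw [← heB, e', one_smul]), he⟩
    obtain ⟨a, ha1, ha⟩ := mk V0 hV0
    obtain ⟨b, hb1, hb⟩ := mk Vi hVi
    exact ⟨a, b, V0, Vi, ha1, hb1, hV0i, ha, hb⟩
  let T := h.elGrp o
  have hcomm : ∀ {a b : G}, a ∈ T → b ∈ T → a * b = b * a := fun ⟨u, hu⟩ ⟨w, hw⟩ => h.elat_comm htwo hu hw
  have hT : ∀ {t : G}, t ∈ T → t • o = o := fun ⟨u, hu⟩ => h.smul_axis hu.2.1
  have hTaff : ∀ {t : G} {A : P}, t ∈ T → ¬ I A o → ¬ I (t • A) o := by
    intro t A ht hA e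
    exact hA ((h.compat t A o).1 (by rw [hT ht]; exact e))
  have hTfree : ∀ {t t' : G} {A : P}, t ∈ T → t' ∈ T → ¬ I A o → t • A = t' • A → t = t' := by
    intro t t' A ht ht' hA e
    obtain ⟨w, hw⟩ := T.mul_mem (T.inv_mem ht') ht
    exact (inv_mul_eq_one.1 (h.elat_fixed hw (by rw [mul_smul, e, inv_smul_smul]) hA)).symm
  have hDT : ∀ {W : P}, I W o → ∀ {t : G}, t ∈ h.dirGrp W o → t ∈ T := fun {W} hW {t} ht =>
    ⟨W, (h.mem_dirGrp' hW).1 ht⟩
  have htrans : ∀ A, ¬ I A o → ∃ t, t ∈ T ∧ t • O = A := by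
    intro A hA
    by_cases hAO : A = O
    · exact ⟨1, T.one_mem, by rw [one_smul, hAO]⟩
    obtain ⟨m, hOm, hAm⟩ := h.join O A
    obtain ⟨c, hcm, hco⟩ := h.meet m o
    obtain ⟨e, he, heA⟩ := hfull c o m hco hcm (fun e => hO (e ▸ hOm)) O A hOm (fun e => hO (e ▸ hco)) hAm
      (fun e => hA (e ▸ hco))
    exact ⟨e, ⟨c, he⟩, heA⟩
  -- direction criterion
  have hdir : ∀ {W : P} {m : L} {t t' : G}, I W o → I W m → m ≠ o → t ∈ T → t' ∈ T → I (t • O) m →
      I (t' • O) m → t' * t⁻¹ ∈ h.dirGrp W o := by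
    intro W m t t' hW hWm hmo ht ht' h1 h2
    have htO := hTaff ht hO
    have ht'O := hTaff ht' hO
    obtain ⟨e, he, heA⟩ := hfull W o m hW hWm hmo (t • O) (t' • O) h1 (fun e => htO (e.symm ▸ hW)) h2
      (fun e => ht'O (e.symm ▸ hW))
    have : e * t = t' := hTfree (T.mul_mem ⟨W, he⟩ ht) ht' hO (by rw [mul_smul, heA])
    rw [← this, mul_inv_cancel_right]
    exact (h.mem_dirGrp' hW).2 he
  have hdirOn : ∀ {W : P} {m : L} {d : G} {A : P}, I W m → d ∈ h.dirGrp W o → I A m → I (d • A) m :=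
    fun {W m d A} hWm hd hA => h.mem_of_fix_line (hd.2 m hWm) hA
  have hdisj : ∀ {U W : P}, I U o → I W o → U ≠ W → ∀ {t : G}, t ∈ h.dirGrp U o → t ∈ h.dirGrp W o → t = 1 := by
    intro U W hU hW hUW t h1 h2
    by_contra h3
    exact hUW (h.center_unique h3 h1.2 h2.2)
  -- slopes
  let D0 : Subgroup G := h.dirGrp V0 o
  let Di : Subgroup G := h.dirGrp Vi o
  have hlam : ∀ W, I W o → W ≠ Vi → ∀ x : D0, ∃ y : Di, (x : G) * y ∈ h.dirGrp W o := by
    intro W hW hWi x
    obtain ⟨k, hOk, hWk⟩ := h.join O W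
    obtain ⟨m, hxm, hVm⟩ := h.join ((x : G) • O) Vi
    obtain ⟨B, hBk, hBm⟩ := h.meet k m
    have hxO := hTaff (hDT hV0 x.2) hO
    have hko : k ≠ o := fun e => hO (e ▸ hOk)
    have hmo : m ≠ o := fun e => hxO (e ▸ hxm)
    have hBo : ¬ I B o := fun e => hWi (by
      rw [← h.point_eq hko hBk hWk e hW]
      exact h.point_eq hmo hBm hVm e hVi)
    obtain ⟨t, ht, htB⟩ := htrans B hBo
    refine ⟨⟨t * (x : G)⁻¹, hdir hVi hVm hmo (hDT hV0 x.2) ht hxm (htB ▸ hBm)⟩, ?_⟩
    show (x : G) * (t * (x : G)⁻¹) ∈ h.dirGrp W o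
    rw [hcomm ht (T.inv_mem (hDT hV0 x.2)), mul_inv_cancel_left]
    have := hdir hW hWk hko T.one_mem ht (by rwa [one_smul]) (htB ▸ hBk)
    rwa [inv_one, mul_one] at this
  choose lam hlam using hlam
  have lam_unique : ∀ W (hW : I W o) (hWi : W ≠ Vi) (x : D0) (y : Di), (x : G) * y ∈ h.dirGrp W o →
      y = lam W hW hWi x := by
    intro W hW hWi x y hy
    have := (h.dirGrp W o).mul_mem ((h.dirGrp W o).inv_mem (hlam W hW hWi x)) hy
    rw [mul_inv_rev, mul_assoc, inv_mul_cancel_left] at this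
    exact Subtype.ext (inv_mul_eq_one.1 (hdisj hVi hW (Ne.symm hWi) (Di.mul_mem (Di.inv_mem (lam W hW hWi x).2) y.2) this)).symm
  let lamH : ∀ W, I W o → W ≠ Vi → (D0 →* Di) := fun W hW hWi => MonoidHom.mk' (lam W hW hWi) fun x x' => by
    refine (lam_unique W hW hWi (x * x') (lam W hW hWi x * lam W hW hWi x') ?_).symm
    show ((x : G) * x') * ((lam W hW hWi x : G) * (lam W hW hWi x' : G)) ∈ _
    rw [show ((x : G) * x') * ((lam W hW hWi x : G) * (lam W hW hWi x' : G)) =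
      (x : G) * ((x' : G) * (lam W hW hWi x : G)) * (lam W hW hWi x' : G) by group,
      hcomm (hDT hV0 x'.2) (hDT hVi (lam W hW hWi x).2),
      show (x : G) * ((lam W hW hWi x : G) * (x' : G)) * (lam W hW hWi x' : G) =
      ((x : G) * (lam W hW hWi x : G)) * ((x' : G) * (lam W hW hWi x' : G)) by group]
    exact (h.dirGrp W o).mul_mem (hlam W hW hWi x) (hlam W hW hWi x')
  have hcardD : ∀ W, I W o → Nat.card (h.dirGrp W o) = n := by
    intro W hW
    refine le_antisymm (Nat.le_of_dvd (by have := h.two_le; omega) (h.card_dirGrp_dvd hW)) ?_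
    obtain ⟨k, hOk, hWk⟩ := h.join O W
    have hko : k ≠ o := fun e => hO (e ▸ hOk)
    calc n = {q | I q k ∧ q ≠ W}.ncard := (h.ncard_pts_ne hWk).symm
      _ ≤ ((fun t : G => t • O) '' (h.dirGrp W o : Set G)).ncard := Set.ncard_le_ncard (fun q ⟨hq, hqW⟩ => by
          have hqo : ¬ I q o := fun e => hqW (h.point_eq hko hq hWk e hW)
          obtain ⟨t, ht, htq⟩ := htrans q hqo
          refine ⟨t, ?_, htq⟩
          have := hdir hW hWk hko T.one_mem ht (by rwa [one_smul]) (htq ▸ hq)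
          rwa [inv_one, mul_one] at this) (Set.toFinite _)
      _ ≤ _ := (Set.ncard_image_le (Set.toFinite _)).trans (le_of_eq (Nat.card_coe_set_eq _).symm)
  have hlam_inj : ∀ W (hW : I W o) (hWi : W ≠ Vi), W ≠ V0 → Function.Injective (lamH W hW hWi) := by
    intro W hW hWi hW0
    rw [injective_iff_map_eq_one]
    intro x hx
    have := hlam W hW hWi x
    rw [show lam W hW hWi x = 1 from hx, Subgroup.coe_one, mul_one] at this
    exact Subtype.ext (hdisj hV0 hW (Ne.symm hW0) x.2 this)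
  have hbij : Function.Bijective (lamH V1 hV1 hV1i) :=
    (Nat.bijective_iff_injective_and_card _).2 ⟨hlam_inj V1 hV1 hV1i hV10, by rw [hcardD V0 hV0, hcardD Vi hVi]⟩
  let ε : D0 ≃* Di := MulEquiv.ofBijective _ hbij
  letI : CommGroup D0 :=
    { (inferInstance : Group D0) with
      mul_comm := fun a b => Subtype.ext (hcomm (hDT hV0 a.2) (hDT hV0 b.2)) }
  let A := Additive D0
  let θ : A → A → G := fun a b => ((Additive.toMul a : D0) : G) * ((ε (Additive.toMul b) : Di) : G)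
  have hθT : ∀ a b, θ a b ∈ T := fun a b => T.mul_mem (hDT hV0 (Additive.toMul a).2) (hDT hVi (ε _).2)
  have hθ_add : ∀ a b a' b', θ (a + a') (b + b') = θ a b * θ a' b' := by
    intro a b a' b'
    show ((Additive.toMul a * Additive.toMul a' : D0) : G) *
        ((ε (Additive.toMul b * Additive.toMul b') : Di) : G) =
      ((Additive.toMul a : D0) : G) * (ε (Additive.toMul b) : G) *
        (((Additive.toMul a' : D0) : G) * (ε (Additive.toMul b') : G))
    rw [map_mul, Subgroup.coe_mul, Subgroup.coe_mul]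
    rw [show ∀ p q r s : G, (p * q) * (r * s) = p * (q * r) * s from fun p q r s => by group,
      show ∀ p q r s : G, p * r * (q * s) = p * (r * q) * s from fun p q r s => by group,
      hcomm (hDT hV0 (Additive.toMul a').2) (hDT hVi (ε (Additive.toMul b)).2)]
  have hθ_inj : ∀ {a b a' b'}, θ a b = θ a' b' → a = a' ∧ b = b' := by
    intro a b a' b' e
    have e1 : ((Additive.toMul a' : D0) : G)⁻¹ * (Additive.toMul a : D0) =
        (ε (Additive.toMul b') : G) * ((ε (Additive.toMul b) : G))⁻¹ := by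
      simp only [θ] at e
      rw [eq_mul_inv_iff_mul_eq, mul_assoc, e, inv_mul_cancel_left]
    have e2 := hdisj hV0 hVi hV0i (D0.mul_mem (D0.inv_mem (Additive.toMul a').2) (Additive.toMul a).2)
      (e1.symm ▸ Di.mul_mem (ε _).2 (Di.inv_mem (ε _).2))
    have e3 := e1.symm.trans e2
    exact ⟨congrArg Additive.ofMul (Subtype.ext (inv_mul_eq_one.1 e2).symm),
      congrArg Additive.ofMul (ε.injective (Subtype.ext (mul_inv_eq_one.1 e3))).symm⟩
  have hθD0 : ∀ a, θ a 0 ∈ D0 := fun a => by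
    simp only [θ, toMul_zero, map_one, Subgroup.coe_one, mul_one]; exact (Additive.toMul a).2
  have hθDi : ∀ b, θ 0 b ∈ Di := fun b => by
    simp only [θ, toMul_zero, Subgroup.coe_one, one_mul]; exact (ε _).2
  have hθ_surj : ∀ t ∈ T, ∃ a b, θ a b = t := by
    have hcardT : Nat.card T ∣ n ^ 2 := h.card_elGrp_dvd o
    intro t ht
    let f : A × A → T := fun ab => ⟨θ ab.1 ab.2, hθT _ _⟩
    have hf : Function.Bijective f := by
      refine Function.Injective.bijective_of_nat_card_le (fun x y e => ?_) ?_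
      · obtain ⟨e1, e2⟩ := hθ_inj (congrArg Subtype.val e)
        exact Prod.ext e1 e2
      · rw [Nat.card_prod, show Nat.card A = n from hcardD V0 hV0, ← pow_two]
        exact Nat.le_of_dvd (pow_pos (by have := h.two_le; omega) 2) hcardT
    obtain ⟨⟨a, b⟩, hab⟩ := hf.2 ⟨t, ht⟩
    exact ⟨a, b, congrArg Subtype.val hab⟩
  let slope : ∀ W, I W o → W ≠ Vi → AddMonoid.End A := fun W hW hWi =>
    MonoidHom.toAdditive (ε.symm.toMonoidHom.comp (lamH W hW hWi))
  have hslope_mem : ∀ W hW hWi a, θ a (slope W hW hWi a) ∈ h.dirGrp W o := by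
    intro W hW hWi a
    show ((Additive.toMul a : D0) : G) * ((ε (ε.symm (lamH W hW hWi (Additive.toMul a)))) : G) ∈ _
    rw [ε.apply_symm_apply]
    exact hlam W hW hWi _
  have hslope_iff : ∀ W hW hWi a b, θ a b ∈ h.dirGrp W o ↔ b = slope W hW hWi a := by
    intro W hW hWi a b
    refine ⟨fun hm => ?_, fun e => e ▸ hslope_mem W hW hWi a⟩
    have := lam_unique W hW hWi (Additive.toMul a) (ε (Additive.toMul b)) hm
    show b = Additive.ofMul (ε.symm (lam W hW hWi (Additive.toMul a)))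
    rw [← this, ε.symm_apply_apply, ofMul_toMul]
  have hDi_iff : ∀ a b, θ a b ∈ Di ↔ a = 0 := by
    intro a b
    refine ⟨fun hm => ?_, fun e => e ▸ hθDi b⟩
    have h1 : θ a 0 ∈ Di := by
      have := Di.mul_mem hm (Di.inv_mem (hθDi b))
      rwa [show θ a b = θ a 0 * θ 0 b by rw [← hθ_add, add_zero, zero_add], mul_inv_cancel_right] at this
    exact (hθ_inj (b := 0) (a' := 0) (b' := 0) ((hdisj hV0 hVi hV0i (hθD0 a) h1).trans
      (by simp [θ]))).1
  have hslope1 : slope V1 hV1 hV1i = 1 := by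
    refine AddMonoidHom.ext fun a => ?_
    show Additive.ofMul (ε.symm (ε (Additive.toMul a))) = a
    rw [ε.symm_apply_apply, ofMul_toMul]
  have hslope0 : slope V0 hV0 hV0i = 0 := by
    refine AddMonoidHom.ext fun a => ?_
    exact ((hslope_iff V0 hV0 hV0i a 0).1 (hθD0 a)).symm
  have hA : ∃ a : A, a ≠ 0 := by
    haveI : Nontrivial A := Finite.one_lt_card_iff_nontrivial.1
      (by rw [show Nat.card A = n from hcardD V0 hV0]; have := h.two_le; omega)
    exact exists_ne 0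
  obtain ⟨a₁, ha₁⟩ := hA
  have hslope_inj : ∀ U hU hUi W hW hWi, slope U hU hUi = slope W hW hWi → U = W := by
    intro U hU hUi W hW hWi e
    by_contra hne
    have := hdisj hU hW hne (hslope_mem U hU hUi a₁) (e ▸ hslope_mem W hW hWi a₁)
    exact ha₁ (hθ_inj (a' := 0) (b' := 0) (this.trans (by simp [θ]))).1
  have hslope_ker : ∀ W hW hWi, slope W hW hWi ≠ 0 → ∀ a, slope W hW hWi a = 0 → a = 0 := by
    intro W hW hWi hne a ha
    have hW0 : W ≠ V0 := fun e => hne (by subst e; exact hslope0)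
    have h1 := hslope_mem W hW hWi a
    rw [ha] at h1
    exact (hθ_inj (a' := 0) (b' := 0) ((hdisj hV0 hW (Ne.symm hW0) (hθD0 a) h1).trans (by simp [θ]))).1
  -- the effect of shears
  have hshear : ∀ (c d : P), I c o → I d o → d ≠ c → ∀ (kc : L), I O kc → I c kc → ∀ W, I W o → W ≠ c →
      ∃ g : G, g • o = o ∧ g • d = W ∧ (∀ y ∈ h.dirGrp c o, g * y * g⁻¹ = y) ∧
        (∀ t ∈ T, g * t * g⁻¹ ∈ T) ∧ (∀ t ∈ T, g * t * g⁻¹ * t⁻¹ ∈ h.dirGrp c o) := by
    intro c d hc hd hdc kc hOk hck W hW hWc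
    have hko : kc ≠ o := fun e => hO (e ▸ hOk)
    obtain ⟨g, hg, hgd⟩ := hfull c kc o hck hc (Ne.symm hko) d W hd hdc hW hWc
    have hgo : g • o = o := hg.2.2 o hc
    have hgO : g • O = O := hg.2.1 O hOk
    have hgO' : g⁻¹ • O = O := inv_smul_eq_iff.2 hgO.symm
    have hconj : ∀ t ∈ T, g * t * g⁻¹ ∈ T := by
      intro t ⟨u, hu⟩
      have := h.elat_conj hu g
      rw [hgo] at this
      exact ⟨_, this⟩
    have hpt : ∀ t : G, (g * t * g⁻¹) • O = g • t • O := fun t => by rw [mul_smul, mul_smul, hgO']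
    refine ⟨g, hgo, hgd, fun y hy => ?_, hconj, fun t ht => ?_⟩
    · refine hTfree (hconj y (hDT hc hy)) (hDT hc hy) hO ?_
      rw [hpt]
      exact hg.2.1 _ (hdirOn hck hy hOk)
    · obtain ⟨m, htm, hcm⟩ := h.join (t • O) c
      have hmo : m ≠ o := fun e => hTaff ht hO (e ▸ htm)
      refine hdir hc hcm hmo ht (hconj t ht) htm ?_
      rw [hpt]
      exact h.mem_of_fix_line (hg.2.2 m hcm) htm
  obtain ⟨ki, hOki, hViki⟩ := h.join O Vi
  obtain ⟨k0, hOk0, hV0k0⟩ := h.join O V0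
  haveI : Finite (AddMonoid.End A) :=
    Finite.of_injective (fun f : AddMonoid.End A => (f : A → A)) DFunLike.coe_injective
  let S : AddSubgroup (AddMonoid.End A) := AddSubgroup.closure {r | ∃ W hW hWi, slope W hW hWi = r}
  have hadd : ∀ W hW hWi U hU hUi, ∃ Z hZ hZi, slope Z hZ hZi = slope W hW hWi + slope U hU hUi := by
    intro W hW hWi U hU hUi
    obtain ⟨g, hgo, hgd, hfix, hconj, hdiff⟩ := hshear Vi V0 hVi hV0 hV0i ki hOki hViki W hW hWi
    have hact : ∀ a b, g * θ a b * g⁻¹ = θ a (slope W hW hWi a + b) := by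
      intro a b
      obtain ⟨a', b', hab⟩ := hθ_surj _ (hconj _ (hθT a 0))
      have h1 : θ a' b' ∈ h.dirGrp W o := by
        have := h.elat_conj ((h.mem_dirGrp' hV0).1 (hθD0 a)) g
        rw [hgd, hgo, ← hab] at this
        exact (h.mem_dirGrp' hW).2 this
      have h2 : θ (a' - a) b' ∈ Di := by
        have := hdiff _ (hθT a 0)
        rw [← hab, show θ a' b' = θ (a' - a) b' * θ a 0 by rw [← hθ_add, sub_add_cancel, add_zero],
          mul_inv_cancel_right] at this
        exact this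
      have e1 : a' = a := sub_eq_zero.1 ((hDi_iff _ _).1 h2)
      subst e1
      rw [(hslope_iff W hW hWi _ _).1 h1] at hab
      calc g * θ a' b * g⁻¹ = g * θ a' 0 * g⁻¹ * (g * θ 0 b * g⁻¹) := by
            rw [show θ a' b = θ a' 0 * θ 0 b by rw [← hθ_add, add_zero, zero_add]]; group
        _ = θ a' (slope W hW hWi a' + b) := by
            rw [← hab, hfix _ (hθDi b), ← hθ_add, add_zero]
    have hgUi : g • U ≠ Vi := by
      intro e
      have h1 := h.elat_conj ((h.mem_dirGrp' hU).1 (hslope_mem U hU hUi a₁)) g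
      rw [e, hgo, hact] at h1
      exact ha₁ ((hDi_iff _ _).1 ((h.mem_dirGrp' hVi).2 h1))
    have hgU : I (g • U) o := h.mem_of_fix_line hgo hU
    refine ⟨_, hgU, hgUi, AddMonoidHom.ext fun a => ?_⟩
    have h1 := h.elat_conj ((h.mem_dirGrp' hU).1 (hslope_mem U hU hUi a)) g
    rw [hgo, hact] at h1
    exact ((hslope_iff _ hgU hgUi _ _).1 ((h.mem_dirGrp' hgU).2 h1)).symm
  have hSmem : ∀ r ∈ S, ∃ W hW hWi, slope W hW hWi = r := by
    intro r hr
    have hr' : r ∈ AddSubmonoid.closure {r | ∃ W hW hWi, slope W hW hWi = r} := by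
      rw [← AddSubgroup.closure_toAddSubmonoid_of_finite]
      exact hr
    induction hr' using AddSubmonoid.closure_induction with
    | mem x hx => exact hx
    | zero => exact ⟨V0, hV0, hV0i, hslope0⟩
    | add x y hx hy ihx ihy =>
      obtain ⟨W, hW, hWi, rfl⟩ := ihx (AddSubgroup.le_closure_toAddSubmonoid _ hx)
      obtain ⟨U, hU, hUi, rfl⟩ := ihy (AddSubgroup.le_closure_toAddSubmonoid _ hy)
      exact hadd W hW hWi U hU hUi
  have hS1 : (1 : AddMonoid.End A) ∈ S := AddSubgroup.subset_closure ⟨V1, hV1, hV1i, hslope1⟩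
  have hinv : Cfsg.Agent.LAE62.InvClosed S := by
    refine ⟨hS1, fun J hJ hJ0 => ?_⟩
    obtain ⟨U, hU, hUi, hK⟩ := hSmem (J - 1) (S.sub_mem hJ hS1)
    obtain ⟨W, hW, hWi, hWJ⟩ := hSmem J hJ
    obtain ⟨g, hgo, hgd, hfix, hconj, hdiff⟩ := hshear V0 Vi hV0 hVi (Ne.symm hV0i) k0 hOk0 hV0k0 V1 hV1 hV10
    have hact : ∀ a b, g * θ a b * g⁻¹ = θ (a + b) b := by
      intro a b
      obtain ⟨a', b', hab⟩ := hθ_surj _ (hconj _ (hθT 0 b))
      have h1 : θ a' b' ∈ h.dirGrp V1 o := by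
        have := h.elat_conj ((h.mem_dirGrp' hVi).1 (hθDi b)) g
        rw [hgd, hgo, ← hab] at this
        exact (h.mem_dirGrp' hV1).2 this
      have hb' : b' = a' := by
        have := (hslope_iff V1 hV1 hV1i _ _).1 h1
        rwa [hslope1] at this
      have h2 : θ a' (b' - b) ∈ D0 := by
        have := hdiff _ (hθT 0 b)
        rw [← hab, show θ a' b' = θ a' (b' - b) * θ 0 b by rw [← hθ_add, sub_add_cancel, add_zero],
          mul_inv_cancel_right] at this
        exact this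
      have h3 := (hslope_iff V0 hV0 hV0i _ _).1 h2
      rw [hslope0] at h3
      have hbb : b' = b := sub_eq_zero.1 h3
      rw [← hb', hbb] at hab
      calc g * θ a b * g⁻¹ = g * θ a 0 * g⁻¹ * (g * θ 0 b * g⁻¹) := by
            rw [show θ a b = θ a 0 * θ 0 b by rw [← hθ_add, add_zero, zero_add]]; group
        _ = θ (a + b) b := by rw [hfix _ (hθD0 a), ← hab, ← hθ_add, zero_add]
    have hJeq : ∀ a, a + slope U hU hUi a = J a := fun a => by
      rw [hK]; show a + (J a - a) = J a; abel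
    have hgUi : g • U ≠ Vi := by
      intro e
      have h1 := h.elat_conj ((h.mem_dirGrp' hU).1 (hslope_mem U hU hUi a₁)) g
      rw [e, hgo, hact, hJeq] at h1
      have h2 := (hDi_iff _ _).1 ((h.mem_dirGrp' hVi).2 h1)
      exact ha₁ (hslope_ker W hW hWi (hWJ.symm ▸ hJ0) a₁ (by rw [hWJ]; exact h2))
    have hgU : I (g • U) o := h.mem_of_fix_line hgo hU
    have e1 : slope _ hgU hgUi * J = J - 1 := by
      refine AddMonoidHom.ext fun a => ?_
      have h1 := h.elat_conj ((h.mem_dirGrp' hU).1 (hslope_mem U hU hUi a)) g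
      rw [hgo, hact, hJeq] at h1
      have h2 := (hslope_iff _ hgU hgUi _ _).1 ((h.mem_dirGrp' hgU).2 h1)
      rw [hK] at h2
      exact h2.symm
    have e2 : (1 - slope _ hgU hgUi) * J = 1 := by rw [sub_mul, one_mul, e1, sub_sub_cancel]
    exact ⟨_, S.sub_mem hS1 (AddSubgroup.subset_closure ⟨_, hgU, hgUi, rfl⟩), mul_eq_one_comm.1 e2, e2⟩
  -- the field
  haveI : Nontrivial (AddMonoid.End A) := ⟨⟨1, 0, fun e => ha₁ (DFunLike.congr_fun e a₁)⟩⟩
  have hcm := hinv.commute
  obtain ⟨F, _, _, ι, hι, hrange⟩ := exists_small_field (hinv.toSubring hcm) hcm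
    (fun a ha h0 => (hinv.exists_inv a ha h0).imp fun b hb => ⟨hb.1, hb.2.1⟩)
  have hrangeS : ∀ f, ι f ∈ S := fun f => (hrange _).2 ⟨f, rfl⟩
  choose Wf hWf hWfi hWfs using fun f => hSmem (ι f) (hrangeS f)
  have hWsurj : ∀ W, I W o → W ≠ Vi → ∃ f, Wf f = W := by
    intro W hW hWi
    obtain ⟨f, hf⟩ := (hrange _).1
      (show slope W hW hWi ∈ hinv.toSubring hcm from AddSubgroup.subset_closure ⟨W, hW, hWi, rfl⟩)
    exact ⟨f, hslope_inj _ (hWf f) (hWfi f) _ hW hWi (by rw [hWfs, hf])⟩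
  have hWinj : Function.Injective Wf := by
    intro f g e
    refine hι ?_
    rw [← hWfs f, ← hWfs g]
    congr 1
  have hcardF : Fintype.card F = n := by
    rw [← Nat.card_eq_fintype_card, ← h.ncard_pts_ne hVi, ← Nat.card_coe_set_eq]
    exact Nat.card_eq_of_bijective (fun f => (⟨Wf f, hWf f, hWfi f⟩ : {p | I p o ∧ p ≠ Vi}))
      ⟨fun f g e => hWinj (congrArg Subtype.val e),
        fun w => (hWsurj w.1 w.2.1 w.2.2).imp fun f hf => Subtype.ext hf⟩
  let α : F →+ A :=
    { toFun := fun f => ι f a₁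
      map_zero' := by rw [map_zero]; rfl
      map_add' := fun f g => by rw [map_add]; rfl }
  have hα : Function.Bijective α := by
    refine (Nat.bijective_iff_injective_and_card _).2 ⟨(injective_iff_map_eq_zero α).2 fun f hf => ?_,
      by rw [Nat.card_eq_fintype_card, hcardF, show Nat.card A = n from hcardD V0 hV0]⟩
    by_contra hf0
    exact ha₁ (hslope_ker _ (hWf f) (hWfi f) (by rw [hWfs]; exact fun e => hf0 (hι (e.trans (map_zero ι).symm)))
      a₁ (by rw [hWfs]; exact hf))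
  have hslopeα : ∀ s f, slope _ (hWf s) (hWfi s) (α f) = α (s * f) := by
    intro s f
    rw [hWfs]
    show ι s (ι f a₁) = ι (s * f) a₁
    rw [map_mul]
    rfl
  let pt : F → F → P := fun u w => θ (α u) (α w) • O
  have hpt_off : ∀ u w, ¬ I (pt u w) o := fun u w => hTaff (hθT _ _) hO
  have hpt_inj : ∀ {u w u' w'}, pt u w = pt u' w' → u = u' ∧ w = w' := fun {u w u' w'} e => by
    obtain ⟨e1, e2⟩ := hθ_inj (hTfree (hθT _ _) (hθT _ _) hO e)
    exact ⟨hα.1 e1, hα.1 e2⟩
  have hpt_surj : ∀ B, ¬ I B o → ∃ u w, pt u w = B := by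
    intro B hB
    obtain ⟨t, ht, rfl⟩ := htrans B hB
    obtain ⟨a, b, rfl⟩ := hθ_surj t ht
    obtain ⟨u, rfl⟩ := hα.2 a
    obtain ⟨w, rfl⟩ := hα.2 b
    exact ⟨u, w, rfl⟩
  have hline : ∀ (W : P) (m : L) u w u' w', I W o → I W m → m ≠ o → I (pt u w) m →
      (I (pt u' w') m ↔ θ (α (u' - u)) (α (w' - w)) ∈ h.dirGrp W o) := by
    intro W m u w u' w' hW hWm hmo h0
    have e : θ (α (u' - u)) (α (w' - w)) * θ (α u) (α w) = θ (α u') (α w') := by
      rw [← hθ_add, ← map_add, ← map_add, sub_add_cancel, sub_add_cancel]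
    constructor
    · intro h1
      have := hdir hW hWm hmo (hθT _ _) (hθT _ _) h0 h1
      rwa [← e, mul_inv_cancel_right] at this
    · intro h1
      have := hdirOn hWm h1 h0
      rwa [← mul_smul, e] at this
  refine ⟨F, inferInstance, inferInstance, o, Vi, pt, Wf, hcardF,
    ⟨hVi, hWf, hWfi, hWinj, hWsurj, hpt_off, hpt_inj, hpt_surj, ?_, ?_⟩⟩
  · intro m u w u' w' hVm hmo h0
    rw [hline Vi m u w u' w' hVi hVm hmo h0, hDi_iff, map_eq_zero_iff α hα.1, sub_eq_zero]
  · intro m s u w u' w' hWm hmo h0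
    rw [hline _ m u w u' w' (hWf s) hWm hmo h0, hslope_iff _ (hWf s) (hWfi s), hslopeα, hα.1.eq_iff]

theorem exists_coord (hfull : FullElations G I) :
    ∃ (F : Type) (_ : Field F) (_ : Fintype F) (v : P → Fin 3 → F) (hv : ∀ p, v p ≠ 0),
      Fintype.card F = n ∧ Function.Injective (fun p => Projectivization.mk F (v p) (hv p)) ∧
      ∀ l : L, ∃ c : Fin 3 → F, c ≠ 0 ∧ ∀ p, I p l ↔ c 0 * v p 0 + c 1 * v p 1 + c 2 * v p 2 = 0 := by
  classical
  obtain ⟨F, _, _, o, Vi, pt, Wf, hcardF, hfr⟩ := h.exists_frame hfull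
  let IsCoord : P → (Fin 3 → F) → Prop := fun p v =>
    (∃ u w, v = ![1, u, w] ∧ pt u w = p) ∨ (∃ s, v = ![0, 1, s] ∧ Wf s = p) ∨ (v = ![0, 0, 1] ∧ Vi = p)
  have hex : ∀ p, ∃ v, IsCoord p v := by
    intro p
    by_cases hp : I p o
    · by_cases hpi : p = Vi
      · exact ⟨_, Or.inr (Or.inr ⟨rfl, hpi.symm⟩)⟩
      · obtain ⟨s, hs⟩ := hfr.dir_surj p hp hpi
        exact ⟨_, Or.inr (Or.inl ⟨s, rfl, hs⟩)⟩
    · obtain ⟨u, w, huw⟩ := hfr.surj p hp
      exact ⟨_, Or.inl ⟨u, w, rfl, huw⟩⟩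
  choose v hv using hex
  have hv0 : ∀ p, v p ≠ 0 := by
    intro p e
    rcases hv p with ⟨u, w, e1, -⟩ | ⟨s, e1, -⟩ | ⟨e1, -⟩
    · simpa [e] using congrFun e1 0
    · simpa [e] using congrFun e1 1
    · simpa [e] using congrFun e1 2
  refine ⟨F, inferInstance, inferInstance, v, hv0, hcardF, ?_, ?_⟩
  · intro p q e
    obtain ⟨c, hc⟩ := (Projectivization.mk_eq_mk_iff' F _ _ (hv0 p) (hv0 q)).1 e
    rcases hv p with ⟨u, w, e1, hp⟩ | ⟨s, e1, hp⟩ | ⟨e1, hp⟩ <;>
      rcases hv q with ⟨u', w', e2, hq⟩ | ⟨s', e2, hq⟩ | ⟨e2, hq⟩ <;>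
      rw [e1, e2] at hc <;>
      have c0 := congrFun hc 0 <;> have c1 := congrFun hc 1 <;> have c2 := congrFun hc 2 <;>
      simp at c0 c1 c2 <;> simp_all
  · intro l
    by_cases hlo : l = o
    · refine ⟨![1, 0, 0], fun e => by simpa using congrFun e 0, fun p => ?_⟩
      subst hlo
      rcases hv p with ⟨u, w, e1, hp⟩ | ⟨s, e1, hp⟩ | ⟨e1, hp⟩ <;> rw [e1, ← hp]
      · simpa using hfr.off u w
      · simpa using hfr.dir_mem s
      · simpa using hfr.inf_mem
    obtain ⟨W, hWl, hWo⟩ := h.meet l o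
    obtain ⟨B, hBl, hBW, -⟩ := h.exists_pt_on l W W
    obtain ⟨u₀, w₀, rfl⟩ := hfr.surj B fun e => hBW (h.point_eq hlo hBl hWl e hWo)
    by_cases hWi : W = Vi
    · subst hWi
      refine ⟨![-u₀, 1, 0], fun e => by simpa using congrFun e 1, fun p => ?_⟩
      rcases hv p with ⟨u, w, e1, hp⟩ | ⟨s, e1, hp⟩ | ⟨e1, hp⟩ <;> rw [e1, ← hp]
      · rw [hfr.vertical u w hWl hlo hBl]
        simp [neg_add_eq_sub, sub_eq_zero]
      · simp only [Matrix.cons_val_zero, Matrix.cons_val_one, Matrix.cons_val]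
        simp only [mul_zero, mul_one, zero_mul, zero_add, add_zero, one_ne_zero, iff_false]
        exact fun e => hfr.dir_ne s (h.point_eq hlo e hWl (hfr.dir_mem s) hWo)
      · simpa using hWl
    · obtain ⟨s₀, rfl⟩ := hfr.dir_surj W hWo hWi
      refine ⟨![-(w₀ - s₀ * u₀), -s₀, 1], fun e => by simpa using congrFun e 2, fun p => ?_⟩
      rcases hv p with ⟨u, w, e1, hp⟩ | ⟨s, e1, hp⟩ | ⟨e1, hp⟩ <;> rw [e1, ← hp]
      · rw [hfr.slanted u w hWl hlo hBl]
        simp only [Matrix.cons_val_zero, Matrix.cons_val_one, Matrix.cons_val]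
        constructor
        · intro e; linear_combination e
        · intro e; linear_combination e
      · simp only [Matrix.cons_val_zero, Matrix.cons_val_one, Matrix.cons_val]
        simp only [mul_zero, mul_one, one_mul, zero_add]
        rw [neg_add_eq_zero]
        exact ⟨fun e => hfr.dir_inj (h.point_eq hlo hWl e hWo (hfr.dir_mem s)), fun e => e ▸ hWl⟩
      · simp only [Matrix.cons_val_zero, Matrix.cons_val_one, Matrix.cons_val]
        simp only [mul_zero, mul_one, zero_add, one_ne_zero, iff_false]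
        exact fun e => hfr.dir_ne s₀ (h.point_eq hlo hWl e hWo hfr.inf_mem)

end Setting

end Cfsg.Agent.OWagner
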