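import Cfsg.Agent.OWagner.Persp

/-!
Subplanes, Baer's theorem on involutions, and congruences for fixed points.
-/

set_option autoImplicit false
set_option linter.all false

namespace Cfsg.Agent.OWagner

theorem card_modEq_fixed {G X : Type*} [Group G] [MulAction G X] [Finite X] {p : ℕ} [Fact p.Prime] (g : G)
    {k : ℕ} (hg : g ^ p ^ k = 1) : Nat.card X ≡ {x : X | g • x = x}.ncard [MOD p] := by
  have hP : IsPGroup p (Subgroup.zpowers g) := by
    intro y
    obtain ⟨j, hj⟩ := Subgroup.mem_zpowers_iff.1 y.2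
    refine ⟨k, Subtype.ext ?_⟩
    rw [SubgroupClass.coe_pow, ← hj, Subgroup.coe_one, ← zpow_natCast, ← zpow_mul, mul_comm, zpow_mul,
      zpow_natCast, hg, one_zpow]
  have := hP.card_modEq_card_fixedPoints X
  have e : MulAction.fixedPoints (Subgroup.zpowers g) X = {x : X | g • x = x} := by
    ext x
    refine ⟨fun hx => hx ⟨g, Subgroup.mem_zpowers g⟩, fun hx y => ?_⟩
    obtain ⟨j, hj⟩ := Subgroup.mem_zpowers_iff.1 y.2
    have h1 : g ∈ MulAction.stabilizer G x := hx
    have h2 : (y : G) ∈ MulAction.stabilizer G x := hj ▸ zpow_mem h1 j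
    exact h2
  rwa [e, Nat.card_coe_set_eq] at this

/-- A subplane of order `s`. -/
structure SubPlane {P L : Type*} (I : P → L → Prop) (X : Set P) (Y : Set L) (s : ℕ) : Prop where
  two_le : 2 ≤ s
  join_mem : ∀ {p q : P} {l : L}, p ∈ X → q ∈ X → p ≠ q → I p l → I q l → l ∈ Y
  meet_mem : ∀ {l m : L} {p : P}, l ∈ Y → m ∈ Y → l ≠ m → I p l → I p m → p ∈ X
  card_pts : ∀ l ∈ Y, {p | p ∈ X ∧ I p l}.ncard = s + 1
  card_lns : ∀ p ∈ X, {l | l ∈ Y ∧ I p l}.ncard = s + 1
  cardX : X.ncard = s ^ 2 + s + 1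
  cardY : Y.ncard = s ^ 2 + s + 1

theorem SubPlane.dual {P L : Type*} {I : P → L → Prop} {X : Set P} {Y : Set L} {s : ℕ}
    (h : SubPlane I X Y s) : SubPlane (dualRel I) Y X s :=
  ⟨h.two_le, fun h1 h2 h3 h4 h5 => h.meet_mem h1 h2 h3 h4 h5, fun h1 h2 h3 h4 h5 => h.join_mem h1 h2 h3 h4 h5,
    h.card_lns, h.card_pts, h.cardY, h.cardX⟩

theorem SubPlane.univ {P L : Type*} {I : P → L → Prop} {n : ℕ} (h : IsPlane I n) :
    SubPlane I Set.univ Set.univ n :=
  ⟨h.two_le, fun _ _ _ _ _ => trivial, fun _ _ _ _ _ => trivial,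
    fun l _ => by simp only [Set.mem_univ, true_and]; exact h.card_pts l,
    fun p _ => by simp only [Set.mem_univ, true_and]; exact h.card_lns p,
    by rw [Set.ncard_univ, h.cardP], by rw [Set.ncard_univ, h.cardL]⟩

theorem SubPlane.toPlane {P L : Type*} [Finite P] [Finite L] {I : P → L → Prop} {n : ℕ} (hI : IsPlane I n)
    {X : Set P} {Y : Set L} {s : ℕ} (h : SubPlane I X Y s) :
    IsPlane (fun (p : X) (l : Y) => I p l) s where
  two_le := h.two_le
  join p q := by
    by_cases hpq : (p : P) = q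
    · obtain ⟨l, hl⟩ := Set.nonempty_of_ncard_ne_zero (s := {l | l ∈ Y ∧ I p l})
        (by rw [h.card_lns p p.2]; omega)
      exact ⟨⟨l, hl.1⟩, hl.2, hpq ▸ hl.2⟩
    · obtain ⟨l, h1, h2⟩ := hI.join p q
      exact ⟨⟨l, h.join_mem p.2 q.2 hpq h1 h2⟩, h1, h2⟩
  meet l m := by
    by_cases hlm : (l : L) = m
    · obtain ⟨p, hp⟩ := Set.nonempty_of_ncard_ne_zero (s := {p | p ∈ X ∧ I p l})
        (by rw [h.card_pts l l.2]; omega)
      exact ⟨⟨p, hp.1⟩, hp.2, hlm ▸ hp.2⟩
    · obtain ⟨p, h1, h2⟩ := hI.meet l m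
      exact ⟨⟨p, h.meet_mem l.2 m.2 hlm h1 h2⟩, h1, h2⟩
  unique h1 h2 h3 h4 := (hI.unique h1 h2 h3 h4).imp Subtype.ext Subtype.ext
  card_pts l := by
    rw [← h.card_pts l l.2, ← Set.ncard_image_of_injective _ Subtype.val_injective]
    congr 1
    ext p
    simp only [Set.mem_image, Set.mem_setOf_eq, Subtype.exists, exists_and_right, exists_eq_right]
    exact ⟨fun ⟨a, b⟩ => ⟨a, b⟩, fun ⟨a, b⟩ => ⟨a, b⟩⟩
  card_lns p := by
    rw [← h.card_lns p p.2, ← Set.ncard_image_of_injective _ Subtype.val_injective]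
    congr 1
    ext l
    simp only [Set.mem_image, Set.mem_setOf_eq, Subtype.exists, exists_and_right, exists_eq_right]
    exact ⟨fun ⟨a, b⟩ => ⟨a, b⟩, fun ⟨a, b⟩ => ⟨a, b⟩⟩
  cardP := by rw [Nat.card_coe_set_eq, h.cardX]
  cardL := by rw [Nat.card_coe_set_eq, h.cardY]

namespace Setting

variable {G P L : Type*} [Group G] [MulAction G P] [MulAction G L] {I : P → L → Prop} {n : ℕ}
  (h : Setting G I n) [Finite P] [Finite L]
include h

/-- Every point lies on a line fixed by an involution. -/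
theorem exists_fixed_line {g : G} (hg : g * g = 1) (p : P) : ∃ l, g • l = l ∧ I p l := by
  have moved : ∀ q, g • q ≠ q → ∃ l, g • l = l ∧ I q l := by
    intro q hq
    obtain ⟨l, h1, h2⟩ := h.join q (g • q)
    refine ⟨l, ?_, h1⟩
    have h1' := h.smul_mem (g := g) h1
    have h2' := h.smul_mem (g := g) h2
    rw [← mul_smul, hg, one_smul] at h2'
    exact h.line_eq (Ne.symm hq) h2' h1' h1 h2
  by_cases hp : g • p = p
  swap
  · exact moved p hp
  by_contra hc
  push Not at hc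
  obtain ⟨m, hm⟩ : ∃ m : L, g • m = m := by
    by_contra hm
    push Not at hm
    have h1 := h.fixed_eq g
    rw [show {l : L | g • l = l} = ∅ from Set.eq_empty_of_forall_notMem fun l hl => hm l hl,
      Set.ncard_empty, Set.ncard_eq_zero (Set.toFinite _)] at h1
    exact (Set.eq_empty_iff_forall_notMem.1 h1) p hp
  have huniq : ∀ m', g • m' = m' → m' = m := by
    intro m' hm'
    by_contra hne
    obtain ⟨X, hXm', hXm⟩ := h.meet m' m
    have hX := h.fix_point hne hXm' hXm hm' hm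
    have hpX : p ≠ X := fun e => hc m hm (e ▸ hXm)
    obtain ⟨k, hpk, hXk⟩ := h.join p X
    exact hc k (h.fix_line hpX hpk hXk hp hX) hpk
  obtain ⟨q, hqm, hqp⟩ := h.exists_pt_off m p
  by_cases hq : g • q = q
  · obtain ⟨k, hpk, hqk⟩ := h.join p q
    exact hc k (h.fix_line (Ne.symm hqp) hpk hqk hp hq) hpk
  · obtain ⟨k, hk, hqk⟩ := moved q hq
    exact hqm (huniq k hk ▸ hqk)

theorem exists_fixed_pt {g : G} (hg : g * g = 1) (l : L) : ∃ p, g • p = p ∧ I p l :=
  h.dual.exists_fixed_line hg l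

/-- For an involution with no centre, a fixed line has at least `n` fixed points off it. -/
theorem le_fixed_off {g : G} (hg : g * g = 1) (hnc : ∀ l : L, ¬ Axial I g l) {p : P}
    (hp : g • p = p) : ∀ {k : L}, I p k → g • k ≠ k → n ≤ {m : L | g • m = m ∧ ¬ I p m}.ncard := by
  intro k hpk hk
  choose f hf1 hf2 using h.exists_fixed_line hg
  rw [← h.ncard_pts_ne hpk]
  refine Set.ncard_le_ncard_of_injOn f (fun q ⟨hq, hqp⟩ => ⟨hf1 q, fun hpf => ?_⟩) ?_ (Set.toFinite _)
  · exact hk (h.line_eq hqp (hf2 q) hpf hq hpk ▸ hf1 q)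
  · rintro q ⟨hq, hqp⟩ q' ⟨hq', hqp'⟩ e
    by_contra hne
    have : f q = k := h.line_eq hne (hf2 q) (e ▸ hf2 q') hq hq'
    exact hk (this ▸ hf1 q)

theorem baer {g : G} (hg : g * g = 1) :
    (∃ l c, Axial I g l ∧ Central I g c) ∨
      ∃ m, n = m ^ 2 ∧ SubPlane I {p | g • p = p} {l | g • l = l} m := by
  by_cases hax : ∃ l, Axial I g l
  · obtain ⟨l, hl⟩ := hax
    obtain ⟨c, hc⟩ := h.exists_center hl
    exact Or.inl ⟨l, c, hl, hc⟩
  by_cases hce : ∃ c, Central I g c
  · obtain ⟨c, hc⟩ := hce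
    obtain ⟨l, hl⟩ := h.exists_axis hc
    exact Or.inl ⟨l, c, hl, hc⟩
  push Not at hax hce
  refine Or.inr ?_
  have hoffP : ∀ p, g • p = p → ∃ m, g • m = m ∧ ¬ I p m := by
    intro p hp
    have := hce p
    simp only [Central, Axial, not_forall] at this
    obtain ⟨k, hpk, hk⟩ := this
    have := h.le_fixed_off hg hax hp hpk hk
    exact Set.nonempty_of_ncard_ne_zero (s := {m : L | g • m = m ∧ ¬ I p m}) (by have := h.two_le; omega)
  have hoffL : ∀ l, g • l = l → n ≤ {p : P | g • p = p ∧ ¬ I p l}.ncard := by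
    intro l hl
    have := hax l
    simp only [Axial, not_forall] at this
    obtain ⟨p, hpl, hp⟩ := this
    exact h.dual.le_fixed_off hg hce hl hpl hp
  have hbij : ∀ p l, g • p = p → g • l = l → ¬ I p l →
      {m : L | g • m = m ∧ I p m}.ncard = {q : P | g • q = q ∧ I q l}.ncard := by
    intro p l hp hl hpl
    have hne : ∀ m, I p m → m ≠ l := fun m hm e => hpl (e ▸ hm)
    choose f hf using fun m => h.meet m l
    refine Set.ncard_congr (fun m _ => f m)
      (fun m hm => ⟨h.fix_point (hne m hm.2) (hf m).1 (hf m).2 hm.1 hl, (hf m).2⟩) ?_ ?_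
    · intro m m' hm hm' e
      exact h.line_eq (fun e' => hpl (by rw [e']; exact (hf m).2)) hm.2 (hf m).1 hm'.2 (e ▸ (hf m').1)
    · rintro q ⟨hq, hql⟩
      obtain ⟨m, hpm, hqm⟩ := h.join p q
      exact ⟨m, ⟨h.fix_line (fun e => hpl (by rw [e]; exact hql)) hpm hqm hp hq, hpm⟩,
        h.point_eq (hne m hpm) (hf m).1 hqm (hf m).2 hql⟩
  have hconstL : ∀ l m : L, g • l = l → g • m = m →
      {q : P | g • q = q ∧ I q l}.ncard = {q : P | g • q = q ∧ I q m}.ncard := by
    intro l m hl hm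
    by_cases hlm : l = m
    · rw [hlm]
    obtain ⟨p, hp, hpl, hpm⟩ : ∃ p, g • p = p ∧ ¬ I p l ∧ ¬ I p m := by
      by_contra hc
      push Not at hc
      obtain ⟨X, hXl, hXm⟩ := h.meet l m
      have hsub : {p : P | g • p = p ∧ ¬ I p l} ⊆ {p | I p m ∧ p ≠ X} :=
        fun p hp => ⟨hc p hp.1 hp.2, fun e => hp.2 (e ▸ hXl)⟩
      have heq := Set.eq_of_subset_of_ncard_le hsub (by rw [h.ncard_pts_ne hXm]; exact hoffL l hl)
        (Set.toFinite _)
      refine hax m fun p hp => ?_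
      by_cases hpX : p = X
      · rw [hpX]; exact h.fix_point hlm hXl hXm hl hm
      · exact (heq.symm ▸ ⟨hp, hpX⟩ : p ∈ {p : P | g • p = p ∧ ¬ I p l}).1
    rw [← hbij p l hp hl hpl, hbij p m hp hm hpm]
  obtain ⟨l₀, hl₀, -⟩ := h.exists_fixed_line hg (Classical.choice (show Nonempty P from
    (Nat.card_pos_iff.1 (by rw [h.cardP]; omega)).1))
  obtain ⟨p₀, hp₀, hp₀l⟩ : ∃ p, g • p = p ∧ ¬ I p l₀ :=
    Set.nonempty_of_ncard_ne_zero (s := {p : P | g • p = p ∧ ¬ I p l₀})
      (by have := hoffL l₀ hl₀; have := h.two_le; omega)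
  obtain ⟨c, hcdef⟩ : ∃ c, {q : P | g • q = q ∧ I q l₀}.ncard = c := ⟨_, rfl⟩
  have hL : ∀ l, g • l = l → {q : P | g • q = q ∧ I q l}.ncard = c :=
    fun l hl => (hconstL l l₀ hl hl₀).trans hcdef
  have hP : ∀ p, g • p = p → {m : L | g • m = m ∧ I p m}.ncard = c := by
    intro p hp
    obtain ⟨m, hm, hpm⟩ := hoffP p hp
    rw [hbij p m hp hm hpm, hL m hm]
  classical
  haveI := Fintype.ofFinite P
  haveI := Fintype.ofFinite L
  have hc0 : 1 ≤ c := by
    obtain ⟨p, hp, hpl⟩ := h.exists_fixed_pt hg l₀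
    rw [← hcdef]
    exact (Set.ncard_pos (Set.toFinite _)).2 ⟨p, hp, hpl⟩
  have hcn : c ≤ n := by
    by_contra hcn
    have hsub : {q : P | g • q = q ∧ I q l₀} ⊆ {q | I q l₀} := fun q hq => hq.2
    have heq := Set.eq_of_subset_of_ncard_le hsub (by rw [h.card_pts, hcdef]; omega) (Set.toFinite _)
    exact hax l₀ fun q hq => (heq.symm ▸ hq : q ∈ {q : P | g • q = q ∧ I q l₀}).1
  -- the number of fixed points
  choose j hj1 hj2 using fun q => h.join p₀ q
  have hF : {p : P | g • p = p}.ncard = 1 + c * (c - 1) := by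
    have h1 : ({p : P | g • p = p} \ {p₀}).ncard = c * (c - 1) := by
      rw [Set.ncard_eq_toFinset_card']
      rw [Finset.card_eq_sum_card_fiberwise (f := j) (t := {m : L | g • m = m ∧ I p₀ m}.toFinset)
        (fun q hq => by
          simp only [Set.coe_toFinset, Set.mem_diff, Set.mem_setOf_eq, Set.mem_singleton_iff] at hq ⊢
          exact ⟨h.fix_line (Ne.symm hq.2) (hj1 q) (hj2 q) hp₀ hq.1, hj1 q⟩)]
      rw [Finset.sum_congr rfl (g := fun _ => c - 1) fun m hm => ?_, Finset.sum_const,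
        ← Set.ncard_eq_toFinset_card', hP p₀ hp₀, smul_eq_mul]
      simp only [Set.mem_toFinset, Set.mem_setOf_eq] at hm
      rw [← Set.ncard_coe_finset, ← hL m hm.1]
      rw [← Set.ncard_diff_singleton_of_mem (show p₀ ∈ {q : P | g • q = q ∧ I q m} from ⟨hp₀, hm.2⟩)]
      congr 1
      ext q
      simp only [Finset.coe_filter, Set.mem_toFinset, Set.mem_diff, Set.mem_setOf_eq,
        Set.mem_singleton_iff]
      constructor
      · rintro ⟨⟨hq, hqp⟩, rfl⟩
        exact ⟨⟨hq, hj2 q⟩, hqp⟩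
      · rintro ⟨⟨hq, hqm⟩, hqp⟩
        exact ⟨⟨hq, hqp⟩, h.line_eq (Ne.symm hqp) (hj1 q) (hj2 q) hm.2 hqm⟩
    rw [Set.ncard_diff_singleton_of_mem (show p₀ ∈ {p : P | g • p = p} from hp₀)] at h1
    have : 1 ≤ {p : P | g • p = p}.ncard := (Set.ncard_pos (Set.toFinite _)).2 ⟨p₀, hp₀⟩
    omega
  -- every moved point is on exactly one fixed line
  choose f hf1 hf2 using h.exists_fixed_line hg
  have hmoved : {p : P | ¬ g • p = p}.ncard = {l : L | g • l = l}.ncard * (n + 1 - c) := by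
    rw [Set.ncard_eq_toFinset_card']
    rw [Finset.card_eq_sum_card_fiberwise (f := f) (t := {l : L | g • l = l}.toFinset)
      (fun q hq => by simp only [Set.coe_toFinset, Set.mem_setOf_eq]; exact hf1 q)]
    rw [Finset.sum_congr rfl (g := fun _ => n + 1 - c) fun m hm => ?_, Finset.sum_const,
      ← Set.ncard_eq_toFinset_card', smul_eq_mul]
    simp only [Set.mem_toFinset, Set.mem_setOf_eq] at hm
    rw [← Set.ncard_coe_finset, ← hL m hm, ← h.card_pts m,
      ← Set.ncard_diff (show {q : P | g • q = q ∧ I q m} ⊆ {q | I q m} from fun q hq => hq.2)]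
    congr 1
    ext q
    simp only [Finset.coe_filter, Set.mem_toFinset, Set.mem_diff, Set.mem_setOf_eq]
    constructor
    · rintro ⟨hq, rfl⟩
      exact ⟨hf2 q, fun e => hq e.1⟩
    · rintro ⟨hqm, hq⟩
      refine ⟨fun e => hq ⟨e, hqm⟩, ?_⟩
      by_contra hne
      exact hq ⟨h.fix_point hne (hf2 q) hqm (hf1 q) hm, hqm⟩
  have htot := Set.ncard_add_ncard_compl {p : P | g • p = p} (Set.toFinite _) (Set.toFinite _)
  rw [show {p : P | g • p = p}ᶜ = {p : P | ¬ g • p = p} from rfl, hmoved, ← h.fixed_eq, hF, h.cardP] at htot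
  obtain ⟨m, rfl⟩ : ∃ m, c = m + 1 := ⟨c - 1, by omega⟩
  have hn : n = m ^ 2 := by
    obtain ⟨d, hd⟩ : ∃ d, n = m + 1 + d := ⟨n - (m + 1), by omega⟩
    rw [show n + 1 - (m + 1) = d + 1 by omega, Nat.add_sub_cancel, hd] at htot
    rw [hd]
    nlinarith
  refine ⟨m, hn, ?_, fun hp hq hne h1 h2 => h.fix_line hne h1 h2 hp hq,
    fun hl hm hne h1 h2 => h.fix_point hne h1 h2 hl hm, fun l hl => hL l hl, fun p hp => hP p hp, ?_, ?_⟩
  · have := h.two_le
    by_contra hm
    interval_cases m <;> simp at hn <;> omega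
  · rw [hF, Nat.add_sub_cancel]; ring
  · rw [← h.fixed_eq, hF, Nat.add_sub_cancel]; ring

/-- An involutory perspectivity is an elation exactly in even order. -/
theorem involution_parity {g : G} {c : P} {l : L} (hg : g * g = 1) (hg1 : g ≠ 1) (hl : Axial I g l)
    (hc : Central I g c) : I c l ↔ Even n := by
  haveI := Fact.mk Nat.prime_two
  have hmod := card_modEq_fixed (X := P) (p := 2) g (k := 1) (by rw [pow_one, pow_two]; exact hg)
  by_cases hcl : I c l
  · rw [show {x : P | g • x = x} = {x | I x l} from Set.ext fun x =>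
      ⟨fun hx => (h.fixed_cases hg1 hl hc hx).elim id fun e => e ▸ hcl, hl x⟩, h.card_pts, h.cardP] at hmod
    refine iff_of_true hcl ?_
    rcases Nat.even_or_odd n with he | ⟨k, rfl⟩
    · exact he
    · unfold Nat.ModEq at hmod
      ring_nf at hmod
      omega
  · rw [show {x : P | g • x = x} = insert c {x | I x l} from Set.ext fun x =>
      ⟨fun hx => (h.fixed_cases hg1 hl hc hx).elim Or.inr Or.inl,
        fun hx => hx.elim (fun e => e ▸ h.smul_center hc) (hl x)⟩,
      Set.ncard_insert_of_notMem (show c ∉ {x | I x l} from hcl) (Set.toFinite _), h.card_pts, h.cardP] at hmod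
    refine iff_of_false hcl ?_
    rintro ⟨k, rfl⟩
    unfold Nat.ModEq at hmod
    ring_nf at hmod
    omega

end Setting

end Cfsg.Agent.OWagner
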