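import Mathlib

/-!
Finite projective planes given by an incidence relation, with a group of collineations.
-/

set_option autoImplicit false
set_option linter.all false

namespace Cfsg.Agent.OWagner

/-- The dual of an incidence relation. -/
abbrev dualRel {P L : Type*} (I : P → L → Prop) : L → P → Prop := fun l p => I p l

/-- A finite projective plane of order `n`. -/
structure IsPlane {P L : Type*} (I : P → L → Prop) (n : ℕ) : Prop where
  two_le : 2 ≤ n
  join : ∀ p q : P, ∃ l, I p l ∧ I q l
  meet : ∀ l m : L, ∃ p, I p l ∧ I p m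
  unique : ∀ {p q : P} {l m : L}, I p l → I q l → I p m → I q m → p = q ∨ l = m
  card_pts : ∀ l, {p | I p l}.ncard = n + 1
  card_lns : ∀ p, {l | I p l}.ncard = n + 1
  cardP : Nat.card P = n ^ 2 + n + 1
  cardL : Nat.card L = n ^ 2 + n + 1

namespace IsPlane

variable {P L : Type*} {I : P → L → Prop} {n : ℕ} (h : IsPlane I n)
include h

theorem dual : IsPlane (dualRel I) n :=
  ⟨h.two_le, h.meet, h.join, fun h1 h2 h3 h4 => (h.unique h1 h3 h2 h4).symm, h.card_lns, h.card_pts,
    h.cardL, h.cardP⟩

theorem line_eq {p q : P} {l m : L} (hpq : p ≠ q) (h1 : I p l) (h2 : I q l) (h3 : I p m) (h4 : I q m) :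
    l = m := (h.unique h1 h2 h3 h4).resolve_left hpq

theorem point_eq {p q : P} {l m : L} (hlm : l ≠ m) (h1 : I p l) (h2 : I q l) (h3 : I p m) (h4 : I q m) :
    p = q := (h.unique h1 h2 h3 h4).resolve_right hlm

variable [Finite P] [Finite L]

/-- A line has a point avoiding two given points. -/
theorem exists_pt_on (l : L) (a b : P) : ∃ p, I p l ∧ p ≠ a ∧ p ≠ b := by
  by_contra hc
  push Not at hc
  have hsub : {p | I p l} ⊆ {a, b} := fun p hp => by
    by_cases ha : p = a
    · exact Or.inl ha
    · exact Or.inr (hc p hp ha)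
  have h1 := Set.ncard_le_ncard hsub (Set.toFinite _)
  have h2 : ({a, b} : Set P).ncard ≤ 2 := by
    refine (Set.ncard_insert_le a {b}).trans ?_
    simp
  have := h.two_le
  rw [h.card_pts] at h1
  omega

theorem exists_pt_off_two (l m : L) : ∃ p, ¬ I p l ∧ ¬ I p m := by
  by_contra hc
  push Not at hc
  have hsub : (Set.univ : Set P) ⊆ {p | I p l} ∪ {p | I p m} := fun p _ => by
    by_cases hl : I p l
    · exact Or.inl hl
    · exact Or.inr (hc p hl)
  have h1 := (Set.ncard_le_ncard hsub (Set.toFinite _)).trans (Set.ncard_union_le _ _)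
  rw [Set.ncard_univ, h.cardP, h.card_pts, h.card_pts] at h1
  have := h.two_le
  nlinarith

/-- There is a point off a line avoiding a given point. -/
theorem exists_pt_off (l : L) (a : P) : ∃ p, ¬ I p l ∧ p ≠ a := by
  by_contra hc
  push Not at hc
  have hsub : (Set.univ : Set P) ⊆ insert a {p | I p l} := fun p _ => by
    by_cases hl : I p l
    · exact Or.inr hl
    · exact Or.inl (hc p hl)
  have h1 := (Set.ncard_le_ncard hsub (Set.toFinite _)).trans (Set.ncard_insert_le _ _)
  rw [Set.ncard_univ, h.cardP, h.card_pts] at h1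
  have := h.two_le
  nlinarith

theorem ncard_off (l : L) : {p | ¬ I p l}.ncard = n ^ 2 := by
  have h1 := Set.ncard_add_ncard_compl {p | I p l} (Set.toFinite _) (Set.toFinite _)
  rw [h.card_pts, h.cardP, show {p | I p l}ᶜ = {p | ¬ I p l} from rfl] at h1
  omega

theorem ncard_pts_ne {l : L} {c : P} (hc : I c l) : {p | I p l ∧ p ≠ c}.ncard = n := by
  have : {p | I p l ∧ p ≠ c} = {p | I p l} \ {c} := rfl
  rw [this, Set.ncard_diff_singleton_of_mem (show c ∈ {p | I p l} from hc), h.card_pts]
  omega

theorem nonempty_pts (l : L) : ∃ p, I p l := by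
  apply Set.nonempty_of_ncard_ne_zero (s := {p | I p l})
  rw [h.card_pts]; omega

end IsPlane

/-- A finite projective plane with a faithful group of collineations. -/
structure Setting (G : Type*) [Group G] {P L : Type*} [MulAction G P] [MulAction G L] (I : P → L → Prop)
    (n : ℕ) : Prop extends IsPlane I n where
  compat : ∀ (g : G) (p : P) (l : L), I (g • p) (g • l) ↔ I p l
  faithful : ∀ g : G, (∀ p : P, g • p = p) → g = 1

/-- All points of the line `l` are fixed. -/
def Axial {G P L : Type*} [SMul G P] (I : P → L → Prop) (g : G) (l : L) : Prop := ∀ p, I p l → g • p = p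

/-- All lines through the point `c` are fixed. -/
abbrev Central {G P L : Type*} [SMul G L] (I : P → L → Prop) (g : G) (c : P) : Prop := Axial (dualRel I) g c

namespace Setting

variable {G P L : Type*} [Group G] [MulAction G P] [MulAction G L] {I : P → L → Prop} {n : ℕ}
  (h : Setting G I n)
include h

theorem smul_mem {g : G} {p : P} {l : L} (hp : I p l) : I (g • p) (g • l) := (h.compat g p l).2 hp

theorem mem_of_fix_line {g : G} {p : P} {l : L} (hl : g • l = l) (hp : I p l) : I (g • p) l := by
  have := h.smul_mem (g := g) hp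
  rwa [hl] at this

theorem mem_of_fix_point {g : G} {p : P} {l : L} (hl : g • p = p) (hp : I p l) : I p (g • l) := by
  have := h.smul_mem (g := g) hp
  rwa [hl] at this

theorem fix_line {g : G} {p q : P} {l : L} (hpq : p ≠ q) (hp : I p l) (hq : I q l) (gp : g • p = p)
    (gq : g • q = q) : g • l = l :=
  h.line_eq hpq (h.mem_of_fix_point gp hp) (h.mem_of_fix_point gq hq) hp hq

theorem fix_point {g : G} {p : P} {l m : L} (hlm : l ≠ m) (hl : I p l) (hm : I p m) (gl : g • l = l)
    (gm : g • m = m) : g • p = p :=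
  h.point_eq hlm (h.mem_of_fix_line gl hl) hl (h.mem_of_fix_line gm hm) hm

theorem dual [Finite P] [Finite L] : Setting G (dualRel I) n where
  toIsPlane := h.toIsPlane.dual
  compat g l p := h.compat g p l
  faithful g hg := by
    refine h.faithful g fun p => ?_
    obtain ⟨l, hl⟩ := h.toIsPlane.dual.nonempty_pts p
    obtain ⟨m, hm, hne, -⟩ := h.toIsPlane.dual.exists_pt_on p l l
    exact h.fix_point (Ne.symm hne) hl hm (hg l) (hg m)

/-- A collineation fixes as many points as lines. -/
theorem fixed_eq [Finite P] [Finite L] (g : G) :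
    {p : P | g • p = p}.ncard = {l : L | g • l = l}.ncard := by
  classical
  haveI := Fintype.ofFinite P
  haveI := Fintype.ofFinite L
  have hp : ∀ p : P, (Finset.univ.filter fun l => I p l ∧ I (g • p) l).card =
      (if g • p = p then n else 0) + 1 := by
    intro p
    rw [← Set.ncard_coe_finset, Finset.coe_filter_univ]
    split_ifs with hf
    · rw [show {l | I p l ∧ I (g • p) l} = {l | I p l} by ext l; simp [hf], h.card_lns]
    · obtain ⟨l, h1, h2⟩ := h.join p (g • p)
      rw [show {x | I p x ∧ I (g • p) x} = {l} by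
        ext x; exact ⟨fun hx => h.line_eq (Ne.symm hf) hx.1 hx.2 h1 h2, fun hx => hx ▸ ⟨h1, h2⟩⟩]
      simp
  have hl : ∀ l : L, (Finset.univ.filter fun p => I p l ∧ I (g • p) l).card =
      (if g • l = l then n else 0) + 1 := by
    intro l
    rw [← Set.ncard_coe_finset, Finset.coe_filter_univ]
    have e : ∀ p, I (g • p) l ↔ I p (g⁻¹ • l) := fun p => by
      rw [← h.compat g p (g⁻¹ • l), smul_inv_smul]
    split_ifs with hf
    · rw [show {p | I p l ∧ I (g • p) l} = {p | I p l} by
        ext p; simp [e, inv_smul_eq_iff.2 hf.symm], h.card_pts]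
    · obtain ⟨p, h1, h2⟩ := h.meet l (g⁻¹ • l)
      have hne : l ≠ g⁻¹ • l := fun e' => hf (inv_smul_eq_iff.1 e'.symm).symm
      rw [show {x | I x l ∧ I (g • x) l} = {p} by
        ext x; exact ⟨fun hx => h.point_eq hne hx.1 h1 ((e x).1 hx.2) h2,
          fun hx => hx ▸ ⟨h1, (e p).2 h2⟩⟩]
      simp
  have hsum := Finset.sum_card_bipartiteAbove_eq_sum_card_bipartiteBelow
    (r := fun p l => I p l ∧ I (g • p) l) (s := (Finset.univ : Finset P)) (t := (Finset.univ : Finset L))
  simp only [Finset.bipartiteAbove, Finset.bipartiteBelow] at hsum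
  rw [Finset.sum_congr rfl fun p _ => hp p, Finset.sum_congr rfl fun l _ => hl l, Finset.sum_add_distrib,
    Finset.sum_add_distrib, ← Finset.sum_filter, ← Finset.sum_filter] at hsum
  simp only [Finset.sum_const, smul_eq_mul, Finset.card_univ, mul_one] at hsum
  rw [← Nat.card_eq_fintype_card, ← Nat.card_eq_fintype_card, h.cardP, h.cardL, add_left_inj,
    ← Set.ncard_coe_finset, ← Set.ncard_coe_finset, Finset.coe_filter_univ, Finset.coe_filter_univ] at hsum
  exact Nat.eq_of_mul_eq_mul_right (by have := h.two_le; omega) hsum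

end Setting

end Cfsg.Agent.OWagner
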