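import Cfsg.Agent.OWagner.Trans

/-!
Counting in the group of collineations fixing a line pointwise.
-/

set_option autoImplicit false
set_option linter.all false

namespace Cfsg.Agent.OWagner

/-- A free finite action divides the cardinality. -/
theorem card_dvd_of_free {G X : Type*} [Group G] [MulAction G X] [Finite X]
    (hfree : ∀ (g : G) (x : X), g • x = x → g = 1) : Nat.card G ∣ Nat.card X := by
  have hb : ∀ b : X, MulAction.stabilizer G b = ⊥ := fun b =>
    (Subgroup.eq_bot_iff_forall _).2 fun g hg => hfree g b hg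
  rw [Nat.card_congr (MulAction.selfEquivOrbitsQuotientProd hb), Nat.card_prod]
  exact dvd_mul_left _ _

theorem card_modEq_involutive {X : Type*} [Finite X] {f : X → X} (hf : Function.Involutive f) :
    Nat.card X ≡ {x | f x = x}.ncard [MOD 2] := by
  haveI := Fact.mk Nat.prime_two
  exact card_modEq_fixed (hf.toPerm f) (k := 1) (by ext x; simp [pow_two, hf x])

namespace Setting

variable {G P L : Type*} [Group G] [MulAction G P] [MulAction G L] {I : P → L → Prop} {n : ℕ}
  (h : Setting G I n) [Finite G] [Finite P] [Finite L]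
include h

/-- The elations with given centre and axis. -/
def dirGrp (_ : Setting G I n) (c : P) (l : L) : Subgroup G := axialGrp I l ⊓ axialGrp (dualRel I) c

theorem mem_dirGrp {c : P} {l : L} {g : G} : g ∈ h.dirGrp c l ↔ Axial I g l ∧ Central I g c := Iff.rfl

theorem mem_dirGrp' {c : P} {l : L} (hc : I c l) {g : G} : g ∈ h.dirGrp c l ↔ Elat I g c l :=
  ⟨fun hg => ⟨hc, hg.1, hg.2⟩, fun hg => ⟨hg.2.1, hg.2.2⟩⟩

theorem card_elGrp_dvd (l : L) : Nat.card (h.elGrp l) ∣ n ^ 2 := by
  let S : SubMulAction (h.elGrp l) P :=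
    { carrier := {p | ¬ I p l}
      smul_mem' := fun g p hp e => hp (by
        obtain ⟨c, hg⟩ := g.2
        have h1 : I ((g : G) • p) l := e
        have h2 := h.mem_of_fix_line (h.smul_axis hg.2.1.inv) h1
        rwa [inv_smul_smul] at h2) }
  have hfree : ∀ (g : h.elGrp l) (x : S), g • x = x → g = 1 := by
    intro g x e
    obtain ⟨c, hg⟩ := g.2
    exact Subtype.ext (h.elat_fixed hg (congrArg Subtype.val e) x.2)
  have := card_dvd_of_free hfree
  have e : Nat.card S = n ^ 2 := by rw [← h.ncard_off l, ← Nat.card_coe_set_eq]; rfl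
  rwa [e] at this

theorem card_dirGrp_dvd {c : P} {l : L} (hc : I c l) : Nat.card (h.dirGrp c l) ∣ n := by
  obtain ⟨m, hm, hml, -⟩ := h.dual.exists_pt_on c l l
  let S : SubMulAction (h.dirGrp c l) P :=
    { carrier := {p | I p m ∧ p ≠ c}
      smul_mem' := fun g p hp => by
        refine ⟨h.mem_of_fix_line (g.2.2 m hm) hp.1, fun e => hp.2 ?_⟩
        have e' : (g : G) • p = (g : G) • c := by rw [show (g : G) • p = c from e, h.smul_center g.2.2]
        exact MulAction.injective _ e' }
  have hfree : ∀ (g : h.dirGrp c l) (x : S), g • x = x → g = 1 := by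
    intro g x e
    refine Subtype.ext (h.elat_fixed ((h.mem_dirGrp' hc).1 g.2) (congrArg Subtype.val e) fun hx => x.2.2 ?_)
    exact h.point_eq hml x.2.1 hm hx hc
  have := card_dvd_of_free hfree
  have e : Nat.card S = n := (Nat.card_coe_set_eq {p | I p m ∧ p ≠ c}).trans (h.ncard_pts_ne hm)
  rwa [e] at this

theorem elGrp_pGroup {l : L} {p : ℕ} (hp : ∀ (g : G) (c : P), Elat I g c l → g ^ p = 1) :
    IsPGroup p (h.elGrp l) := fun g => by
  obtain ⟨c, hc⟩ := g.2
  exact ⟨1, Subtype.ext (by rw [pow_one]; exact hp g c hc)⟩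

/-- The centres of homologies with a given axis form one orbit of the elation group. -/
theorem centres_orbit {l : L} {c d : P} {g k : G} (hg : Hom I g c l) (hk : Hom I k d l) :
    ∃ e ∈ h.elGrp l, e • c = d := by
  classical
  haveI := Fintype.ofFinite P
  haveI := Fintype.ofFinite G
  let A : Subgroup G := axialGrp I l
  let O : Finset P := Finset.univ.filter fun x => ∃ a : G, Hom I a x l
  let K : P → Finset G := fun x => Finset.univ.filter fun a => Axial I a l ∧ a • x = x ∧ a ≠ 1
  let orb : P → Finset P := fun x => Finset.univ.filter fun y => ∃ a ∈ A, a • x = y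
  have hOl : ∀ x ∈ O, ¬ I x l := fun x hx => (Finset.mem_filter.1 hx).2.choose_spec.1
  have hdisj : (↑O : Set P).PairwiseDisjoint K := by
    intro x hx y hy hxy
    refine Finset.disjoint_left.2 fun a ha hb => ?_
    obtain ⟨-, h1, h2, h3⟩ := Finset.mem_filter.1 ha
    obtain ⟨-, -, h4, -⟩ := Finset.mem_filter.1 hb
    exact h3 (h.eq_one_of_two_fixed_off h1 h2 h4 (hOl x hx) (hOl y hy) hxy)
  have hsplit : (O.biUnion K).card + Nat.card (h.elGrp l) = Nat.card A := by
    have e1 : (↑(O.biUnion K) : Set G) = (A : Set G) \ (h.elGrp l : Set G) := by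
      ext a
      simp only [Finset.coe_biUnion, Set.mem_iUnion, Finset.mem_coe, Set.mem_diff, SetLike.mem_coe, K,
        Finset.mem_filter, Finset.mem_univ, true_and, mem_axialGrp, A, exists_prop]
      constructor
      · rintro ⟨x, hx, h1, h2, h3⟩
        exact ⟨h1, fun ⟨w, hw⟩ => h3 (h.elat_fixed hw h2 (hOl x hx))⟩
      · rintro ⟨h1, h2⟩
        have h2' : ¬ ∀ p, a • p = p → I p l := fun hno => h2 (h.elat_of_no_fixed h1 hno)
        push Not at h2'
        obtain ⟨x, hx, hxl⟩ := h2'
        have ha1 : a ≠ 1 := fun e => h2 (e ▸ (h.elGrp l).one_mem)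
        exact ⟨x, Finset.mem_filter.2 ⟨Finset.mem_univ _, a, hxl, h1, h.central_of_fixed_off h1 hx hxl, ha1⟩,
          h1, hx, ha1⟩
    have hsub : (h.elGrp l : Set G) ⊆ (A : Set G) := fun a ⟨w, hw⟩ => hw.2.1
    rw [← Set.ncard_coe_finset, e1]
    rw [show Nat.card (h.elGrp l) = (h.elGrp l : Set G).ncard from Nat.card_coe_set_eq _,
      show Nat.card A = (A : Set G).ncard from Nat.card_coe_set_eq _]
    exact Set.ncard_sdiff_add_ncard_of_subset hsub
  rw [Finset.card_biUnion hdisj] at hsplit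
  have horbO : ∀ x ∈ O, orb x ⊆ O := by
    intro x hx y hy
    obtain ⟨-, a, ha, rfl⟩ := Finset.mem_filter.1 hy
    obtain ⟨-, b, hb⟩ := Finset.mem_filter.1 hx
    refine Finset.mem_filter.2 ⟨Finset.mem_univ _, a * b * a⁻¹, ?_⟩
    have := h.hom_conj hb a
    rwa [h.smul_axis (show Axial I a l from ha)] at this
  have horb : ∀ x ∈ O, (∑ y ∈ orb x, (K y).card) + (orb x).card = Nat.card A ∧
      2 * (orb x).card ≤ Nat.card A := by
    intro x hx
    have horbcard : ∀ y ∈ orb x, (orb x).card * ((K y).card + 1) = Nat.card A := by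
      intro y hy
      obtain ⟨-, a₀, ha₀, rfl⟩ := Finset.mem_filter.1 hy
      have e1 : MulAction.orbit A (a₀ • x) = ↑(orb x) := by
        ext z
        simp only [MulAction.mem_orbit_iff, orb, Finset.coe_filter, Finset.mem_univ, true_and, Set.mem_setOf_eq]
        constructor
        · rintro ⟨a, rfl⟩
          exact ⟨a * a₀, A.mul_mem a.2 ha₀, mul_smul _ _ _⟩
        · rintro ⟨a, ha, rfl⟩
          exact ⟨⟨a * a₀⁻¹, A.mul_mem ha (A.inv_mem ha₀)⟩, by
            show (a * a₀⁻¹) • a₀ • x = a • x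
            rw [mul_smul, inv_smul_smul]⟩
      have e2 : Nat.card (MulAction.stabilizer A (a₀ • x)) = (K (a₀ • x)).card + 1 := by
        have e3 : (↑(insert (1 : G) (K (a₀ • x))) : Set G) =
            Subtype.val '' (MulAction.stabilizer A (a₀ • x) : Set A) := by
          ext a
          simp only [Finset.coe_insert, Set.mem_insert_iff, K, Finset.coe_filter, Finset.mem_univ, true_and,
            Set.mem_setOf_eq, Set.mem_image, SetLike.mem_coe, MulAction.mem_stabilizer_iff]
          constructor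
          · rintro (rfl | ⟨h1, h2, -⟩)
            · exact ⟨1, one_smul _ _, rfl⟩
            · exact ⟨⟨a, h1⟩, h2, rfl⟩
          · rintro ⟨b, hb, rfl⟩
            exact (em ((b : G) = 1)).imp_right fun hb1 => ⟨b.2, hb, hb1⟩
        rw [← Finset.card_insert_of_notMem (s := K (a₀ • x)) (a := (1 : G))
            (fun e => (Finset.mem_filter.1 e).2.2.2 rfl), ← Set.ncard_coe_finset, e3,
          Set.ncard_image_of_injective _ Subtype.val_injective]
        exact Nat.card_coe_set_eq _
      have := (MulAction.stabilizer A (a₀ • x)).index_mul_card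
      rw [e2, MulAction.index_stabilizer, e1, Set.ncard_coe_finset] at this
      exact this
    have hxx : x ∈ orb x := Finset.mem_filter.2 ⟨Finset.mem_univ _, 1, A.one_mem, one_smul _ _⟩
    constructor
    · have hpos : 0 < (orb x).card := Finset.card_pos.2 ⟨x, hxx⟩
      rw [Finset.sum_congr rfl (g := fun _ => (K x).card) fun y hy => ?_, Finset.sum_const, smul_eq_mul,
        ← horbcard x hxx]
      · ring
      · have := (horbcard y hy).trans (horbcard x hxx).symm
        have := Nat.eq_of_mul_eq_mul_left hpos this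
        omega
    · have := horbcard x hxx
      obtain ⟨a, ha⟩ := (Finset.mem_filter.1 hx).2
      have : 1 ≤ (K x).card := Finset.card_pos.2 ⟨a, Finset.mem_filter.2
        ⟨Finset.mem_univ _, ha.2.1, h.smul_center ha.2.2.1, ha.2.2.2⟩⟩
      nlinarith
  have hc : c ∈ O := Finset.mem_filter.2 ⟨Finset.mem_univ _, g, hg⟩
  have hd : d ∈ O := Finset.mem_filter.2 ⟨Finset.mem_univ _, k, hk⟩
  have hsame : ∀ y ∈ O, y ∈ orb c := by
    intro y hy
    by_contra hyc
    have hd' : Disjoint (orb c) (orb y) := by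
      refine Finset.disjoint_left.2 fun z hz hz' => hyc ?_
      obtain ⟨-, a, ha, rfl⟩ := Finset.mem_filter.1 hz
      obtain ⟨-, b, hb, e⟩ := Finset.mem_filter.1 hz'
      exact Finset.mem_filter.2 ⟨Finset.mem_univ _, b⁻¹ * a, A.mul_mem (A.inv_mem hb) ha,
        by rw [mul_smul, ← e, inv_smul_smul]⟩
    have h1 : ∑ z ∈ orb c ∪ orb y, (K z).card ≤ ∑ z ∈ O, (K z).card :=
      Finset.sum_le_sum_of_subset (Finset.union_subset (horbO c hc) (horbO y hy))
    rw [Finset.sum_union hd'] at h1
    obtain ⟨a1, a2⟩ := horb c hc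
    obtain ⟨b1, b2⟩ := horb y hy
    have : 0 < Nat.card (h.elGrp l) := Nat.card_pos
    omega
  have hO : O = orb c := Finset.Subset.antisymm hsame (horbO c hc)
  rw [hO] at hsplit
  have hT : Nat.card (h.elGrp l) = (orb c).card := by have := (horb c hc).1; omega
  have himg : (fun e : G => e • c) '' (h.elGrp l : Set G) = ↑(orb c) := by
    refine Set.eq_of_subset_of_ncard_le ?_ ?_ (Set.toFinite _)
    · rintro _ ⟨e, ⟨w, he⟩, rfl⟩
      exact Finset.mem_filter.2 ⟨Finset.mem_univ _, e, he.2.1, rfl⟩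
    · rw [Set.ncard_coe_finset, ← hT, Set.ncard_image_of_injOn]
      · exact le_of_eq (Nat.card_coe_set_eq _)
      · intro a ha b hb e
        obtain ⟨w, hw⟩ := (h.elGrp l).mul_mem ((h.elGrp l).inv_mem hb) ha
        have : b⁻¹ * a = 1 := h.elat_fixed hw
          (by rw [mul_smul, show a • c = b • c from e, inv_smul_smul]) hg.1
        exact (inv_mul_eq_one.1 this).symm
  have : d ∈ (fun e : G => e • c) '' (h.elGrp l : Set G) := himg ▸ hsame d hd
  exact this

/-- Equally large direction subgroups are as large as possible. -/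
theorem uniform_dirs {l : L} (htwo : TwoDir G I l)
    (htr : ∀ u v, I u l → I v l → ∃ g : G, g • l = l ∧ g • u = v) :
    ∃ p k : ℕ, p.Prime ∧ 0 < k ∧ n = p ^ k ∧ ∀ c, I c l → Nat.card (h.dirGrp c l) = n := by
  classical
  haveI := Fintype.ofFinite P
  haveI := Fintype.ofFinite G
  obtain ⟨p, hp, hexp⟩ := h.exists_exponent htwo
  haveI := Fact.mk hp
  obtain ⟨x, y, x', y', hx1, hy1, hxy, hx, hy⟩ := htwo
  obtain ⟨τ, hτ⟩ : ∃ τ, Nat.card (h.dirGrp x' l) = τ := ⟨_, rfl⟩
  have hconst : ∀ c, I c l → Nat.card (h.dirGrp c l) = τ := by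
    intro c hc
    obtain ⟨g, hgl, hgc⟩ := htr x' c hx.1 hc
    rw [← hτ]
    have hgl' : g⁻¹ • l = l := inv_smul_eq_iff.2 hgl.symm
    have hgc' : g⁻¹ • c = x' := inv_smul_eq_iff.2 hgc.symm
    refine le_antisymm ?_ ?_
    · refine Nat.card_le_card_of_injective (fun a => ⟨g⁻¹ * (a : G) * g⁻¹⁻¹, ?_⟩) ?_
      · have := h.elat_conj ((h.mem_dirGrp' hc).1 a.2) g⁻¹
        rw [hgl', hgc'] at this
        exact ⟨this.2.1, this.2.2⟩
      · intro a b e; exact Subtype.ext (mul_left_cancel (mul_right_cancel (congrArg Subtype.val e)))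
    · refine Nat.card_le_card_of_injective (fun a => ⟨g * (a : G) * g⁻¹, ?_⟩) ?_
      · have := h.elat_conj ((h.mem_dirGrp' hx.1).1 a.2) g
        rw [hgl, hgc] at this
        exact ⟨this.2.1, this.2.2⟩
      · intro a b e; exact Subtype.ext (mul_left_cancel (mul_right_cancel (congrArg Subtype.val e)))
  have hτ2 : 2 ≤ τ := by
    rw [← hτ]
    refine Finite.one_lt_card_iff_nontrivial.2 ⟨⟨⟨x, (h.mem_dirGrp' hx.1).2 hx⟩, 1, fun e => hx1 ?_⟩⟩
    exact congrArg Subtype.val e
  have hT : Nat.card (h.elGrp l) = 1 + (n + 1) * (τ - 1) := by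
    let Z : P → Finset G := fun c => Finset.univ.filter fun g => Elat I g c l ∧ g ≠ 1
    let Q : Finset P := Finset.univ.filter fun c => I c l
    have hQ : Q.card = n + 1 := by rw [← h.card_pts l, ← Set.ncard_coe_finset, Finset.coe_filter_univ]
    have hd : (↑Q : Set P).PairwiseDisjoint Z := by
      intro c _ d _ hcd
      refine Finset.disjoint_left.2 fun a ha hb => hcd ?_
      exact h.elat_dir_unique (Finset.mem_filter.1 ha).2.2 (Finset.mem_filter.1 ha).2.1 (Finset.mem_filter.1 hb).2.1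
    have hZ : ∀ c ∈ Q, (Z c).card = τ - 1 := by
      intro c hc
      have hc' := (Finset.mem_filter.1 hc).2
      rw [← hconst c hc', ← Set.ncard_coe_finset,
        show (↑(Z c) : Set G) = (h.dirGrp c l : Set G) \ {1} by
          ext a
          simp only [Z, Finset.coe_filter, Finset.mem_univ, true_and, Set.mem_setOf_eq, Set.mem_diff,
            SetLike.mem_coe, h.mem_dirGrp' hc', Set.mem_singleton_iff],
        Set.ncard_diff_singleton_of_mem (h.dirGrp c l).one_mem]
      exact congrArg (· - 1) (Nat.card_coe_set_eq _).symm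
    have e : (h.elGrp l : Set G) \ {1} = ↑(Q.biUnion Z) := by
      ext a
      simp only [Set.mem_diff, SetLike.mem_coe, h.mem_elGrp, Set.mem_singleton_iff, Finset.coe_biUnion,
        Set.mem_iUnion, Finset.mem_coe, Z, Q, Finset.mem_filter, Finset.mem_univ, true_and, exists_prop]
      exact ⟨fun ⟨⟨c, hc⟩, ha⟩ => ⟨c, hc.1, hc, ha⟩, fun ⟨c, _, hc, ha⟩ => ⟨⟨c, hc⟩, ha⟩⟩
    have := Set.ncard_diff_singleton_add_one (h.elGrp l).one_mem
    rw [e, Set.ncard_coe_finset, Finset.card_biUnion hd, Finset.sum_congr rfl hZ, Finset.sum_const, hQ,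
      smul_eq_mul] at this
    rw [show Nat.card (h.elGrp l) = (h.elGrp l : Set G).ncard from Nat.card_coe_set_eq _]
    omega
  obtain ⟨f, hf⟩ := (h.elGrp_pGroup hexp).exists_card_eq
  obtain ⟨a, ha⟩ := ((h.elGrp_pGroup hexp).to_le
    (show h.dirGrp x' l ≤ h.elGrp l from fun g hg => ⟨x', (h.mem_dirGrp' hx.1).1 hg⟩)).exists_card_eq
  rw [hτ] at ha
  obtain ⟨k, hk⟩ : τ ∣ n := hτ ▸ h.card_dirGrp_dvd hx.1
  have hdvd : p ^ f ∣ n ^ 2 := hf ▸ h.card_elGrp_dvd l
  rw [hf] at hT
  have ha0 : 0 < a := Nat.pos_of_ne_zero fun e => by simp [ha, e] at hτ2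
  have hk0 : 0 < k := Nat.pos_of_ne_zero fun e => by have := h.two_le; simp [hk, e] at this
  obtain ⟨t, ht⟩ : ∃ t, τ = t + 1 := ⟨τ - 1, by omega⟩
  have hfr : p ^ f = τ * (k * t + 1) := by
    rw [hT, hk, ht, Nat.add_sub_cancel]; ring
  have haf : a ≤ f := Nat.pow_dvd_pow_iff_le_right hp.one_lt |>.1 (ha ▸ hfr ▸ dvd_mul_right τ _)
  obtain ⟨b, rfl⟩ := Nat.exists_eq_add_of_le haf
  have hr : k * t + 1 = p ^ b := by
    rw [pow_add, ← ha] at hfr
    exact (Nat.eq_of_mul_eq_mul_left (by omega) hfr).symm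
  have hpk : ¬ p ∣ k := by
    intro hpk
    have hb : b ≠ 0 := fun e => by
      rw [e, pow_zero] at hr
      have : 0 < k * t := Nat.mul_pos hk0 (by omega)
      omega
    have h1 : p ∣ k * t + 1 := hr ▸ dvd_pow_self p hb
    exact hp.one_lt.ne' (Nat.dvd_one.1 ((Nat.dvd_add_right (dvd_mul_of_dvd_left hpk t)).1 h1))
  have h2 : p ^ (a + b) ∣ τ ^ 2 := by
    have hcop : Nat.Coprime (p ^ (a + b)) (k ^ 2) :=
      Nat.Coprime.pow _ _ ((hp.coprime_iff_not_dvd).2 hpk)
    rw [hk, mul_pow] at hdvd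
    exact hcop.dvd_of_dvd_mul_right hdvd
  rw [hfr, pow_two] at h2
  have h3 := Nat.le_of_dvd (by omega) (Nat.dvd_of_mul_dvd_mul_left (by omega) h2)
  have hk1 : k = 1 := by
    by_contra hk1
    have : 2 * t ≤ k * t := Nat.mul_le_mul_right t (by omega)
    omega
  rw [hk1, mul_one] at hk
  exact ⟨p, a, hp, ha0, hk.trans ha, fun c hc => (hconst c hc).trans hk.symm⟩

end Setting

end Cfsg.Agent.OWagner
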