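import Cfsg.Agent.OWagner.Reduction

/-!
A plane with doubly transitive collineation group has all possible elations.
-/

set_option autoImplicit false
set_option linter.all false

namespace Cfsg.Agent.OWagner

theorem card_modEq_fixed_on {G X : Type*} [Group G] [MulAction G X] [Finite X] {p : ℕ} [Fact p.Prime] (g : G)
    {k : ℕ} (hg : g ^ p ^ k = 1) (S : Set X) (hS : ∀ y ∈ Subgroup.zpowers g, ∀ x ∈ S, y • x ∈ S) :
    S.ncard ≡ {x | x ∈ S ∧ g • x = x}.ncard [MOD p] := by
  let T : SubMulAction (Subgroup.zpowers g) X :=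
    { carrier := S
      smul_mem' := fun y x hx => hS y y.2 x hx }
  have := card_modEq_fixed (X := T) (⟨g, Subgroup.mem_zpowers g⟩ : Subgroup.zpowers g) (k := k) (p := p)
    (Subtype.ext (by simpa using hg))
  rw [show Nat.card T = S.ncard from Nat.card_coe_set_eq S] at this
  refine Eq.mp (congrArg (fun k => _ ≡ k [MOD p]) ?_) this
  rw [← Set.ncard_image_of_injective _ Subtype.val_injective]
  congr 1
  ext x
  constructor
  · rintro ⟨y, hy, rfl⟩
    exact ⟨y.2, (congrArg Subtype.val hy : _)⟩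
  · rintro ⟨hx, e⟩
    exact ⟨⟨x, hx⟩, Subtype.ext e, rfl⟩

/-- Orbit lengths of a Sylow subgroup. -/
theorem sylow_orbit_dvd {H X : Type*} [Group H] [Finite H] [MulAction H X] {p : ℕ} [Fact p.Prime]
    (S : Sylow p H) (a : X) {m : ℕ} (hm : p ^ m ∣ (MulAction.orbit H a).ncard) :
    p ^ m ∣ (MulAction.orbit (S : Subgroup H) a).ncard := by
  rw [← MulAction.index_stabilizer] at hm ⊢
  have h1 := (MulAction.stabilizer H a).index_mul_card
  have h2 := (MulAction.stabilizer (S : Subgroup H) a).index_mul_card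
  have h3 : Nat.card (MulAction.stabilizer (S : Subgroup H) a) ∣ Nat.card (MulAction.stabilizer H a) :=
    Subgroup.card_dvd_of_injective
      ({ toFun := fun x => ⟨(x : (S : Subgroup H)).1, x.2⟩, map_one' := rfl, map_mul' := fun _ _ => rfl } :
        MulAction.stabilizer (S : Subgroup H) a →* MulAction.stabilizer H a)
      (fun x y e => Subtype.ext (Subtype.ext (congrArg (fun z : MulAction.stabilizer H a => (z : H)) e)))
  obtain ⟨v, hv⟩ := S.2.exists_card_eq
  have hv' := S.card_eq_multiplicity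
  have h4 : p ^ m * Nat.card (MulAction.stabilizer (S : Subgroup H) a) ∣ Nat.card (S : Subgroup H) := by
    rw [hv']
    obtain ⟨w, hw⟩ := (S.2.to_subgroup (MulAction.stabilizer (S : Subgroup H) a)).exists_card_eq
    rw [hw, ← pow_add]
    refine pow_dvd_pow _ ((Nat.Prime.pow_dvd_iff_le_factorization Fact.out Nat.card_pos.ne').1 ?_)
    rw [pow_add, ← hw, ← h1]
    exact mul_dvd_mul hm h3
  rw [← h2] at h4
  exact Nat.dvd_of_mul_dvd_mul_right Nat.card_pos h4

theorem sylow_orbit_eq {H X : Type*} [Group H] [Finite H] [MulAction H X] [Finite X] {p : ℕ} [Fact p.Prime]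
    (S : Sylow p H) (a : X) {m : ℕ} (hm : (MulAction.orbit H a).ncard = p ^ m) :
    MulAction.orbit (S : Subgroup H) a = MulAction.orbit H a := by
  refine Set.eq_of_subset_of_ncard_le (fun x ⟨g, hg⟩ => ⟨(g : H), hg⟩) ?_ (Set.toFinite _)
  rw [hm]
  exact Nat.le_of_dvd ((Set.ncard_pos (Set.toFinite _)).2 ⟨a, MulAction.mem_orbit_self a⟩)
    (sylow_orbit_dvd S a (hm ▸ dvd_refl _))

theorem card_fixedBy_prod {M U V : Type*} [Monoid M] [MulAction M U] [MulAction M V] (g : M) :
    Nat.card (MulAction.fixedBy (U × V) g) = Nat.card (MulAction.fixedBy U g) * Nat.card (MulAction.fixedBy V g) := by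
  rw [← Nat.card_prod]
  exact Nat.card_congr
    { toFun := fun v => (⟨v.1.1, congrArg Prod.fst (v.2 : g • v.1 = v.1)⟩,
        ⟨v.1.2, congrArg Prod.snd (v.2 : g • v.1 = v.1)⟩)
      invFun := fun v => ⟨(v.1.1, v.2.1), Prod.ext v.1.2 v.2.2⟩
      left_inv := fun v => rfl
      right_inv := fun v => rfl }

namespace Setting

variable {G P L : Type*} [Group G] [MulAction G P] [MulAction G L] {I : P → L → Prop} {n : ℕ}
  (h : Setting G I n) [Finite G] [Finite P] [Finite L]
include h

/-- Projection of fixed points of a line from a fixed point off it. -/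
theorem fixed_proj {g : G} {p : P} {l : L} (hp : g • p = p) (hl : g • l = l) (hpl : ¬ I p l) :
    {q : P | I q l ∧ g • q = q}.ncard = {m : L | I p m ∧ g • m = m}.ncard := by
  have hne : ∀ m, I p m → m ≠ l := fun m hm e => hpl (e ▸ hm)
  choose f hf using fun q => h.join p q
  refine Set.ncard_congr (fun q _ => f q)
    (fun q hq => ⟨(hf q).1, h.fix_line (fun e => hpl (by rw [e]; exact hq.1)) (hf q).1 (hf q).2 hp hq.2⟩) ?_ ?_
  · intro q q' hq hq' e
    exact h.point_eq (hne _ (hf q).1) (hf q).2 (e ▸ (hf q').2) hq.1 hq'.1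
  · rintro m ⟨hpm, hm⟩
    obtain ⟨q, hqm, hql⟩ := h.meet m l
    exact ⟨q, ⟨hql, h.fix_point (hne m hpm) hqm hql hm hl⟩,
      h.line_eq (fun e => hpl (by rw [e]; exact hql)) (hf q).1 (hf q).2 hpm hqm⟩

theorem eq_one_of_fix_off {g : G} {l : L} (hg : ∀ p, ¬ I p l → g • p = p) : g = 1 := by
  refine h.faithful g fun X => ?_
  by_cases hX : I X l
  swap
  · exact hg X hX
  obtain ⟨m₁, hm₁, hm₁l, -⟩ := h.toIsPlane.dual.exists_pt_on X l l
  obtain ⟨m₂, hm₂, hm₂l, h21⟩ := h.toIsPlane.dual.exists_pt_on X l m₁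
  have fix : ∀ m, I X m → m ≠ l → g • m = m := by
    intro m hm hml
    obtain ⟨A, hA, hAX, -⟩ := h.exists_pt_on m X X
    obtain ⟨B, hB, hBX, hBA⟩ := h.exists_pt_on m X A
    exact h.fix_line hBA hB hA (hg B fun e => hBX (h.point_eq hml hB hm e hX))
      (hg A fun e => hAX (h.point_eq hml hA hm e hX))
  exact h.fix_point (Ne.symm h21) hm₁ hm₂ (fix m₁ hm₁ hm₁l) (fix m₂ hm₂ hm₂l)

theorem even_elation (h2 : TwoTrans G P) (heven : Even n) :
    ∃ (g : G) (c : P) (l : L), g ≠ 1 ∧ Elat I g c l := by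
  classical
  haveI := Fact.mk Nat.prime_two
  haveI := Fintype.ofFinite P
  obtain ⟨x, -⟩ : ∃ x : P, True := ⟨Classical.choice (Nat.card_pos_iff.1 (by rw [h.cardP]; omega)).1, trivial⟩
  obtain ⟨l, hxl, -⟩ := h.join x x
  let H := MulAction.stabilizer G l
  obtain ⟨S⟩ : Nonempty (Sylow 2 H) := Sylow.nonempty
  have horbH : ∀ A, ¬ I A l → MulAction.orbit H A = {p | ¬ I p l} := by
    intro A hA
    ext p
    constructor
    · rintro ⟨g, rfl⟩ hp
      have := (h.compat (g : G) A l).1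
      rw [MulAction.mem_stabilizer_iff.1 g.2] at this
      exact hA (this hp)
    · intro hp
      obtain ⟨g, h1, h2'⟩ := h.pair_orbit h2 (iff_of_false hA hp)
      exact ⟨⟨g, h2'⟩, h1⟩
  obtain ⟨q, r, hr, hnq⟩ := Nat.exists_eq_two_pow_mul_odd (n := n) (by have := h.two_le; omega)
  have hq0 : 0 < q := Nat.pos_of_ne_zero fun e => by
    rw [e, pow_zero, one_mul] at hnq
    exact Nat.not_even_iff_odd.2 (hnq ▸ hr) heven
  have hdiv : ∀ A, ¬ I A l → 2 ^ (2 * q) ∣ (MulAction.orbit (S : Subgroup H) A).ncard := by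
    intro A hA
    refine sylow_orbit_dvd S A ?_
    rw [horbH A hA, h.ncard_off, hnq, mul_pow, ← pow_mul, mul_comm 2 q]
    exact dvd_mul_right _ _
  haveI : Nontrivial (S : Subgroup H) := by
    obtain ⟨A, hA, -⟩ := h.exists_pt_off l x
    by_contra hcon
    rw [not_nontrivial_iff_subsingleton] at hcon
    have e1 : (MulAction.orbit (S : Subgroup H) A).ncard = 1 :=
      Set.ncard_eq_one.2 ⟨A, Set.eq_singleton_iff_unique_mem.2
        ⟨MulAction.mem_orbit_self A, fun y ⟨g, hg⟩ => by rw [← hg, Subsingleton.elim g 1]; exact one_smul _ A⟩⟩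
    have := hdiv A hA
    rw [e1, Nat.dvd_one] at this
    have : 1 < 2 ^ (2 * q) := Nat.one_lt_two_pow (by omega)
    omega
  obtain ⟨z₀, hz₀, hz₀1⟩ := SetLike.exists_of_lt S.2.bot_lt_center
  obtain ⟨a, ha⟩ := S.2 z₀
  obtain ⟨j, hj1, hj2⟩ := exists_invol_pow (MonoidHom.id _) z₀ ha (by simpa using hz₀1)
  set z : (S : Subgroup H) := z₀ ^ j with hz
  have hzc : z ∈ Subgroup.center (S : Subgroup H) := Subgroup.pow_mem _ hz₀ j
  let zG : G := ((z : H) : G)
  have hzz : zG * zG = 1 := congrArg (fun w : (S : Subgroup H) => ((w : H) : G)) hj1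
  have hz1 : zG ≠ 1 := fun e => hj2 (Subtype.ext (Subtype.ext e))
  have hzl : zG • l = l := (z : H).2
  rcases h.baer hzz with ⟨m, c, hm, hc⟩ | ⟨r', hnr, hsub⟩
  · exact ⟨zG, c, m, hz1, (h.involution_parity hzz hz1 hm hc).2 heven, hm, hc⟩
  exfalso
  let F : Finset P := Finset.univ.filter fun p => zG • p = p ∧ ¬ I p l
  have hF : F.card = n := by
    rw [← Set.ncard_coe_finset, Finset.coe_filter_univ]
    have e : {p : P | zG • p = p ∧ ¬ I p l} = {p | zG • p = p} \ {p | p ∈ {p : P | zG • p = p} ∧ I p l} := by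
      ext p; simp only [Set.mem_setOf_eq, Set.mem_diff, not_and]; tauto
    rw [e, Set.ncard_diff (fun p hp => hp.1), hsub.cardX, hsub.card_pts l hzl, hnr]
    omega
  have hinv : ∀ A ∈ F, ∀ B ∈ MulAction.orbit (S : Subgroup H) A, B ∈ F := by
    rintro A hA _ ⟨g, rfl⟩
    simp only [F, Finset.mem_filter, Finset.mem_univ, true_and] at hA ⊢
    refine ⟨?_, fun hgA => ?_⟩
    · show z • g • A = g • A
      rw [← mul_smul, ← (Subgroup.mem_center_iff.1 hzc g), mul_smul]
      exact congrArg (g • ·) hA.1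
    · exact (Set.ext_iff.1 (horbH A hA.2) _).1 ⟨(g : H), rfl⟩ hgA
  have hsum : 2 ^ (2 * q) ∣ F.card := by
    rw [Finset.card_eq_sum_card_image (fun A => MulAction.orbit (S : Subgroup H) A) F]
    refine Finset.dvd_sum fun O hO => ?_
    obtain ⟨A, hA, rfl⟩ := Finset.mem_image.1 hO
    rw [show (F.filter fun B => MulAction.orbit (S : Subgroup H) B = MulAction.orbit (S : Subgroup H) A).card =
        (MulAction.orbit (S : Subgroup H) A).ncard from ?_]
    · exact hdiv A (Finset.mem_filter.1 hA).2.2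
    · rw [← Set.ncard_coe_finset, Finset.coe_filter]
      congr 1
      ext B
      exact ⟨fun ⟨_, e⟩ => e ▸ MulAction.mem_orbit_self B,
        fun hB => ⟨hinv A hA B hB, MulAction.orbit_eq_iff.2 hB⟩⟩
  rw [hF, hnq, two_mul, pow_add] at hsum
  have h2r := Nat.dvd_of_mul_dvd_mul_left (Nat.two_pow_pos q) hsum
  exact Nat.not_even_iff_odd.2 hr (even_iff_two_dvd.2 ((dvd_pow_self 2 hq0.ne').trans h2r))

set_option maxHeartbeats 1000000 in
theorem primePow_elation (h2 : TwoTrans G P) {p e : ℕ} (hp : p.Prime) (he : 0 < e) (hn : n = p ^ e) :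
    ∃ (g : G) (c : P) (l : L), g ≠ 1 ∧ Elat I g c l := by
  classical
  haveI := Fact.mk hp
  obtain ⟨x, -⟩ : ∃ x : P, True := ⟨Classical.choice (Nat.card_pos_iff.1 (by rw [h.cardP]; omega)).1, trivial⟩
  obtain ⟨l, hxl, -⟩ := h.join x x
  let K := MulAction.stabilizer G l ⊓ MulAction.stabilizer G x
  obtain ⟨S⟩ : Nonempty (Sylow p K) := Sylow.nonempty
  have hKl : ∀ g : (S : Subgroup K), ((g : K) : G) • l = l := fun g => (g : K).2.1
  have hKx : ∀ g : (S : Subgroup K), ((g : K) : G) • x = x := fun g => (g : K).2.2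
  -- the Sylow subgroup is transitive on the affine points
  have trA : ∀ A B, ¬ I A l → ¬ I B l → ∃ g : (S : Subgroup K), ((g : K) : G) • A = B := by
    intro A B hA hB
    have e1 : MulAction.orbit K A = {p | ¬ I p l} := by
      ext p
      constructor
      · rintro ⟨g, rfl⟩ hp
        have := (h.compat (g : G) A l).1
        rw [MulAction.mem_stabilizer_iff.1 g.2.1] at this
        exact hA (this hp)
      · intro hp
        obtain ⟨g, g1, g2, g3⟩ := h.triple_orbit h2 hxl hA hxl hp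
        exact ⟨⟨g, g3, g1⟩, g2⟩
    have e2 := sylow_orbit_eq S A (m := e * 2) (by rw [e1, h.ncard_off, hn, ← pow_mul])
    obtain ⟨g, hg⟩ := (Set.ext_iff.1 (e2.trans e1) B).2 hB
    exact ⟨g, hg⟩
  let X : SubMulAction (S : Subgroup K) P :=
    { carrier := {p | I p l ∧ p ≠ x}
      smul_mem' := fun g p hp => ⟨h.mem_of_fix_line (hKl g) hp.1,
        fun e => hp.2 (MulAction.injective ((g : K) : G) (e.trans (hKx g).symm))⟩ }
  let Y : SubMulAction (S : Subgroup K) L :=
    { carrier := {m | I x m ∧ m ≠ l}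
      smul_mem' := fun g m hm => ⟨h.mem_of_fix_point (hKx g) hm.1,
        fun e => hm.2 (MulAction.injective ((g : K) : G) (e.trans (hKl g).symm))⟩ }
  have hXc : Nat.card X = n := (Nat.card_coe_set_eq {p | I p l ∧ p ≠ x}).trans (h.ncard_pts_ne hxl)
  have hYc : Nat.card Y = n :=
    (Nat.card_coe_set_eq {m | I x m ∧ m ≠ l}).trans (h.toIsPlane.dual.ncard_pts_ne hxl)
  -- transitivity on pairs
  have trXY : ∀ (y : X) (m : Y) (y' : X) (m' : Y), ∃ g : (S : Subgroup K), g • y = y' ∧ g • m = m' := by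
    intro y m y' m'
    have hym : ∀ (y : X) (m : Y), ¬ I (y : P) (m : L) := fun y m hym =>
      m.2.2 (h.line_eq y.2.2 hym m.2.1 y.2.1 hxl)
    let Z : SubMulAction K (P × L) :=
      { carrier := {w | (I w.1 l ∧ w.1 ≠ x) ∧ (I x w.2 ∧ w.2 ≠ l)}
        smul_mem' := fun g w hw => ⟨⟨h.mem_of_fix_line g.2.1 hw.1.1,
          fun e => hw.1.2 (MulAction.injective (g : G) (e.trans (MulAction.mem_stabilizer_iff.1 g.2.2).symm))⟩,
          ⟨h.mem_of_fix_point g.2.2 hw.2.1,
          fun e => hw.2.2 (MulAction.injective (g : G) (e.trans (MulAction.mem_stabilizer_iff.1 g.2.1).symm))⟩⟩ }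
    let w : Z := ⟨((y : P), (m : L)), y.2, m.2⟩
    have htr : MulAction.orbit K w = Set.univ := by
      refine Set.eq_univ_of_forall fun v => ?_
      obtain ⟨g, g1, g2, g3⟩ := h.triple_orbit h2 m.2.1 (hym y m) v.2.2.1
        (fun hv => v.2.2.2 (h.line_eq v.2.1.2 hv v.2.2.1 v.2.1.1 hxl))
      have hgl : g • l = l := by
        refine h.line_eq v.2.1.2 (g2 ▸ h.smul_mem y.2.1) ?_ v.2.1.1 hxl
        have := h.smul_mem (g := g) hxl
        rwa [g1] at this
      exact ⟨⟨g, hgl, g1⟩, Subtype.ext (Prod.ext g2 g3)⟩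
    have e0 : Nat.card Z = p ^ (e + e) := by
      have : Nat.card Z = Nat.card X * Nat.card Y := by
        rw [← Nat.card_prod]
        exact Nat.card_congr
          { toFun := fun v => (⟨v.1.1, v.2.1⟩, ⟨v.1.2, v.2.2⟩)
            invFun := fun v => ⟨(v.1.1, v.2.1), v.1.2, v.2.2⟩
            left_inv := fun v => rfl
            right_inv := fun v => rfl }
      rw [this, hXc, hYc, hn, pow_add]
    have e2 := sylow_orbit_eq S w (m := e + e) (by rw [htr, Set.ncard_univ, e0])
    obtain ⟨g, hg⟩ := (Set.ext_iff.1 (e2.trans htr) ⟨((y' : P), (m' : L)), y'.2, m'.2⟩).2 trivial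
    exact ⟨g, Subtype.ext (congrArg (fun v : Z => v.1.1) hg), Subtype.ext (congrArg (fun v : Z => v.1.2) hg)⟩
  -- some element fixes different numbers on the line and in the pencil
  haveI := Fintype.ofFinite P
  haveI := Fintype.ofFinite L
  haveI : Fintype (S : Subgroup K) := Fintype.ofFinite _
  haveI : Nonempty X := (Nat.card_pos_iff.1 (by rw [hXc]; have := h.two_le; omega)).1
  haveI : Nonempty Y := (Nat.card_pos_iff.1 (by rw [hYc]; have := h.two_le; omega)).1
  have hdiff : ∃ g : (S : Subgroup K), Nat.card (MulAction.fixedBy X g) ≠ Nat.card (MulAction.fixedBy Y g) := by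
    by_contra hall
    push Not at hall
    haveI : Fintype (Quotient (MulAction.orbitRel (S : Subgroup K) (X × Y))) := Fintype.ofFinite _
    haveI : Fintype (Quotient (MulAction.orbitRel (S : Subgroup K) (X × X))) := Fintype.ofFinite _
    have e1 := MulAction.sum_card_fixedBy_eq_card_orbits_mul_card_group (S : Subgroup K) (X × Y)
    have e2 := MulAction.sum_card_fixedBy_eq_card_orbits_mul_card_group (S : Subgroup K) (X × X)
    have hfix : ∀ g : (S : Subgroup K), Fintype.card (MulAction.fixedBy (X × X) g) =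
        Fintype.card (MulAction.fixedBy (X × Y) g) := by
      intro g
      rw [← Nat.card_eq_fintype_card, ← Nat.card_eq_fintype_card, card_fixedBy_prod, card_fixedBy_prod,
        ← hall g]
    rw [Finset.sum_congr rfl fun g _ => hfix g, e1] at e2
    have hq := Nat.eq_of_mul_eq_mul_right Fintype.card_pos e2
    have hone : Fintype.card (Quotient (MulAction.orbitRel (S : Subgroup K) (X × Y))) ≤ 1 := by
      refine Fintype.card_le_one_iff.2 fun u v => ?_
      induction u using Quotient.inductionOn with | h u =>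
      induction v using Quotient.inductionOn with | h v =>
      obtain ⟨g, g1, g2⟩ := trXY v.1 v.2 u.1 u.2
      exact Quotient.sound ⟨g, Prod.ext g1 g2⟩
    have htwo : 1 < Fintype.card (Quotient (MulAction.orbitRel (S : Subgroup K) (X × X))) := by
      haveI : Nontrivial X := Finite.one_lt_card_iff_nontrivial.1 (by rw [hXc]; have := h.two_le; omega)
      obtain ⟨a, b, hab⟩ := exists_pair_ne X
      refine Fintype.one_lt_card_iff.2 ⟨Quotient.mk _ (a, a), Quotient.mk _ (a, b), fun e' => ?_⟩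
      obtain ⟨g, hg⟩ := Quotient.exact e'
      have g1 : g • a = a := congrArg Prod.fst hg
      have g2 : g • b = a := congrArg Prod.snd hg
      exact hab (MulAction.injective g (g1.trans g2.symm))
    omega
  obtain ⟨g, hg⟩ := hdiff
  let gG : G := ((g : K) : G)
  obtain ⟨k, hk⟩ := S.2 g
  have hgk : gG ^ p ^ k = 1 := by
    have := congrArg (fun w : (S : Subgroup K) => ((w : K) : G)) hk
    simpa [gG] using this
  have ha : Nat.card (MulAction.fixedBy X g) = {q : P | (I q l ∧ q ≠ x) ∧ gG • q = q}.ncard := by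
    rw [← Nat.card_coe_set_eq]
    exact Nat.card_congr
      { toFun := fun v => ⟨v.1.1, v.1.2, congrArg Subtype.val v.2⟩
        invFun := fun v => ⟨⟨v.1, v.2.1⟩, Subtype.ext v.2.2⟩
        left_inv := fun v => rfl
        right_inv := fun v => rfl }
  have hb : Nat.card (MulAction.fixedBy Y g) = {m : L | (I x m ∧ m ≠ l) ∧ gG • m = m}.ncard := by
    rw [← Nat.card_coe_set_eq]
    exact Nat.card_congr
      { toFun := fun v => ⟨v.1.1, v.1.2, congrArg Subtype.val v.2⟩
        invFun := fun v => ⟨⟨v.1, v.2.1⟩, Subtype.ext v.2.2⟩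
        left_inv := fun v => rfl
        right_inv := fun v => rfl }
  rw [ha, hb] at hg
  -- counts on the line and in the pencil
  have hl1 : {q : P | I q l ∧ gG • q = q}.ncard = {q : P | (I q l ∧ q ≠ x) ∧ gG • q = q}.ncard + 1 := by
    rw [show {q : P | (I q l ∧ q ≠ x) ∧ gG • q = q} = {q : P | I q l ∧ gG • q = q} \ {x} by
      ext q; simp only [Set.mem_setOf_eq, Set.mem_diff, Set.mem_singleton_iff]; tauto]
    exact (Set.ncard_diff_singleton_add_one (show x ∈ {q : P | I q l ∧ gG • q = q} from ⟨hxl, hKx g⟩)).symm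
  have hx1 : {m : L | I x m ∧ gG • m = m}.ncard = {m : L | (I x m ∧ m ≠ l) ∧ gG • m = m}.ncard + 1 := by
    rw [show {m : L | (I x m ∧ m ≠ l) ∧ gG • m = m} = {m : L | I x m ∧ gG • m = m} \ {l} by
      ext q; simp only [Set.mem_setOf_eq, Set.mem_diff, Set.mem_singleton_iff]; tauto]
    exact (Set.ncard_diff_singleton_add_one (show l ∈ {m : L | I x m ∧ gG • m = m} from ⟨hxl, hKl g⟩)).symm
  have hthree : ∀ m : L, gG • m = m → 2 ≤ {q : P | I q m ∧ gG • q = q}.ncard →
      3 ≤ {q : P | I q m ∧ gG • q = q}.ncard := by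
    intro m hm h2le
    have hmod := card_modEq_fixed_on gG hgk {q | I q m} (fun y hy q hq => by
      refine h.mem_of_fix_line ?_ hq
      exact (Subgroup.zpowers_le.2 (show gG ∈ MulAction.stabilizer G m from hm)) hy)
    rw [h.card_pts] at hmod
    have e0 : n % p = 0 := by rw [hn]; exact Nat.mod_eq_zero_of_dvd (dvd_pow_self p he.ne') |> id
    by_contra hlt
    have heq : {q : P | I q m ∧ gG • q = q}.ncard = 2 := by omega
    rw [show {q | q ∈ {q | I q m} ∧ gG • q = q} = {q : P | I q m ∧ gG • q = q} from rfl, heq] at hmod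
    unfold Nat.ModEq at hmod
    rw [Nat.add_mod, e0, zero_add, Nat.mod_mod] at hmod
    rcases hp.eq_two_or_odd with hp2 | hp2
    · rw [hp2] at hmod; simp at hmod
    · have := hp.two_le
      rw [Nat.one_mod_eq_one.2 (by omega), Nat.mod_eq_of_lt (show 2 < p by omega)] at hmod
      omega
  have hgl : gG • l = l := hKl g
  have hgx : gG • x = x := hKx g
  -- not both affine fixed points and affine fixed lines
  have hnot : ∀ A m, gG • A = A → ¬ I A l → gG • m = m → ¬ I x m → False := by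
    intro A m hA hAl hm hxm
    refine hg ?_
    obtain ⟨y, hym, hyl⟩ := h.meet m l
    have hml : m ≠ l := fun e' => hxm (e' ▸ hxl)
    have hy : gG • y = y := h.fix_point hml hym hyl hm hgl
    obtain ⟨z, hzm, hz, hzy⟩ : ∃ z, I z m ∧ gG • z = z ∧ z ≠ y := by
      by_cases hAm : I A m
      · exact ⟨A, hAm, hA, fun e' => hAl (e' ▸ hyl)⟩
      · obtain ⟨k, hxk, hAk⟩ := h.join x A
        have hk : gG • k = k := h.fix_line (fun e' => hAl (by rw [← e']; exact hxl)) hxk hAk hgx hA
        obtain ⟨z, hzk, hzm⟩ := h.meet k m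
        have hkm : k ≠ m := fun e' => hxm (e' ▸ hxk)
        refine ⟨z, hzm, h.fix_point hkm hzk hzm hk hm, fun e' => ?_⟩
        subst e'
        exact hAl ((h.line_eq (fun e' => hxm (by rw [← e']; exact hzm)) hzk hxk hyl hxl) ▸ hAk)
    obtain ⟨k, hxk, hzk⟩ := h.join x z
    have hxz : x ≠ z := fun e' => hxm (e' ▸ hzm)
    have hk : gG • k = k := h.fix_line hxz hxk hzk hgx hz
    have hk3 := hthree k hk ((Set.one_lt_ncard_iff (Set.toFinite _)).2 ⟨x, z, ⟨hxk, hgx⟩, ⟨hzk, hz⟩, hxz⟩)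
    obtain ⟨w, ⟨hwk, hw⟩, hwne⟩ : ∃ w ∈ {q : P | I q k ∧ gG • q = q}, w ∉ ({x, z} : Set P) := by
      refine Set.exists_mem_notMem_of_ncard_lt_ncard ?_ (Set.toFinite _)
      rw [Set.ncard_pair hxz]; omega
    simp only [Set.mem_insert_iff, Set.mem_singleton_iff, not_or] at hwne
    have hkl : k ≠ l := fun e' => hzy (h.point_eq hml hzm hym (e' ▸ hzk) hyl)
    have hwl : ¬ I w l := fun e' => hwne.1 (h.point_eq hkl hwk hxk e' hxl)
    have hkm : k ≠ m := fun e' => hxm (e' ▸ hxk)
    have hwm : ¬ I w m := fun e' => hwne.2 (h.point_eq hkm hwk hzk e' hzm)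
    have e1 := h.fixed_proj hw hgl hwl
    have e2 := h.fixed_proj hw hm hwm
    have e3 := h.fixed_proj hgx hm hxm
    omega
  -- totals
  have htot : ∃ A, gG • A = A ∧ ¬ I A l ∨ ∃ m, gG • m = m ∧ ¬ I x m := by
    by_contra hcon
    push Not at hcon
    refine hg ?_
    have e1 : {q : P | gG • q = q} = {q : P | I q l ∧ gG • q = q} :=
      Set.ext fun q => ⟨fun hq => ⟨(hcon q).1 hq, hq⟩, fun hq => hq.2⟩
    have e2 : {m : L | gG • m = m} = {m : L | I x m ∧ gG • m = m} :=
      Set.ext fun m => ⟨fun hm => ⟨(hcon x).2 m hm, hm⟩, fun hm => hm.2⟩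
    have e3 := h.fixed_eq gG
    rw [e1, e2, hl1, hx1] at e3
    omega
  haveI : Nontrivial (S : Subgroup K) := by
    obtain ⟨A, hA, -⟩ := h.exists_pt_off l x
    obtain ⟨B, hB⟩ : ∃ B, ¬ I B l ∧ B ≠ A := h.exists_pt_off l A
    obtain ⟨t, ht⟩ := trA A B hA hB.1
    exact ⟨⟨t, 1, fun e' => hB.2 (by rw [← ht, e']; exact one_smul G A)⟩⟩
  obtain ⟨z, hzc, hz1⟩ := SetLike.exists_of_lt S.2.bot_lt_center
  let zG : G := ((z : K) : G)
  have hzG1 : zG ≠ 1 := fun e' => hz1 (by rw [show z = 1 from Subtype.ext (Subtype.ext e')]; exact Subgroup.one_mem _)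
  have hcomm : ∀ t : (S : Subgroup K), zG * ((t : K) : G) = ((t : K) : G) * zG := fun t =>
    congrArg (fun w : (S : Subgroup K) => ((w : K) : G)) (Subgroup.mem_center_iff.1 hzc t).symm
  have hzaff : ∀ A, zG • A = A → I A l := by
    intro A hA
    by_contra hAl
    refine hzG1 (h.eq_one_of_fix_off (l := l) fun B hB => ?_)
    obtain ⟨t, ht⟩ := trA A B hAl hB
    rw [← ht, ← mul_smul, hcomm t, mul_smul, hA]
  obtain ⟨A₀, htot⟩ := htot
  rcases htot with ⟨hA, hAl⟩ | ⟨m, hm, hxm⟩
  · -- fixed affine points lie on one line through the fixed point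
    obtain ⟨k, hxk, hAk⟩ := h.join x A₀
    have hkl : k ≠ l := fun e' => hAl (e' ▸ hAk)
    have hfix : ∀ B, gG • B = B → ¬ I B l → I B k := by
      intro B hB hBl
      by_cases hBA : B = A₀
      · exact hBA ▸ hAk
      obtain ⟨k', hBk', hAk'⟩ := h.join B A₀
      have hk' : gG • k' = k' := h.fix_line hBA hBk' hAk' hB hA
      have hxk' : I x k' := by
        by_contra hx'
        exact hnot A₀ k' hA hAl hk' hx'
      exact h.line_eq (fun e' => hAl (by rw [← e']; exact hxl)) hxk' hAk' hxk hAk ▸ hBk'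
    have hzA : gG • zG • A₀ = zG • A₀ := by rw [← mul_smul, ← hcomm g, mul_smul, hA]
    have hzAl : ¬ I (zG • A₀) l := by
      intro e'
      exact hAl ((h.compat zG A₀ l).1 (by rw [hKl z]; exact e'))
    have hzk : zG • k = k := by
      have h1 := h.smul_mem (g := zG) hxk
      rw [hKx z] at h1
      exact h.line_eq (fun e' => hzAl (by rw [← e']; exact hxl)) h1 (h.smul_mem hAk) hxk (hfix _ hzA hzAl)
    have hcen : Central I zG x := by
      intro m (hm : I x m)
      by_cases hml : m = l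
      · exact hml ▸ hKl z
      obtain ⟨t, -, ht⟩ := trXY (Classical.arbitrary X) ⟨k, hxk, hkl⟩ (Classical.arbitrary X) ⟨m, hm, hml⟩
      have ht' : ((t : K) : G) • k = m := congrArg Subtype.val ht
      rw [← ht', ← mul_smul, hcomm t, mul_smul, hzk]
    obtain ⟨B, hB⟩ := h.exists_axis hcen
    refine ⟨zG, x, B, hzG1, ?_, hB, hcen⟩
    by_contra hxB
    obtain ⟨Y, hY, hYl, -⟩ : ∃ Y, I Y B ∧ ¬ I Y l ∧ True := by
      obtain ⟨Y₀, hY₀B, hY₀l⟩ := h.meet B l
      obtain ⟨Y, hY, hne, -⟩ := h.exists_pt_on B Y₀ Y₀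
      exact ⟨Y, hY, fun e' => hne (h.point_eq (fun e'' => hxB (by rw [e'']; exact hxl)) hY hY₀B e' hY₀l), trivial⟩
    exact hYl (hzaff Y (hB Y hY))
  · -- fixed affine lines are concurrent on the axis
    obtain ⟨V, hVm, hVl⟩ := h.meet m l
    have hVx : V ≠ x := fun e' => hxm (e' ▸ hVm)
    have hnopt : ∀ B, gG • B = B → I B l := fun B hB => by
      by_contra hBl
      exact hnot B m hB hBl hm hxm
    have hzm : gG • zG • m = zG • m := by rw [← mul_smul, ← hcomm g, mul_smul, hm]
    have hzV : zG • V = V := by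
      have hm' : ¬ I x (zG • m) := fun e' => hxm ((h.compat zG x m).1 (by rw [hKx z]; exact e'))
      have h1 : I (zG • V) l := h.mem_of_fix_line (hKl z) hVl
      have hzml : zG • m ≠ l := fun e' => hm' (e' ▸ hxl)
      have h2' : I V (zG • m) := by
        by_cases hmm : zG • m = m
        · rw [hmm]; exact hVm
        · obtain ⟨W, hW1, hW2⟩ := h.meet (zG • m) m
          have hWl := hnopt W (h.fix_point hmm hW1 hW2 hzm hm)
          rwa [h.point_eq (fun e' => hxm (by rw [e']; exact hxl)) hVm hW2 hVl hWl]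
      exact h.point_eq hzml (h.smul_mem hVm) h2' h1 hVl
    have hax : Axial I zG l := by
      intro B hB
      by_cases hBx : B = x
      · exact hBx ▸ hKx z
      obtain ⟨t, ht, -⟩ := trXY ⟨V, hVl, hVx⟩ (Classical.arbitrary Y) ⟨B, hB, hBx⟩ (Classical.arbitrary Y)
      have ht' : ((t : K) : G) • V = B := congrArg Subtype.val ht
      rw [← ht', ← mul_smul, hcomm t, mul_smul, hzV]
    obtain ⟨c, hc⟩ := h.elat_of_no_fixed hax hzaff
    exact ⟨zG, c, l, hzG1, hc⟩

theorem exists_elation (h2 : TwoTrans G P) : ∃ (g : G) (c : P) (l : L), g ≠ 1 ∧ Elat I g c l := by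
  rcases Nat.even_or_odd n with he | ho
  · exact h.even_elation h2 he
  · obtain ⟨p, k, hp, hk, hn⟩ := h.odd_primePow h2 ho
    exact h.primePow_elation h2 hp hk hn

/-- All possible elations exist. -/
theorem elation_transitive (h2 : TwoTrans G P) {c : P} {l m : L} (hc : I c l) (hcm : I c m) (hml : m ≠ l)
    {A B : P} (hA : I A m) (hAc : A ≠ c) (hB : I B m) (hBc : B ≠ c) :
    ∃ e : G, Elat I e c l ∧ e • A = B := by
  classical
  obtain ⟨g₀, c₀, l₀, hg₀, he₀⟩ := h.exists_elation h2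
  have hflag : ∀ u k, I u k → ∃ e : G, e ≠ 1 ∧ Elat I e u k := by
    intro u k hu
    obtain ⟨t, t1, t2⟩ := h.pair_orbit h2 (iff_of_true he₀.1 hu)
    have := h.elat_conj he₀ t
    rw [t1, t2] at this
    exact ⟨_, fun e' => hg₀ (conj_eq_one_iff.1 e'), this⟩
  obtain ⟨c', hc', hcc, -⟩ := h.exists_pt_on l c c
  obtain ⟨a, ha1, ha⟩ := hflag c l hc
  obtain ⟨b, hb1, hb⟩ := hflag c' l hc'
  obtain ⟨p, k, -, -, -, hcard⟩ := h.uniform_dirs ⟨a, b, c, c', ha1, hb1, Ne.symm hcc, ha, hb⟩
    (fun u v hu hv => by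
      obtain ⟨t, t1, t2⟩ := h.pair_orbit h2 (p := u) (q := v) (l := l) (m := l) (iff_of_true hu hv)
      exact ⟨t, t2, t1⟩)
  have hAl : ¬ I A l := fun e' => hAc (h.point_eq hml hA hcm e' hc)
  have himg : (fun e : G => e • A) '' (h.dirGrp c l : Set G) = {q | I q m ∧ q ≠ c} := by
    refine Set.eq_of_subset_of_ncard_le ?_ ?_ (Set.toFinite _)
    · rintro _ ⟨e, he, rfl⟩
      exact ⟨h.mem_of_fix_line (he.2 m hcm) hA,
        fun e' => hAc (MulAction.injective e (Eq.trans e' (h.smul_center he.2).symm))⟩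
    · rw [h.ncard_pts_ne hcm, Set.ncard_image_of_injOn]
      · exact le_of_eq ((hcard c hc).symm.trans (Nat.card_coe_set_eq _))
      · intro u hu v hv e'
        have hw : Elat I (v⁻¹ * u) c l :=
          (h.mem_dirGrp' hc).1 ((h.dirGrp c l).mul_mem ((h.dirGrp c l).inv_mem hv) hu)
        have : v⁻¹ * u = 1 := h.elat_fixed hw
          (by rw [mul_smul, show u • A = v • A from e', inv_smul_smul]) hAl
        exact (inv_mul_eq_one.1 this).symm
  obtain ⟨e, he, heB⟩ : B ∈ (fun e : G => e • A) '' (h.dirGrp c l : Set G) := himg ▸ ⟨hB, hBc⟩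
  exact ⟨e, (h.mem_dirGrp' hc).1 he, heB⟩

end Setting

end Cfsg.Agent.OWagner
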