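import Cfsg.Agent.OWagner.Count

/-!
Commuting involutory homologies, and double transitivity from involutions fixing two points.
-/

set_option autoImplicit false
set_option linter.all false

namespace Cfsg.Agent.OWagner

/-- An involutory homology. -/
def InvHom {G P L : Type*} [Mul G] [One G] [SMul G P] [SMul G L] (I : P → L → Prop) (g : G) (c : P) (l : L) :
    Prop := g * g = 1 ∧ Hom I g c l

/-- If any two points are the only fixed points of some involution, the action is doubly transitive. -/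
theorem twoTrans_of_invol {G X : Type*} [Group G] [MulAction G X] [Finite X] (hev : Even (Nat.card X))
    (h4 : 4 ≤ Nat.card X)
    (hpair : ∀ a b : X, a ≠ b → ∃ g : G, g * g = 1 ∧ ∀ x, g • x = x ↔ x = a ∨ x = b) : TwoTrans G X := by
  haveI := Fact.mk Nat.prime_two
  have hthird : ∀ a b : X, ∃ c, c ≠ a ∧ c ≠ b := by
    intro a b
    by_contra hc
    push Not at hc
    have hsub : (Set.univ : Set X) ⊆ {a, b} := fun x _ => by
      by_cases hx : x = a
      · exact Or.inl hx
      · exact Or.inr (hc x hx)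
    have := (Set.ncard_le_ncard hsub (Set.toFinite _)).trans (Set.ncard_insert_le a {b})
    rw [Set.ncard_univ, Set.ncard_singleton] at this
    omega
  -- the size of a piece of an orbit decomposition has the parity of its fixed set
  have par : ∀ (g : G) (H : Subgroup G), g ∈ H → g * g = 1 → ∀ a : X,
      (MulAction.orbit H a).ncard ≡ {x | x ∈ MulAction.orbit H a ∧ g • x = x}.ncard [MOD 2] := by
    intro g H hg hgg a
    let f : MulAction.orbit H a → MulAction.orbit H a := fun x => (⟨g, hg⟩ : H) • x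
    have hf : Function.Involutive f := fun x => by
      show (⟨g, hg⟩ : H) • (⟨g, hg⟩ : H) • x = x
      rw [← mul_smul, show (⟨g, hg⟩ : H) * ⟨g, hg⟩ = 1 from Subtype.ext hgg, one_smul]
    have := card_modEq_involutive hf
    rw [Nat.card_coe_set_eq] at this
    refine Eq.mp (congrArg (fun k => _ ≡ k [MOD 2]) ?_) this
    rw [← Set.ncard_image_of_injective _ Subtype.val_injective]
    congr 1
    ext x
    constructor
    · rintro ⟨y, hy, rfl⟩
      exact ⟨y.2, (congrArg Subtype.val hy : _)⟩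
    · rintro ⟨hx, e⟩
      exact ⟨⟨x, hx⟩, Subtype.ext e, rfl⟩
  have nc : ∀ (S : Set X) (k : ℕ) (g : G) (H : Subgroup G) (a : X), g ∈ H → g * g = 1 →
      {x | x ∈ MulAction.orbit H a ∧ g • x = x} = S → S.ncard = k →
      (MulAction.orbit H a).ncard % 2 = k % 2 := by
    intro S k g H a hg hgg hS hk
    have := par g H hg hgg a
    rw [hS, hk] at this
    exact this
  -- transitivity
  have htr : ∀ a b : X, ∃ g : G, g • a = b := by
    intro a
    have key : ∀ b, b ∈ MulAction.orbit (⊤ : Subgroup G) a := by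
      intro c
      by_contra hc
      have ha : a ∈ MulAction.orbit (⊤ : Subgroup G) a := MulAction.mem_orbit_self a
      by_cases hb : ∃ b ∈ MulAction.orbit (⊤ : Subgroup G) a, b ≠ a
      · obtain ⟨b, hb, hba⟩ := hb
        obtain ⟨g, hgg, hg⟩ := hpair a b (Ne.symm hba)
        have e1 := nc {a, b} 2 g ⊤ a trivial hgg (by
          ext x
          simp only [Set.mem_setOf_eq, hg, Set.mem_insert_iff, Set.mem_singleton_iff]
          exact ⟨fun hx => hx.2, fun hx => ⟨hx.elim (fun e => e ▸ ha) (fun e => e ▸ hb), hx⟩⟩)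
          (Set.ncard_pair (Ne.symm hba))
        obtain ⟨k, hkk, hk⟩ := hpair a c (fun e => hc (e ▸ ha))
        have e2 := nc {a} 1 k ⊤ a trivial hkk (by
          ext x
          simp only [Set.mem_setOf_eq, hk, Set.mem_singleton_iff]
          exact ⟨fun hx => hx.2.elim id fun e => absurd (e ▸ hx.1) hc, fun e => ⟨e ▸ ha, Or.inl e⟩⟩)
          (Set.ncard_singleton a)
        omega
      · push Not at hb
        obtain ⟨d, hda, hdc⟩ := hthird a c
        obtain ⟨g, hgg, hg⟩ := hpair c d (Ne.symm hdc)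
        have h1 : g • a ∈ MulAction.orbit (⊤ : Subgroup G) a := ⟨⟨g, trivial⟩, rfl⟩
        rcases (hg a).1 (hb _ h1) with e | e
        · exact hc (e ▸ ha)
        · exact hda e.symm
    intro b
    obtain ⟨g, hg⟩ := key b
    exact ⟨g, hg⟩
  -- transitivity of a point stabilizer on the other points
  have hstab : ∀ a b c : X, b ≠ a → c ≠ a → ∃ g : G, g • a = a ∧ g • b = c := by
    intro a b c hba hca
    let H := MulAction.stabilizer G a
    suffices c ∈ MulAction.orbit H b by
      obtain ⟨g, hg⟩ := this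
      exact ⟨g, g.2, hg⟩
    by_contra hc
    have ha : ∀ x, x ≠ a → a ∉ MulAction.orbit H x := fun x hx ⟨g, hg⟩ =>
      hx ((MulAction.injective (g : G)) (hg.trans (MulAction.mem_stabilizer_iff.1 g.2).symm))
    obtain ⟨g, hgg, hg⟩ := hpair a b (Ne.symm hba)
    obtain ⟨k, hkk, hk⟩ := hpair a c (Ne.symm hca)
    have gH : g ∈ H := (hg a).2 (Or.inl rfl)
    have kH : k ∈ H := (hk a).2 (Or.inl rfl)
    have hbc : b ∉ MulAction.orbit H c := fun e => hc (by
      rw [MulAction.orbit_eq_iff.2 e]; exact MulAction.mem_orbit_self c)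
    have e1 := nc ∅ 0 g H c gH hgg (by
      ext x
      simp only [Set.mem_setOf_eq, hg, Set.mem_empty_iff_false, iff_false, not_and]
      rintro hx (rfl | rfl)
      · exact ha c hca hx
      · exact hbc hx) (Set.ncard_empty _)
    have e2 := nc {c} 1 k H c kH hkk (by
      ext x
      simp only [Set.mem_setOf_eq, hk, Set.mem_singleton_iff]
      exact ⟨fun hx => hx.2.elim (fun e => absurd (e ▸ hx.1) (ha c hca)) id,
        fun e => ⟨by rw [e]; exact MulAction.mem_orbit_self c, Or.inr e⟩⟩) (Set.ncard_singleton c)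
    omega
  intro a b c d hab hcd
  obtain ⟨g, hg⟩ := htr a c
  obtain ⟨k, hk1, hk2⟩ := hstab c (g • b) d (fun e => hab ((MulAction.injective g) (hg.trans e.symm)))
    (Ne.symm hcd)
  exact ⟨k * g, by rw [mul_smul, hg, hk1], by rw [mul_smul, hk2]⟩

namespace Setting

variable {G P L : Type*} [Group G] [MulAction G P] [MulAction G L] {I : P → L → Prop} {n : ℕ}
  (h : Setting G I n) [Finite G] [Finite P] [Finite L]
include h

theorem invHom_dual {g : G} {c : P} {l : L} (hg : InvHom I g c l) : InvHom (dualRel I) g l c :=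
  ⟨hg.1, hg.2.1, hg.2.2.2.1, hg.2.2.1, hg.2.2.2.2⟩

theorem invHom_conj {g : G} {c : P} {l : L} (hg : InvHom I g c l) (k : G) :
    InvHom I (k * g * k⁻¹) (k • c) (k • l) :=
  ⟨by rw [show k * g * k⁻¹ * (k * g * k⁻¹) = k * (g * g) * k⁻¹ by group, hg.1, mul_one, mul_inv_cancel],
    h.hom_conj hg.2 k⟩

/-- A commuting involution with given centre and axis. -/
theorem exists_commuting {g : G} {a b : P} {A B : L} (hg : InvHom I g a A) (hk : ∃ k : G, InvHom I k b B)
    (hb : I b A) (ha : I a B) : ∃ k : G, InvHom I k b B ∧ Commute g k := by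
  haveI := Fact.mk Nat.prime_two
  obtain ⟨k₀, hk₀⟩ := hk
  have hbB : ¬ I b B := hk₀.2.1
  have hgb : g • b = b := hg.2.2.1 b hb
  have hgB : g • B = B := hg.2.2.2.1 B ha
  let H : Subgroup G := h.dirGrp b B
  let k₁ : H := ⟨k₀, hk₀.2.2.1, hk₀.2.2.2.1⟩
  have hk1 : k₁ ≠ 1 := fun e => hk₀.2.2.2.2 (congrArg Subtype.val e)
  have hinv := card_modEq_involutive (f := fun x : H => x⁻¹) (fun x => inv_inv x)
  have heven : 2 ∣ Nat.card H := by
    have : orderOf k₁ = 2 := orderOf_eq_prime (by rw [pow_two]; exact Subtype.ext hk₀.1) hk1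
    exact this ▸ orderOf_dvd_natCard k₁
  let S := {x : H // x * x = 1 ∧ x ≠ 1}
  have hS : Nat.card S % 2 = 1 := by
    have e1 : {x : H | x⁻¹ = x} = insert 1 {x : H | x * x = 1 ∧ x ≠ 1} := by
      ext x
      simp only [Set.mem_setOf_eq, Set.mem_insert_iff, inv_eq_iff_mul_eq_one]
      constructor
      · intro e; exact (em (x = 1)).imp_right fun e' => ⟨e, e'⟩
      · rintro (rfl | ⟨e, -⟩)
        · exact mul_one 1
        · exact e
    rw [e1, Set.ncard_insert_of_notMem (fun e => e.2 rfl) (Set.toFinite _)] at hinv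
    have e2 : Nat.card S = {x : H | x * x = 1 ∧ x ≠ 1}.ncard := Nat.card_coe_set_eq {x : H | x * x = 1 ∧ x ≠ 1}
    unfold Nat.ModEq at hinv
    omega
  have hmem : ∀ x : H, g * (x : G) * g⁻¹ ∈ H := by
    intro x
    have e1 := h.conj_axial x.2.1 g
    have e2 := h.conj_central x.2.2 g
    rw [hgB] at e1
    rw [hgb] at e2
    exact ⟨e1, e2⟩
  let f : S → S := fun x => ⟨⟨g * (x.1 : G) * g⁻¹, hmem x.1⟩, by
    refine ⟨Subtype.ext ?_, fun e => x.2.2 (Subtype.ext (conj_eq_one_iff.1 (congrArg Subtype.val e)))⟩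
    show g * (x.1 : G) * g⁻¹ * (g * (x.1 : G) * g⁻¹) = 1
    rw [show g * (x.1 : G) * g⁻¹ * (g * (x.1 : G) * g⁻¹) = g * ((x.1 : G) * x.1) * g⁻¹ by group,
      show (x.1 : G) * x.1 = 1 from congrArg Subtype.val x.2.1]
    simp⟩
  have hf : Function.Involutive f := fun x => Subtype.ext (Subtype.ext (by
    show g * (g * (x.1 : G) * g⁻¹) * g⁻¹ = x.1
    rw [show g * (g * (x.1 : G) * g⁻¹) * g⁻¹ = (g * g) * (x.1 : G) * (g * g)⁻¹ by group, hg.1]
    simp))
  have hmod := card_modEq_involutive hf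
  obtain ⟨x, hx⟩ := Set.nonempty_of_ncard_ne_zero (s := {x | f x = x}) (by
    intro e; rw [e] at hmod; unfold Nat.ModEq at hmod; omega)
  refine ⟨x.1, ⟨congrArg Subtype.val x.2.1, hbB, x.1.2.1, x.1.2.2, fun e => x.2.2 (Subtype.ext e)⟩, ?_⟩
  have e : g * (x.1 : G) * g⁻¹ = x.1 := congrArg Subtype.val (congrArg Subtype.val hx)
  exact mul_inv_eq_iff_eq_mul.1 e

/-- The product of two suitably placed commuting involutory homologies. -/
theorem hom_mul (hinv : ∀ g : G, g * g = 1 → g ≠ 1 → ∃ c l, Hom I g c l) {g k : G} {a b : P} {A B : L}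
    (hg : InvHom I g a A) (hk : InvHom I k b B) (hgk : Commute g k) (hb : I b A) (ha : I a B) :
    ∃ c C, InvHom I (g * k) c C ∧ I c A ∧ I c B ∧ I a C ∧ I b C := by
  obtain ⟨-, haA, hgA, hga, hg1⟩ := id hg
  obtain ⟨-, hbB, hkB, hkb, hk1⟩ := id hk
  have hab : a ≠ b := fun e => haA (e ▸ hb)
  have hAB : A ≠ B := fun e => haA (e ▸ ha)
  obtain ⟨O, hOA, hOB⟩ := h.meet A B
  have hne1 : g * k ≠ 1 := by
    intro e
    have e' : g = k := by rw [eq_inv_of_mul_eq_one_left e, eq_comm, ← mul_eq_one_iff_eq_inv, hk.1]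
    exact hab (h.center_unique hg1 hga (e' ▸ hkb))
  have hsq : (g * k) * (g * k) = 1 := by
    have e := hgk.mul_pow 2
    rw [pow_two, pow_two, pow_two, hg.1, hk.1, one_mul] at e
    exact e
  obtain ⟨c, C, hcC, hC, hc, -⟩ := hinv _ hsq hne1
  have fixA : ∀ p, I p A → (g * k) • p = p → p = b ∨ p = O := by
    intro p hp e
    rw [hgk.eq, mul_smul, hgA p hp] at e
    rcases h.fixed_cases hk1 hkB hkb e with hB' | e'
    · exact Or.inr (h.point_eq hAB hp hOA hB' hOB)
    · exact Or.inl e'
  have fixB : ∀ p, I p B → (g * k) • p = p → p = a ∨ p = O := by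
    intro p hp e
    rw [mul_smul, hkB p hp] at e
    rcases h.fixed_cases hg1 hgA hga e with hA' | e'
    · exact Or.inr (h.point_eq hAB hA' hOA hp hOB)
    · exact Or.inl e'
  have hfa : (g * k) • a = a := by rw [mul_smul, hkB a ha, h.smul_center hga]
  have hfb : (g * k) • b = b := by rw [mul_smul, h.smul_center hkb, hgA b hb]
  have hfO : (g * k) • O = O := by rw [mul_smul, hkB O hOB, hgA O hOA]
  have hOa : O ≠ a := fun e => haA (e ▸ hOA)
  have hOb : O ≠ b := fun e => hbB (e ▸ hOB)
  have hCA : C ≠ A := by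
    rintro rfl
    obtain ⟨p, hp, hpb, hpO⟩ := h.exists_pt_on C b O
    exact (fixA p hp (hC p hp)).elim hpb hpO
  have hCB : C ≠ B := by
    rintro rfl
    obtain ⟨p, hp, hpa, hpO⟩ := h.exists_pt_on C a O
    exact (fixB p hp (hC p hp)).elim hpa hpO
  have hbC : I b C := by
    by_contra hbC
    obtain ⟨X, hXC, hXA⟩ := h.meet C A
    have hOC : I O C := by
      rcases fixA X hXA (hC X hXC) with e | e
      · exact absurd (e ▸ hXC) hbC
      · exact e ▸ hXC
    have haC : ¬ I a C := fun haC => hCB (h.line_eq hOa hOC haC hOB ha)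
    exact hab (((h.fixed_cases hne1 hC hc hfa).resolve_left haC).trans
      ((h.fixed_cases hne1 hC hc hfb).resolve_left hbC).symm)
  have hOC : ¬ I O C := fun hOC => hCA (h.line_eq hOb hOC hbC hOA hb)
  have haC : I a C := by
    obtain ⟨Y, hYC, hYB⟩ := h.meet C B
    rcases fixB Y hYB (hC Y hYC) with e | e
    · exact e ▸ hYC
    · exact absurd (e ▸ hYC) hOC
  have hcO : O = c := (h.fixed_cases hne1 hC hc hfO).resolve_left hOC
  exact ⟨c, C, ⟨hsq, hcC, hC, hc, hne1⟩, hcO ▸ hOA, hcO ▸ hOB, haC, hbC⟩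

end Setting

end Cfsg.Agent.OWagner
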