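import Cfsg.Agent.OWagner.Homology

/-!
A plane of odd order in which all involutions are homologies, two points or two lines always being
fixed by one of them, has prime power order.
-/

set_option autoImplicit false
set_option linter.all false

namespace Cfsg.Agent.OWagner

/-- The hypotheses on a plane of odd order. -/
structure OddHyp (G : Type*) [Group G] {P L : Type*} [MulAction G P] [MulAction G L] (I : P → L → Prop)
    (n : ℕ) : Prop extends Setting G I n where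
  odd : Odd n
  inv : ∀ g : G, g * g = 1 → g ≠ 1 → ∃ c l, Hom I g c l
  fixPts : ∀ a b : P, a ≠ b → ∃ g : G, g * g = 1 ∧ g ≠ 1 ∧ g • a = a ∧ g • b = b
  fixLns : ∀ a b : L, a ≠ b → ∃ g : G, g * g = 1 ∧ g ≠ 1 ∧ g • a = a ∧ g • b = b

namespace OddHyp

variable {G P L : Type*} [Group G] [MulAction G P] [MulAction G L] {I : P → L → Prop} {n : ℕ}
  (h : OddHyp G I n) [Finite G] [Finite P] [Finite L]
include h

theorem dual : OddHyp G (dualRel I) n where
  toSetting := h.toSetting.dual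
  odd := h.odd
  inv g hg hg1 := by
    obtain ⟨c, l, h1, h2, h3, h4⟩ := h.inv g hg hg1
    exact ⟨l, c, h1, h3, h2, h4⟩
  fixPts := h.fixLns
  fixLns := h.fixPts

theorem three_le : 3 ≤ n := by
  obtain ⟨k, hk⟩ := h.odd
  have := h.two_le
  omega

theorem every_axis (l : L) : ∃ (g : G) (c : P), InvHom I g c l := by
  classical
  by_contra hno
  push Not at hno
  have hpair : ∀ a b : P, I a l → I b l → a ≠ b → ∃ (g : G) (c : P) (C : L), InvHom I g c C ∧
      ((c = a ∧ I b C) ∨ (c = b ∧ I a C)) := by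
    intro a b ha hb hab
    obtain ⟨g, hgg, hg1, hga, hgb⟩ := h.fixPts a b hab
    obtain ⟨c, C, hcC⟩ := h.inv g hgg hg1
    refine ⟨g, c, C, ⟨hgg, hcC⟩, ?_⟩
    rcases h.fixed_cases hg1 hcC.2.1 hcC.2.2.1 hga with ha' | ha' <;>
      rcases h.fixed_cases hg1 hcC.2.1 hcC.2.2.1 hgb with hb' | hb'
    · exact absurd ((h.line_eq hab ha' hb' ha hb) ▸ (⟨hgg, hcC⟩ : InvHom I g c C)) (hno g c)
    · exact Or.inr ⟨hb'.symm, ha'⟩
    · exact Or.inl ⟨ha'.symm, hb'⟩
    · exact absurd (ha'.trans hb'.symm) hab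
  let H := MulAction.stabilizer G l
  let X : SubMulAction H P :=
    { carrier := {p | I p l}
      smul_mem' := fun g p hp => h.mem_of_fix_line (MulAction.mem_stabilizer_iff.1 g.2) hp }
  have hX : Nat.card X = n + 1 := (Nat.card_coe_set_eq {p | I p l}).trans (h.card_pts l)
  have htwo : TwoTrans H X := by
    refine twoTrans_of_invol (by rw [hX]; exact h.odd.add_one) (by rw [hX]; have := h.three_le; omega)
      fun a b hab => ?_
    have hab' : (a : P) ≠ b := fun e => hab (Subtype.ext e)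
    obtain ⟨g, c, C, hg, hcase⟩ := hpair a b a.2 b.2 hab'
    have hgl : g • l = l := hg.2.2.2.1 l (by
      rcases hcase with ⟨e, -⟩ | ⟨e, -⟩
      · exact e.symm ▸ a.2
      · exact e.symm ▸ b.2)
    refine ⟨⟨g, hgl⟩, Subtype.ext hg.1, fun x => ⟨fun e => ?_, ?_⟩⟩
    · have hCl : C ≠ l := fun e' => hno g c (e' ▸ hg)
      have e' : g • (x : P) = x := congrArg Subtype.val e
      rcases h.fixed_cases hg.2.2.2.2 hg.2.2.1 hg.2.2.2.1 e' with hx | hx
      · rcases hcase with ⟨-, hbC⟩ | ⟨-, haC⟩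
        · exact Or.inr (Subtype.ext (h.point_eq hCl hx hbC x.2 b.2))
        · exact Or.inl (Subtype.ext (h.point_eq hCl hx haC x.2 a.2))
      · rcases hcase with ⟨e, -⟩ | ⟨e, -⟩
        · exact Or.inl (Subtype.ext (hx.trans e))
        · exact Or.inr (Subtype.ext (hx.trans e))
    · intro hx
      refine Subtype.ext ?_
      show g • (x : P) = x
      rcases hcase with ⟨e, hbC⟩ | ⟨e, haC⟩ <;> rcases hx with rfl | rfl
      · exact e ▸ h.smul_center hg.2.2.2.1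
      · exact hg.2.2.1 _ hbC
      · exact hg.2.2.1 _ haC
      · exact e ▸ h.smul_center hg.2.2.2.1
  have hR : ∀ a b : P, I a l → I b l → a ≠ b → ∃ (g : G) (C : L), InvHom I g a C ∧ I b C := by
    intro a b ha hb hab
    obtain ⟨g, c, C, hg, ⟨e, hbC⟩ | ⟨e, haC⟩⟩ := hpair a b ha hb hab
    · exact ⟨g, C, e ▸ hg, hbC⟩
    · obtain ⟨k, hkb, hka⟩ := htwo ⟨b, hb⟩ ⟨a, ha⟩ ⟨a, ha⟩ ⟨b, hb⟩
        (fun e' => hab (congrArg Subtype.val e').symm) (fun e' => hab (congrArg Subtype.val e'))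
      have e1 : (k : G) • b = a := congrArg Subtype.val hkb
      have e2 : (k : G) • a = b := congrArg Subtype.val hka
      refine ⟨(k : G) * g * (k : G)⁻¹, (k : G) • C, ?_, ?_⟩
      · have := h.invHom_conj (e ▸ hg : InvHom I g b C) (k : G)
        rwa [e1] at this
      · have := h.smul_mem (g := (k : G)) haC
        rwa [e2] at this
  obtain ⟨a, ha⟩ := h.nonempty_pts l
  obtain ⟨b, hb, hba, -⟩ := h.exists_pt_on l a a
  obtain ⟨g, A, hg, hbA⟩ := hR a b ha hb (Ne.symm hba)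
  obtain ⟨k₀, B, hk₀, haB⟩ := hR b a hb ha hba
  obtain ⟨k, hk, hgk⟩ := h.exists_commuting hg ⟨k₀, hk₀⟩ hbA haB
  obtain ⟨c, C, hC, -, -, haC, hbC⟩ := h.hom_mul h.inv hg hk hgk hbA haB
  exact hno (g * k) c (h.line_eq hba hbC haC hb ha ▸ hC)

theorem every_center (c : P) : ∃ (g : G) (l : L), InvHom I g c l := by
  obtain ⟨g, l, hg⟩ := h.dual.every_axis c
  exact ⟨g, l, hg.1, hg.2.1, hg.2.2.2.1, hg.2.2.1, hg.2.2.2.2⟩

/-- With two directions every point of the axis is a direction. -/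
theorem all_dirs {l : L} (htwo : TwoDir G I l) {Q : P} (hQ : I Q l) :
    ∃ e : G, e ≠ 1 ∧ Elat I e Q l := by
  obtain ⟨g, A, hg⟩ := h.every_center Q
  have hQA : ¬ I Q A := hg.2.1
  obtain ⟨U, hUA, hUl⟩ := h.meet A l
  obtain ⟨x, y, x', y', hx1, hy1, hxy, hx, hy⟩ := htwo
  obtain ⟨t, v, ht1, hvU, ht⟩ : ∃ (t : G) (v : P), t ≠ 1 ∧ v ≠ U ∧ Elat I t v l := by
    by_cases hxU : x' = U
    · exact ⟨y, y', hy1, fun e => hxy (hxU.trans e.symm), hy⟩
    · exact ⟨x, x', hx1, hxU, hx⟩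
  have hAl : A ≠ l := fun e => hQA (e ▸ hQ)
  have htA : t • A ≠ A := fun e =>
    (h.fixed_line_cases ht1 ht.2.1 ht.2.2 e).elim
      (fun hvA => hvU (h.point_eq hAl hvA hUA ht.1 hUl)) hAl
  have hgt := h.hom_conj hg.2 t
  rw [ht.2.1 Q hQ] at hgt
  obtain ⟨e, he, heA⟩ := h.toSetting.dual.centres_orbit (l := Q)
    ⟨hQA, hg.2.2.2.1, hg.2.2.1, hg.2.2.2.2⟩ ⟨hgt.1, hgt.2.2.1, hgt.2.1, hgt.2.2.2⟩
  obtain ⟨B, hB⟩ := he
  have he1 : e ≠ 1 := fun e' => htA (by rw [← heA, e', one_smul])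
  obtain ⟨X, hXB, hXA⟩ := h.meet B A
  have hXtA : I X (t • A) := by
    have := h.smul_mem (g := e) hXA
    rwa [heA, hB.2.2 X hXB] at this
  have hXU : X = U := h.point_eq (Ne.symm htA) hXA hUA hXtA (by
    have := h.smul_mem (g := t) hUA
    rwa [ht.2.1 U hUl] at this)
  have hBl : B = l := h.line_eq (fun e' => hQA (by rw [e']; exact hUA)) (hB.1 : I Q B) (hXU ▸ hXB) hQ hUl
  exact ⟨e, he1, hQ, hBl ▸ hB.2.2, hB.2.1⟩

theorem twoDir_primePow {l : L} (htwo : TwoDir G I l) : ∃ p k : ℕ, p.Prime ∧ 0 < k ∧ n = p ^ k := by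
  classical
  obtain ⟨p, hp, hexp⟩ := h.exists_exponent htwo
  haveI := Fact.mk hp
  by_cases hall : ∀ V, I V l → ∃ (e : G) (B : L), e ≠ 1 ∧ Elat I e V B ∧ B ≠ l
  · -- transitivity on the points of the axis
    have hV : ∀ V, I V l → ∃ g : G, g • l = l ∧ g ^ p = 1 ∧ g • V = V ∧ ∀ x, I x l → g • x = x → x = V := by
      intro V hV
      obtain ⟨e, B, he1, he, hBl⟩ := hall V hV
      obtain ⟨e₀, he01, he0⟩ := h.all_dirs htwo hV
      have htwo' : TwoDir G (dualRel I) V :=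
        ⟨e, e₀, B, l, he1, he01, hBl, ⟨he.1, he.2.2, he.2.1⟩, ⟨hV, he0.2.2, he0.2.1⟩⟩
      obtain ⟨p', hp', hexp'⟩ := h.toSetting.dual.exists_exponent htwo'
      have h1 : orderOf e₀ = p := orderOf_eq_prime (hexp e₀ V he0) he01
      haveI := Fact.mk hp'
      have h2 : orderOf e₀ = p' := orderOf_eq_prime (hexp' e₀ l ⟨hV, he0.2.2, he0.2.1⟩) he01
      refine ⟨e, he.2.2 l hV, ?_, h.smul_center he.2.2, fun x hx hex => ?_⟩
      · rw [← h1, h2]; exact hexp' e B ⟨he.1, he.2.2, he.2.1⟩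
      · rcases h.fixed_cases he1 he.2.1 he.2.2 hex with hxB | e'
        · exact h.point_eq hBl hxB he.1 hx hV
        · exact e'
    have htr : ∀ u v, I u l → I v l → ∃ g : G, g • l = l ∧ g • u = v := by
      intro u v hu hv
      let H := MulAction.stabilizer G l
      suffices v ∈ MulAction.orbit H u by
        obtain ⟨g, hg⟩ := this
        exact ⟨g, g.2, hg⟩
      by_contra hvu
      have hsub : ∀ x ∈ MulAction.orbit H v, I x l := by
        rintro _ ⟨g, rfl⟩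
        exact h.mem_of_fix_line (MulAction.mem_stabilizer_iff.1 g.2) hv
      have key : ∀ (g : G) (hgl : g • l = l), g ^ p = 1 →
          (MulAction.orbit H v).ncard ≡ {x | x ∈ MulAction.orbit H v ∧ g • x = x}.ncard [MOD p] := by
        intro g hgl hgp
        have := card_modEq_fixed (X := MulAction.orbit H v) (⟨g, hgl⟩ : H) (k := 1) (p := p)
          (Subtype.ext (by rw [pow_one]; exact hgp))
        rw [Nat.card_coe_set_eq] at this
        refine Eq.mp (congrArg (fun k => _ ≡ k [MOD p]) ?_) this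
        rw [← Set.ncard_image_of_injective _ Subtype.val_injective]
        congr 1
        ext x
        constructor
        · rintro ⟨y, hy, rfl⟩
          exact ⟨y.2, (congrArg Subtype.val hy : _)⟩
        · rintro ⟨hx, e⟩
          exact ⟨⟨x, hx⟩, Subtype.ext e, rfl⟩
      obtain ⟨g, hgl, hgp, hgu, hg⟩ := hV u hu
      obtain ⟨k, hkl, hkp, hkv, hk⟩ := hV v hv
      have e1 := key g hgl hgp
      rw [show {x | x ∈ MulAction.orbit H v ∧ g • x = x} = ∅ from
        Set.eq_empty_of_forall_notMem fun x ⟨hx, e⟩ => hvu (by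
          have hxu := hg x (hsub x hx) e
          rw [hxu, ← MulAction.orbit_eq_iff] at hx
          rw [hx]
          exact MulAction.mem_orbit_self v), Set.ncard_empty] at e1
      have e2 := key k hkl hkp
      rw [show {x | x ∈ MulAction.orbit H v ∧ k • x = x} = {v} from Set.ext fun x =>
        ⟨fun ⟨hx, e⟩ => hk x (hsub x hx) e, fun e => by rw [show x = v from e]; exact ⟨MulAction.mem_orbit_self v, hkv⟩⟩,
        Set.ncard_singleton] at e2
      have := (e1.symm.trans e2)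
      unfold Nat.ModEq at this
      rw [Nat.zero_mod, Nat.one_mod_eq_one.2 hp.one_lt.ne'] at this
      omega
    obtain ⟨p', k, hp', hk, hn, -⟩ := h.uniform_dirs htwo htr
    exact ⟨p', k, hp', hk, hn⟩
  · -- some point of the axis is centre only of elations with that axis
    push Not at hall
    obtain ⟨V, hV, hall⟩ := hall
    obtain ⟨e₀, he01, he0⟩ := h.all_dirs htwo hV
    obtain ⟨g, A, hg⟩ := h.every_center V
    have hVA : ¬ I V A := hg.2.1
    obtain ⟨U, hUA, hUl⟩ := h.meet A l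
    have hUV : U ≠ V := fun e => hVA (e ▸ hUA)
    have haxes : ∀ (k : G) (A' : L), InvHom I k V A' → I U A' := by
      intro k A' hk
      obtain ⟨e, ⟨B, hB⟩, heA⟩ := h.toSetting.dual.centres_orbit (l := V)
        ⟨hVA, hg.2.2.2.1, hg.2.2.1, hg.2.2.2.2⟩ ⟨hk.2.1, hk.2.2.2.1, hk.2.2.1, hk.2.2.2.2⟩
      have heU : e • U = U := by
        by_cases he1 : e = 1
        · rw [he1, one_smul]
        · exact hB.2.2 U ((hall e B he1 ⟨hB.1, hB.2.2, hB.2.1⟩) ▸ hUl)
      have := h.smul_mem (g := e) hUA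
      rwa [heA, heU] at this
    have hUaxes : ∀ X, I V X → X ≠ l → ∃ k : G, InvHom I k U X := by
      intro X hVX hXl
      obtain ⟨k, c, hk⟩ := h.every_axis X
      have hkV : k • V = V := hk.2.2.1 V hVX
      have hconj := h.elat_conj he0 k
      rw [hkV] at hconj
      have hkl : k • l = l := hall (k * e₀ * k⁻¹) _ (fun e => he01 (conj_eq_one_iff.1 e)) hconj
      have hcl : I c l := (h.fixed_line_cases hk.2.2.2.2 hk.2.2.1 hk.2.2.2.1 hkl).resolve_right (Ne.symm hXl)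
      have hA' := h.invHom_conj hg e₀
      rw [h.smul_center he0.2.2] at hA'
      have hne : e₀ • A ≠ A := fun e =>
        (h.fixed_line_cases he01 he0.2.1 he0.2.2 e).elim hVA fun e' => hVA (e' ▸ hV)
      have h1 := h.invHom_conj hg k
      have h2 := h.invHom_conj hA' k
      rw [hkV] at h1 h2
      have hkU : k • U = U := h.point_eq (fun e => hne ((MulAction.injective k) e).symm)
        (h.smul_mem hUA) (haxes _ _ h1) (h.smul_mem (haxes _ _ hA')) (haxes _ _ h2)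
      refine ⟨k, ?_⟩
      rcases h.fixed_cases hk.2.2.2.2 hk.2.2.1 hk.2.2.2.1 hkU with hUX | e
      · exact absurd (h.line_eq hUV hUX hVX hUl hV) hXl
      · exact e.symm ▸ hk
    let D := h.toSetting.dirGrp U l
    obtain ⟨X₀, hVX₀, hX₀, -⟩ := h.toSetting.dual.exists_pt_on V l l
    have hle : n ≤ Nat.card D := by
      rw [← h.toSetting.dual.ncard_pts_ne (l := V) (c := l) hV]
      refine (Set.ncard_le_ncard (t := (fun e : G => e • X₀) '' (D : Set G)) ?_ (Set.toFinite _)).trans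
        ((Set.ncard_image_le (Set.toFinite _)).trans (le_of_eq (Nat.card_coe_set_eq _).symm))
      intro X ⟨hVX, hXl⟩
      by_cases hXX : X = X₀
      · exact ⟨1, D.one_mem, by simp [hXX]⟩
      obtain ⟨k₀, hk₀⟩ := hUaxes X₀ hVX₀ hX₀
      obtain ⟨k, hk⟩ := hUaxes X hVX hXl
      obtain ⟨e, ⟨B, hB⟩, heX⟩ := h.toSetting.dual.centres_orbit (l := U)
        ⟨hk₀.2.1, hk₀.2.2.2.1, hk₀.2.2.1, hk₀.2.2.2.2⟩ ⟨hk.2.1, hk.2.2.2.1, hk.2.2.1, hk.2.2.2.2⟩
      obtain ⟨Y, hYB, hYX⟩ := h.meet B X₀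
      have hYX' : I Y X := by
        have := h.smul_mem (g := e) hYX
        rwa [heX, hB.2.2 Y hYB] at this
      have hYV : Y = V := h.point_eq (Ne.symm hXX) hYX hVX₀ hYX' hVX
      have hBl : B = l := h.line_eq hUV hB.1 (hYV ▸ hYB) hUl hV
      exact ⟨e, ⟨hBl ▸ hB.2.2, hB.2.1⟩, heX⟩
    obtain ⟨k, hk⟩ := ((h.elGrp_pGroup hexp).to_le (show D ≤ h.elGrp l from
      fun g hg => ⟨U, (h.toSetting.mem_dirGrp' hUl).1 hg⟩)).exists_card_eq
    have hn : n = Nat.card D :=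
      le_antisymm hle (Nat.le_of_dvd (by have := h.two_le; omega) (h.card_dirGrp_dvd hUl))
    refine ⟨p, k, hp, Nat.pos_of_ne_zero fun e => ?_, hn.trans hk⟩
    have := h.two_le
    rw [hn, hk, e, pow_zero] at this
    omega

theorem two_centres_primePow {l : L} {c d : P} {g k : G} (hcd : c ≠ d) (hg : InvHom I g c l)
    (hk : InvHom I k d l) : ∃ p k : ℕ, p.Prime ∧ 0 < k ∧ n = p ^ k := by
  classical
  by_contra hgoal
  have notwo : ∀ l' : L, ¬ TwoDir G I l' := fun l' h2 => hgoal (h.twoDir_primePow h2)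
  have notwo' : ∀ c' : P, ¬ TwoDir G (dualRel I) c' := fun c' h2 => hgoal (h.dual.twoDir_primePow h2)
  have step : ∀ {l : L} {c d : P} {g k : G}, c ≠ d → InvHom I g c l → InvHom I k d l →
      ∃ V M, I V l ∧ I V M ∧ M ≠ l ∧ I c M ∧ I d M ∧
        ∀ Q, I Q l → Q ≠ V → ∃ k : G, InvHom I k Q M := by
    intro l c d g k hcd hg hk
    obtain ⟨e, ⟨V, he⟩, hed⟩ := h.centres_orbit hg.2 hk.2
    have he1 : e ≠ 1 := fun e' => hcd (by rw [← hed, e', one_smul])
    obtain ⟨M, hcM, hVM⟩ := h.join c V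
    have hVc : V ≠ c := fun e' => hg.2.1 (e' ▸ he.1)
    have hdM : I d M := hed ▸ h.mem_of_fix_line (he.2.2 M hVM) hcM
    have hMl : M ≠ l := fun e' => hg.2.1 (e' ▸ hcM)
    have only : ∀ (g' : G) (c' : P), InvHom I g' c' l → I c' M := by
      intro g' c' hg'
      obtain ⟨e', ⟨V', he'⟩, hed'⟩ := h.centres_orbit hg.2 hg'.2
      by_cases he'1 : e' = 1
      · rw [he'1, one_smul] at hed'; exact hed' ▸ hcM
      have hVV : V' = V := by
        by_contra hne
        exact notwo l ⟨e', e, V', V, he'1, he1, hne, he', he⟩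
      exact hed' ▸ h.mem_of_fix_line (he'.2.2 M (hVV ▸ hVM)) hcM
    refine ⟨V, M, he.1, hVM, hMl, hcM, hdM, fun Q hQ hQV => ?_⟩
    obtain ⟨f, B, hf⟩ := h.every_center Q
    have hfl : f • l = l := hf.2.2.2.1 l hQ
    have hfV : f • V = V := by
      by_contra hne
      have := h.elat_conj he f
      rw [hfl] at this
      exact notwo l ⟨_, e, _, V, fun e' => he1 (conj_eq_one_iff.1 e'), he1, hne, this, he⟩
    have hfc := h.invHom_conj hg f
    rw [hfl] at hfc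
    have hfM : f • M = M := by
      refine h.line_eq (fun e' => hfc.2.1 (by rw [← e']; exact he.1)) ?_ (h.smul_mem hcM) hVM (only _ _ hfc)
      exact hfV ▸ h.smul_mem hVM
    have : M = B := (h.fixed_line_cases hf.2.2.2.2 hf.2.2.1 hf.2.2.2.1 hfM).resolve_left
      fun hQM => hQV (h.point_eq hMl hQM hVM hQ he.1)
    exact ⟨f, this ▸ hf⟩
  obtain ⟨V, M, hVl, hVM, hMl, hcM, -, hQ⟩ := step hcd hg hk
  obtain ⟨Q₁, hQ₁, hQ₁V, -⟩ := h.exists_pt_on l V V
  obtain ⟨Q₂, hQ₂, hQ₂V, hQ₂₁⟩ := h.exists_pt_on l V Q₁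
  obtain ⟨k₁, hk₁⟩ := hQ Q₁ hQ₁ hQ₁V
  obtain ⟨k₂, hk₂⟩ := hQ Q₂ hQ₂ hQ₂V
  obtain ⟨V', M', hV'M, hV'M', hM'M, hQ₁M', hQ₂M', hR⟩ := step (Ne.symm hQ₂₁) hk₁ hk₂
  have hM'l : M' = l := h.line_eq hQ₂₁ hQ₂M' hQ₁M' hQ₂ hQ₁
  subst hM'l
  have hVV : V' = V := h.point_eq hM'M hV'M' hVl hV'M hVM
  subst hVV
  -- every line missing the common point is an axis for it
  have haxis : ∀ m, ¬ I V' m → ∃ f : G, InvHom I f V' m := by
    intro m hm
    obtain ⟨Q, hQm, hQl⟩ := h.meet m M'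
    obtain ⟨R, hRm, hRM⟩ := h.meet m M
    have hQV : Q ≠ V' := fun e => hm (e ▸ hQm)
    have hRV : R ≠ V' := fun e => hm (e ▸ hRm)
    obtain ⟨g', hg'⟩ := hQ Q hQl hQV
    obtain ⟨k', hk', hcomm⟩ := h.exists_commuting hg' (hR R hRM hRV) hRM hQl
    obtain ⟨O, C, hC, hOM, hOl, hQC, hRC⟩ := h.hom_mul h.inv hg' hk' hcomm hRM hQl
    have hOV : O = V' := h.point_eq hMl hOM hVM hOl hVl
    have hQR : Q ≠ R := fun e => hQV (h.point_eq hMl (e ▸ hRM) hVM hQl hVl)
    exact ⟨g' * k', h.line_eq hQR hQm hRm hQC hRC ▸ hOV ▸ hC⟩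
  obtain ⟨R₁, hR₁, hR₁V, -⟩ := h.exists_pt_on M V' V'
  obtain ⟨m₁, hQm₁, hRm₁⟩ := h.join Q₁ R₁
  have hV1 : ¬ I V' m₁ := fun e => hMl (by
    have e1 : m₁ = M' := h.line_eq hQ₁V hQm₁ e hQ₁ hVl
    exact h.line_eq hR₁V hR₁ hVM (e1 ▸ hRm₁) hVl)
  obtain ⟨R₂, hR₂, hR₂V, hR₂₁⟩ := h.exists_pt_on M V' R₁
  obtain ⟨m₂, hQm₂, hRm₂⟩ := h.join Q₁ R₂
  have hV2 : ¬ I V' m₂ := fun e => hMl (by
    have e1 : m₂ = M' := h.line_eq hQ₁V hQm₂ e hQ₁ hVl
    exact h.line_eq hR₂V hR₂ hVM (e1 ▸ hRm₂) hVl)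
  obtain ⟨m₃, hQm₃, hRm₃⟩ := h.join Q₂ R₁
  have hV3 : ¬ I V' m₃ := fun e => hMl (by
    have e1 : m₃ = M' := h.line_eq hQ₂V hQm₃ e hQ₂ hVl
    exact h.line_eq hR₁V hR₁ hVM (e1 ▸ hRm₃) hVl)
  have h12 : m₁ ≠ m₂ := fun e => hV1 (by
    have : m₁ = M := h.line_eq hR₂₁ (e ▸ hRm₂) hRm₁ hR₂ hR₁
    exact this.symm ▸ hVM)
  have h13 : m₁ ≠ m₃ := fun e => hV1 (by
    have : m₁ = M' := h.line_eq hQ₂₁ (e ▸ hQm₃) hQm₁ hQ₂ hQ₁
    exact this.symm ▸ hVl)
  obtain ⟨f₁, hf₁⟩ := haxis m₁ hV1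
  have mk : ∀ {m X}, I X m₁ → I X m → m₁ ≠ m → ¬ I V' m →
      ∃ (e : G) (B : L), e ≠ 1 ∧ Elat (dualRel I) e B V' ∧ I X B := by
    intro m X hX1 hXm hne hm
    obtain ⟨f, hf⟩ := haxis m hm
    obtain ⟨e, ⟨B, hB⟩, hem⟩ := h.toSetting.dual.centres_orbit (l := V')
      ⟨hf₁.2.1, hf₁.2.2.2.1, hf₁.2.2.1, hf₁.2.2.2.2⟩ ⟨hf.2.1, hf.2.2.2.1, hf.2.2.1, hf.2.2.2.2⟩
    refine ⟨e, B, fun e' => hne (by rw [← hem, e', one_smul]), hB, ?_⟩
    obtain ⟨Y, hYB, hY1⟩ := h.meet B m₁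
    have hYm : I Y m := by
      have := h.smul_mem (g := e) hY1
      rwa [hem, hB.2.2 Y hYB] at this
    exact h.point_eq hne hY1 hX1 hYm hXm ▸ hYB
  obtain ⟨e₂, B₂, he₂, hB₂, hXB₂⟩ := mk hQm₁ hQm₂ h12 hV2
  obtain ⟨e₃, B₃, he₃, hB₃, hXB₃⟩ := mk hRm₁ hRm₃ h13 hV3
  have hB2l : B₂ = M' := h.line_eq (Ne.symm hQ₁V) hB₂.1 hXB₂ hVl hQ₁
  have hB3l : B₃ = M := h.line_eq (Ne.symm hR₁V) hB₃.1 hXB₃ hVM hR₁
  exact notwo' V' ⟨e₂, e₃, B₂, B₃, he₂, he₃, by rw [hB2l, hB3l]; exact Ne.symm hMl, hB₂, hB₃⟩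

theorem primePow : ∃ p k : ℕ, p.Prime ∧ 0 < k ∧ n = p ^ k := by
  classical
  by_contra hgoal
  have hC : ∀ (l : L) (c d : P) (g k : G), InvHom I g c l → InvHom I k d l → c = d := by
    intro l c d g k hg hk
    by_contra hne
    exact hgoal (h.two_centres_primePow hne hg hk)
  have hA : ∀ (c : P) (l m : L) (g k : G), InvHom I g c l → InvHom I k c m → l = m := by
    intro c l m g k hg hk
    by_contra hne
    exact hgoal (h.dual.two_centres_primePow hne (h.invHom_dual hg) (h.invHom_dual hk))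
  choose g π hπ using h.every_center
  have hnot : ∀ p, ¬ I p (π p) := fun p => (hπ p).2.1
  have hinj : Function.Injective π := fun p q e => hC (π p) p q _ _ (hπ p) (e ▸ hπ q)
  have hbij : Function.Bijective π :=
    (Nat.bijective_iff_injective_and_card π).2 ⟨hinj, by rw [h.cardP, h.cardL]⟩
  have hsymm : ∀ p q, I p (π q) → I q (π p) := by
    intro p q hpq
    have hfix : g q • p = p := (hπ q).2.2.1 p hpq
    have h1 := h.invHom_conj (hπ p) (g q)
    rw [hfix] at h1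
    have h2 : g q • π p = π p := hA p _ _ _ _ h1 (hπ p)
    exact (h.fixed_line_cases (hπ q).2.2.2.2 (hπ q).2.2.1 (hπ q).2.2.2.1 h2).resolve_right
      fun e => hnot q (by have e' := hinj e; subst e'; exact hpq)
  haveI := Fintype.ofFinite P
  obtain ⟨r, hr, hrn⟩ := Nat.exists_prime_and_dvd (n := n) (by have := h.two_le; omega)
  haveI := Fact.mk hr
  let A : Matrix P P (ZMod r) := Matrix.of fun p q => if I p (π q) then 1 else 0
  let J : Matrix P P (ZMod r) := Matrix.of fun _ _ => 1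
  have hn0 : (n : ZMod r) = 0 := (ZMod.natCast_eq_zero_iff n r).2 hrn
  have hrow : ∀ q, (Finset.univ.filter fun p => I p (π q)).card = n + 1 := fun q => by
    rw [← h.card_pts (π q), ← Set.ncard_coe_finset, Finset.coe_filter_univ]
  have hAA : A * A = J := by
    ext p q
    simp only [A, J, Matrix.mul_apply, Matrix.of_apply, ite_zero_mul_ite_zero, one_mul]
    rw [Finset.sum_boole]
    by_cases hpq : p = q
    · subst hpq
      rw [show (Finset.univ.filter fun x => I p (π x) ∧ I x (π p)) = Finset.univ.filter fun x => I x (π p) from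
        Finset.filter_congr fun x _ => ⟨fun e => e.2, fun e => ⟨hsymm _ _ e, e⟩⟩, hrow]
      simp [hn0]
    · obtain ⟨X, hXp, hXq⟩ := h.meet (π p) (π q)
      rw [show (Finset.univ.filter fun x => I p (π x) ∧ I x (π q)) = {X} from by
        ext x
        simp only [Finset.mem_filter, Finset.mem_univ, true_and, Finset.mem_singleton]
        exact ⟨fun e => h.point_eq (fun e' => hpq (hinj e')) (hsymm _ _ e.1) hXp e.2 hXq,
          fun e => e ▸ ⟨hsymm _ _ hXp, hXq⟩⟩]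
      simp
  have hJA : J * A = J := by
    ext p q
    simp only [A, J, Matrix.mul_apply, Matrix.of_apply, one_mul]
    rw [Finset.sum_boole, hrow]
    simp [hn0]
  have hpow : ∀ k, A ^ (k + 2) = J := by
    intro k
    induction k with
    | zero => rw [pow_two, hAA]
    | succ k ih => rw [pow_succ, ih, hJA]
  obtain ⟨k, hk⟩ : ∃ k, r = k + 2 := ⟨r - 2, by have := hr.two_le; omega⟩
  have e1 := ZMod.trace_pow_card A
  have e2 : A ^ r = J := (congrArg (A ^ ·) hk).trans (hpow k)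
  rw [e2] at e1
  have e3 : A.trace = 0 := Finset.sum_eq_zero fun p _ => if_neg (hnot p)
  rw [e3, zero_pow hr.ne_zero] at e1
  simp only [Matrix.trace, Matrix.diag, J, Matrix.of_apply, Finset.sum_const, Finset.card_univ, nsmul_eq_mul,
    mul_one] at e1
  rw [← Nat.card_eq_fintype_card, h.cardP] at e1
  push_cast at e1
  rw [hn0] at e1
  simp at e1

end OddHyp

end Cfsg.Agent.OWagner
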