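import Cfsg.Agent.OWagner.Basic

/-!
Perspectivities and elations.
-/

set_option autoImplicit false
set_option linter.all false

namespace Cfsg.Agent.OWagner

/-- The elations with centre `c` and axis `l`, together with the identity. -/
def Elat {G P L : Type*} [SMul G P] [SMul G L] (I : P → L → Prop) (g : G) (c : P) (l : L) : Prop :=
  I c l ∧ Axial I g l ∧ Central I g c

/-- The homologies with centre `c` and axis `l`. -/
def Hom {G P L : Type*} [One G] [SMul G P] [SMul G L] (I : P → L → Prop) (g : G) (c : P) (l : L) : Prop :=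
  ¬ I c l ∧ Axial I g l ∧ Central I g c ∧ g ≠ 1

/-- There are nontrivial elations with axis `l` in two directions. -/
def TwoDir (G : Type*) [One G] {P L : Type*} [SMul G P] [SMul G L] (I : P → L → Prop) (l : L) : Prop :=
  ∃ (a b : G) (u v : P), a ≠ 1 ∧ b ≠ 1 ∧ u ≠ v ∧ Elat I a u l ∧ Elat I b v l

section

variable {G P L : Type*} [Group G] [MulAction G P]

theorem axial_one (I : P → L → Prop) (l : L) : Axial I (1 : G) l := fun p _ => one_smul G p

theorem Axial.mul {I : P → L → Prop} {a b : G} {l : L} (ha : Axial I a l) (hb : Axial I b l) :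
    Axial I (a * b) l := fun p hp => by rw [mul_smul, hb p hp, ha p hp]

theorem Axial.inv {I : P → L → Prop} {a : G} {l : L} (ha : Axial I a l) : Axial I a⁻¹ l :=
  fun p hp => inv_smul_eq_iff.2 (ha p hp).symm

theorem Axial.pow {I : P → L → Prop} {a : G} {l : L} (ha : Axial I a l) (k : ℕ) : Axial I (a ^ k) l := by
  induction k with
  | zero => rw [pow_zero]; exact axial_one I l
  | succ k ih => rw [pow_succ]; exact ih.mul ha

/-- The pointwise stabilizer of a line. -/
def axialGrp (I : P → L → Prop) (l : L) : Subgroup G where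
  carrier := {g | Axial I g l}
  one_mem' := axial_one I l
  mul_mem' := Axial.mul
  inv_mem' := Axial.inv

@[simp] theorem mem_axialGrp {I : P → L → Prop} {l : L} {g : G} :
    g ∈ axialGrp (G := G) I l ↔ Axial I g l := Iff.rfl

end

namespace Setting

variable {G P L : Type*} [Group G] [MulAction G P] [MulAction G L] {I : P → L → Prop} {n : ℕ}
  (h : Setting G I n)
include h

theorem conj_axial {g : G} {l : L} (hg : Axial I g l) (k : G) : Axial I (k * g * k⁻¹) (k • l) := by
  intro p hp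
  have h1 : I (k⁻¹ • p) l := by
    have := h.smul_mem (g := k⁻¹) hp
    rwa [inv_smul_smul] at this
  rw [mul_smul, mul_smul, hg _ h1, smul_inv_smul]

variable [Finite P] [Finite L]

theorem conj_central {g : G} {c : P} (hg : Central I g c) (k : G) : Central I (k * g * k⁻¹) (k • c) :=
  h.dual.conj_axial hg k

theorem elat_conj {g : G} {c : P} {l : L} (hg : Elat I g c l) (k : G) :
    Elat I (k * g * k⁻¹) (k • c) (k • l) :=
  ⟨h.smul_mem hg.1, h.conj_axial hg.2.1 k, h.conj_central hg.2.2 k⟩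

theorem hom_conj {g : G} {c : P} {l : L} (hg : Hom I g c l) (k : G) :
    Hom I (k * g * k⁻¹) (k • c) (k • l) :=
  ⟨fun e => hg.1 ((h.compat k c l).1 e), h.conj_axial hg.2.1 k, h.conj_central hg.2.2.1 k,
    fun e => hg.2.2.2 (conj_eq_one_iff.1 e)⟩

/-- A fixed point off the axis is a centre. -/
theorem central_of_fixed_off {g : G} {l : L} {B : P} (hg : Axial I g l) (hB : g • B = B) (hBl : ¬ I B l) :
    Central I g B := by
  intro m (hm : I B m)
  obtain ⟨X, hXm, hXl⟩ := h.meet m l
  exact h.fix_line (fun e => hBl (by rw [e]; exact hXl)) hm hXm hB (hg X hXl)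

theorem eq_one_of_two_fixed_off {g : G} {l : L} {A B : P} (hg : Axial I g l) (hA : g • A = A)
    (hB : g • B = B) (hAl : ¬ I A l) (hBl : ¬ I B l) (hAB : A ≠ B) : g = 1 := by
  obtain ⟨m, hAm, hBm⟩ := h.join A B
  have cA := h.central_of_fixed_off hg hA hAl
  have cB := h.central_of_fixed_off hg hB hBl
  have off : ∀ X, ¬ I X m → g • X = X := by
    intro X hX
    obtain ⟨a, hXa, hAa⟩ := h.join X A
    obtain ⟨b, hXb, hBb⟩ := h.join X B
    refine h.fix_point (fun e => hX ?_) hXa hXb (cA a hAa) (cB b hBb)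
    subst e
    rwa [h.line_eq hAB hAm hBm hAa hBb]
  refine h.faithful g fun X => ?_
  by_cases hX : I X m
  · by_cases hXl : I X l
    · exact hg X hXl
    obtain ⟨C, hCm, hCl⟩ := h.exists_pt_off_two m l
    have cC := h.central_of_fixed_off hg (off C hCm) hCl
    obtain ⟨c, hXc, hCc⟩ := h.join X C
    exact h.fix_point (fun e => hCm (by subst e; exact hCc)) hX hXc (cA m hAm) (cC c hCc)
  · exact off X hX

theorem axis_unique {g : G} {l m : L} (hg : g ≠ 1) (hl : Axial I g l) (hm : Axial I g m) : l = m := by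
  by_contra hne
  obtain ⟨X, hXl, hXm⟩ := h.meet l m
  obtain ⟨A, hAm, hAX, -⟩ := h.exists_pt_on m X X
  obtain ⟨B, hBm, hBX, hBA⟩ := h.exists_pt_on m X A
  exact hg (h.eq_one_of_two_fixed_off hl (hm A hAm) (hm B hBm)
    (fun e => hAX (h.point_eq hne e hXl hAm hXm)) (fun e => hBX (h.point_eq hne e hXl hBm hXm))
    (Ne.symm hBA))

theorem center_unique {g : G} {c d : P} (hg : g ≠ 1) (hc : Central I g c) (hd : Central I g d) : c = d :=
  h.dual.axis_unique hg hc hd

theorem exists_center {g : G} {l : L} (hg : Axial I g l) : ∃ c, Central I g c := by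
  by_cases h1 : g = 1
  · obtain ⟨c, -⟩ := h.nonempty_pts l
    exact ⟨c, h1 ▸ axial_one _ _⟩
  by_cases hA : ∃ A, g • A = A ∧ ¬ I A l
  · obtain ⟨A, h2, h3⟩ := hA
    exact ⟨A, h.central_of_fixed_off hg h2 h3⟩
  push Not at hA
  have hfix : {p : P | g • p = p} = {p | I p l} := Set.ext fun p => ⟨hA p, hg p⟩
  have hl : g • l = l := by
    obtain ⟨X, hX, -⟩ := h.exists_pt_on l (Classical.choose (h.nonempty_pts l)) (Classical.choose (h.nonempty_pts l))
    obtain ⟨Y, hY, hYX, -⟩ := h.exists_pt_on l X X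
    exact h.fix_line hYX hY hX (hg Y hY) (hg X hX)
  have hcard : {m : L | g • m = m}.ncard = n + 1 := by rw [← h.fixed_eq, hfix, h.card_pts]
  have hex : ∃ m, g • m = m ∧ m ≠ l := by
    by_contra hc
    push Not at hc
    have : {m : L | g • m = m} ⊆ {l} := fun m hm => hc m hm
    have := Set.ncard_le_ncard this (Set.toFinite _)
    rw [hcard, Set.ncard_singleton] at this
    have := h.two_le
    omega
  obtain ⟨m, hm, hml⟩ := hex
  obtain ⟨V, hVm, hVl⟩ := h.meet m l
  have hsub : {k : L | g • k = k} ⊆ {k | I V k} := by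
    intro k hk
    by_cases hkm : k = m
    · exact hkm ▸ hVm
    obtain ⟨X, hXk, hXm⟩ := h.meet k m
    have hXl := hA X (h.fix_point hkm hXk hXm hk hm)
    rw [h.point_eq hml hVm hXm hVl hXl]
    exact hXk
  have heq := Set.eq_of_subset_of_ncard_le hsub (by rw [hcard, h.card_lns]) (Set.toFinite _)
  exact ⟨V, fun k hk => (heq ▸ hk : k ∈ {k : L | g • k = k})⟩

theorem exists_axis {g : G} {c : P} (hg : Central I g c) : ∃ l, Axial I g l := h.dual.exists_center hg

theorem fixed_cases {g : G} {c : P} {l : L} {B : P} (hg : g ≠ 1) (hl : Axial I g l) (hc : Central I g c)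
    (hB : g • B = B) : I B l ∨ B = c :=
  (em (I B l)).imp_right fun hBl => h.center_unique hg (h.central_of_fixed_off hl hB hBl) hc

theorem fixed_line_cases {g : G} {c : P} {l : L} {m : L} (hg : g ≠ 1) (hl : Axial I g l)
    (hc : Central I g c) (hm : g • m = m) : I c m ∨ m = l :=
  h.dual.fixed_cases hg hc hl hm

theorem smul_axis {g : G} {l : L} (hg : Axial I g l) : g • l = l := by
  obtain ⟨X, hX⟩ := h.nonempty_pts l
  obtain ⟨Y, hY, hYX, -⟩ := h.exists_pt_on l X X
  exact h.fix_line hYX hY hX (hg Y hY) (hg X hX)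

theorem smul_center {g : G} {c : P} (hg : Central I g c) : g • c = c := h.dual.smul_axis hg

theorem elat_fixed {g : G} {c : P} {l : L} {B : P} (hg : Elat I g c l) (hB : g • B = B) (hBl : ¬ I B l) :
    g = 1 := by
  by_contra h1
  rcases h.fixed_cases h1 hg.2.1 hg.2.2 hB with h2 | h2
  · exact hBl h2
  · exact hBl (h2 ▸ hg.1)

/-- An axial collineation without fixed points off the axis is an elation. -/
theorem elat_of_no_fixed {g : G} {l : L} (hg : Axial I g l) (hno : ∀ p, g • p = p → I p l) :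
    ∃ c, Elat I g c l := by
  obtain ⟨c, hc⟩ := h.exists_center hg
  exact ⟨c, hno c (h.smul_center hc), hg, hc⟩

theorem elat_dir_unique {g : G} {c d : P} {l : L} (hg : g ≠ 1) (h1 : Elat I g c l) (h2 : Elat I g d l) :
    c = d := h.center_unique hg h1.2.2 h2.2.2

theorem elat_mul {a b : G} {u v : P} {l : L} (ha : Elat I a u l) (hb : Elat I b v l) :
    ∃ w, Elat I (a * b) w l := by
  by_cases hb1 : b = 1
  · exact ⟨u, by rw [hb1, mul_one]; exact ha⟩
  by_cases ha1 : a = 1
  · exact ⟨v, by rw [ha1, one_mul]; exact hb⟩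
  by_cases huv : u = v
  · subst huv
    exact ⟨u, ha.1, ha.2.1.mul hb.2.1, ha.2.2.mul hb.2.2⟩
  refine h.elat_of_no_fixed (ha.2.1.mul hb.2.1) fun A hA => ?_
  by_contra hAl
  obtain ⟨m, hAm, hvm⟩ := h.join A v
  have hbm : I (b • A) m := h.mem_of_fix_line (hb.2.2 m hvm) hAm
  obtain ⟨k, hAk, huk⟩ := h.join A u
  have hak : I (a⁻¹ • A) k := h.mem_of_fix_line (ha.2.2.inv k huk) hAk
  have e : a⁻¹ • A = b • A := by rw [inv_smul_eq_iff, ← mul_smul]; exact hA.symm
  rw [e] at hak
  have hne : b • A ≠ A := fun e' => hb1 (h.elat_fixed hb e' hAl)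
  have hmk : m = k := h.line_eq hne hbm hAm hak hAk
  exact huv (h.point_eq (fun e' => hAl (by rw [← e']; exact hAk)) huk (hmk ▸ hvm) ha.1 hb.1)

theorem elat_inv {a : G} {u : P} {l : L} (ha : Elat I a u l) : Elat I a⁻¹ u l :=
  ⟨ha.1, ha.2.1.inv, ha.2.2.inv⟩

/-- The group of elations with axis `l`. -/
def elGrp (l : L) : Subgroup G where
  carrier := {g | ∃ c, Elat I g c l}
  one_mem' := by
    obtain ⟨c, hc⟩ := h.nonempty_pts l
    exact ⟨c, hc, axial_one I l, axial_one _ c⟩
  mul_mem' := fun ⟨_, ha⟩ ⟨_, hb⟩ => h.elat_mul ha hb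
  inv_mem' := fun ⟨u, ha⟩ => ⟨u, h.elat_inv ha⟩

theorem mem_elGrp {l : L} {g : G} : g ∈ h.elGrp l ↔ ∃ c, Elat I g c l := Iff.rfl

theorem elat_comm_of_ne {a b : G} {u v : P} {l : L} (ha : Elat I a u l) (hb : Elat I b v l) (huv : u ≠ v) :
    Commute a b := by
  have hu : Central I (a * (b * a⁻¹ * b⁻¹)) u := by
    have := h.conj_central ha.2.2.inv b
    rw [hb.2.1 u ha.1] at this
    exact ha.2.2.mul this
  have hv : Central I (a * b * a⁻¹ * b⁻¹) v := by
    have := h.conj_central hb.2.2 a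
    rw [ha.2.1 v hb.1] at this
    exact this.mul hb.2.2.inv
  rw [← mul_assoc, ← mul_assoc] at hu
  have h1 : a * b * a⁻¹ * b⁻¹ = 1 := by
    by_contra hne
    exact huv (h.center_unique hne hu hv)
  show a * b = b * a
  calc a * b = a * b * a⁻¹ * b⁻¹ * (b * a) := by group
    _ = b * a := by rw [h1, one_mul]

theorem elat_comm {a b : G} {u v : P} {l : L} (htwo : TwoDir G I l) (ha : Elat I a u l)
    (hb : Elat I b v l) : Commute a b := by
  by_cases huv : u = v
  swap
  · exact h.elat_comm_of_ne ha hb huv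
  subst huv
  by_cases ha1 : a = 1
  · rw [ha1]; exact Commute.one_left b
  obtain ⟨x, y, x', y', hx1, hy1, hxy, hx, hy⟩ := htwo
  obtain ⟨c, w, hc1, hwu, hc⟩ : ∃ (c : G) (w : P), c ≠ 1 ∧ w ≠ u ∧ Elat I c w l := by
    by_cases hxu : x' = u
    · exact ⟨y, y', hy1, fun e => hxy (hxu.trans e.symm), hy⟩
    · exact ⟨x, x', hx1, hxu, hx⟩
  obtain ⟨z, hz⟩ := h.elat_mul ha hc
  have hzu : z ≠ u := by
    rintro rfl
    have : Central I c z := by
      have := ha.2.2.inv.mul hz.2.2
      rwa [inv_mul_cancel_left] at this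
    exact hwu (h.center_unique hc1 hc.2.2 this)
  have h1 : Commute (a * c) b := h.elat_comm_of_ne hz hb hzu
  have h2 : Commute c b := h.elat_comm_of_ne hc hb hwu
  have h3 := h1.mul_left h2.inv_left
  rwa [mul_assoc, mul_inv_cancel, mul_one] at h3

/-- An elation group with two directions is elementary abelian. -/
theorem exists_exponent [Finite G] {l : L} (htwo : TwoDir G I l) :
    ∃ p : ℕ, p.Prime ∧ ∀ (g : G) (c : P), Elat I g c l → g ^ p = 1 := by
  obtain ⟨x, y, x', y', hx1, hy1, hxy, hx, hy⟩ := id htwo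
  obtain ⟨p, hp, hpd⟩ := Nat.exists_prime_and_dvd (n := orderOf x) (by rwa [Ne, orderOf_eq_one_iff])
  obtain ⟨k, hk⟩ := hpd
  have hk1 : x ^ k ≠ 1 := by
    intro e
    have h1 : orderOf x ∣ k := orderOf_dvd_of_pow_eq_one e
    have h0 : 0 < k := Nat.pos_of_ne_zero fun e' => by
      rw [e', mul_zero] at hk
      exact (orderOf_pos x).ne' hk
    have := Nat.le_of_dvd h0 h1
    rw [hk] at this
    nlinarith [hp.two_le]
  have hkp : (x ^ k) ^ p = 1 := by rw [← pow_mul, mul_comm, ← hk, pow_orderOf_eq_one]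
  have hxk : Elat I (x ^ k) x' l := ⟨hx.1, hx.2.1.pow k, hx.2.2.pow k⟩
  have key : ∀ (a : G) (u : P), Elat I a u l → a ≠ 1 → a ^ p = 1 → ∀ (b : G) (v : P), Elat I b v l →
      v ≠ u → b ^ p = 1 := by
    intro a u ha ha1 hap b v hb hvu
    by_cases hb1 : b = 1
    · rw [hb1, one_pow]
    obtain ⟨w, hw⟩ := h.elat_mul ha hb
    have hwv : w ≠ v := by
      rintro rfl
      have : Central I a w := by
        have := hw.2.2.mul hb.2.2.inv
        rwa [mul_inv_cancel_right] at this
      exact hvu (h.center_unique ha1 this ha.2.2)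
    have e : (a * b) ^ p = b ^ p := by
      rw [(h.elat_comm_of_ne ha hb (Ne.symm hvu)).mul_pow, hap, one_mul]
    by_contra hne
    exact hwv (h.center_unique hne (e ▸ hw.2.2.pow p) (hb.2.2.pow p))
  refine ⟨p, hp, fun g c hg => ?_⟩
  by_cases hc : c = x'
  · subst hc
    exact key y y' hy hy1 (key _ c hxk hk1 hkp y y' hy (Ne.symm hxy)) g c hg hxy
  · exact key _ x' hxk hk1 hkp g c hg hc

end Setting

end Cfsg.Agent.OWagner
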