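import Cfsg.Agent.OWagner.OddPlane

/-!
A plane of odd order with doubly transitive collineation group has prime power order: reduction to the
fixed subplane of a largest two-subgroup having one.
-/

set_option autoImplicit false
set_option linter.all false

namespace Cfsg.Agent.OWagner

variable {G : Type*} [Group G]

/-- The fixed points of a subgroup, as a set acted on by its normalizer. -/
def fixSub (D : Subgroup G) (X : Type*) [MulAction G X] :
    SubMulAction (Subgroup.normalizer (D : Set G)) X where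
  carrier := MulAction.fixedPoints D X
  smul_mem' g x hx d := by
    have hd : (g : G)⁻¹ * (d : G) * (g : G) ∈ D := by
      have := (Subgroup.mem_normalizer_iff.1 (Subgroup.inv_mem _ g.2) (d : G)).1 d.2
      rwa [inv_inv] at this
    show (d : G) • (g : G) • x = (g : G) • x
    have e : ((g : G)⁻¹ * (d : G) * (g : G)) • x = x := hx ⟨_, hd⟩
    rw [← mul_smul, show (d : G) * (g : G) = (g : G) * ((g : G)⁻¹ * (d : G) * (g : G)) by group, mul_smul, e]

/-- The group induced by the normalizer on the fixed points and fixed lines. -/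
def resGrp (D : Subgroup G) (P L : Type*) [MulAction G P] [MulAction G L] :
    Subgroup (Equiv.Perm (fixSub D P) × Equiv.Perm (fixSub D L)) :=
  ((MulAction.toPermHom (Subgroup.normalizer (D : Set G)) (fixSub D P)).prod
    (MulAction.toPermHom (Subgroup.normalizer (D : Set G)) (fixSub D L))).range

/-- The restriction map. -/
def resHom (D : Subgroup G) (P L : Type*) [MulAction G P] [MulAction G L] :
    Subgroup.normalizer (D : Set G) →* resGrp D P L :=
  MonoidHom.rangeRestrict _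

instance (D : Subgroup G) (P L : Type*) [MulAction G P] [MulAction G L] :
    MulAction (resGrp D P L) (fixSub D P) :=
  MulAction.compHom _ ((MonoidHom.fst _ _).comp (resGrp D P L).subtype)

instance (D : Subgroup G) (P L : Type*) [MulAction G P] [MulAction G L] :
    MulAction (resGrp D P L) (fixSub D L) :=
  MulAction.compHom _ ((MonoidHom.snd _ _).comp (resGrp D P L).subtype)

theorem resHom_surjective (D : Subgroup G) (P L : Type*) [MulAction G P] [MulAction G L] :
    Function.Surjective (resHom D P L) := MonoidHom.rangeRestrict_surjective _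

variable {P L : Type*} [MulAction G P] [MulAction G L]

/-- A two-group whose fixed elements form a subplane of suitable order. -/
def Good (G : Type*) [Group G] {P L : Type*} [MulAction G P] [MulAction G L] (I : P → L → Prop) (n : ℕ)
    (D : Subgroup G) : Prop :=
  IsPGroup 2 D ∧ ∃ s k, n = s ^ 2 ^ k ∧ SubPlane I (MulAction.fixedPoints D P) (MulAction.fixedPoints D L) s

/-- A good subgroup of largest order. -/
def GoodMax (G : Type*) [Group G] {P L : Type*} [MulAction G P] [MulAction G L] (I : P → L → Prop) (n : ℕ)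
    (D : Subgroup G) : Prop :=
  Good G I n D ∧ ∀ D', Good G I n D' → Nat.card D' ≤ Nat.card D

theorem Good.dual {I : P → L → Prop} {n : ℕ} {D : Subgroup G} (hD : Good G I n D) :
    Good G (dualRel I) n D := by
  obtain ⟨h1, s, k, h2, h3⟩ := hD
  exact ⟨h1, s, k, h2, h3.dual⟩

theorem GoodMax.dual {I : P → L → Prop} {n : ℕ} {D : Subgroup G} (hD : GoodMax G I n D) :
    GoodMax G (dualRel I) n D :=
  ⟨hD.1.dual, fun D' hD' => hD.2 D' hD'.dual⟩

/-- A power of an element of finite order with the same involutory image and two-power order. -/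
theorem exists_two_elt {H : Type*} [Group H] [Finite H] {N : Type*} [Group N] (f : H →* N) (g : H)
    (h2 : f g * f g = 1) : ∃ m : ℕ, (∃ a, (g ^ m) ^ 2 ^ a = 1) ∧ f (g ^ m) = f g := by
  obtain ⟨a, m, hm, hord⟩ := Nat.exists_eq_two_pow_mul_odd (n := orderOf g) (orderOf_pos g).ne'
  refine ⟨m, ⟨a, ?_⟩, ?_⟩
  · rw [← pow_mul, mul_comm, ← hord, pow_orderOf_eq_one]
  · obtain ⟨j, rfl⟩ := hm
    rw [map_pow, pow_succ, pow_mul, pow_two, h2, one_pow, one_mul]

/-- A nontrivial image of a two-element has an involution among its powers. -/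
theorem exists_invol_pow {H : Type*} [Group H] {N : Type*} [Group N] (f : H →* N) (g : H) {a : ℕ}
    (ha : g ^ 2 ^ a = 1) (hne : f g ≠ 1) : ∃ j : ℕ, f (g ^ j) * f (g ^ j) = 1 ∧ f (g ^ j) ≠ 1 := by
  classical
  have hex : ∃ b, f g ^ 2 ^ b = 1 := ⟨a, by rw [← map_pow, ha, map_one]⟩
  obtain ⟨b, hb⟩ : ∃ b, Nat.find hex = b + 1 :=
    ⟨Nat.find hex - 1, by
      have : Nat.find hex ≠ 0 := fun e => hne (by simpa [e] using Nat.find_spec hex)
      omega⟩
  refine ⟨2 ^ b, ?_, ?_⟩
  · rw [map_pow, ← pow_add, ← two_mul, ← pow_succ', ← hb]; exact Nat.find_spec hex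
  · rw [map_pow]; exact Nat.find_min hex (by omega)

theorem isPGroup_zpowers {g : G} {a : ℕ} (ha : g ^ 2 ^ a = 1) : IsPGroup 2 (Subgroup.zpowers g) := by
  intro y
  obtain ⟨j, hj⟩ := Subgroup.mem_zpowers_iff.1 y.2
  refine ⟨a, Subtype.ext ?_⟩
  rw [SubgroupClass.coe_pow, ← hj, Subgroup.coe_one, ← zpow_natCast, ← zpow_mul, mul_comm, zpow_mul,
    zpow_natCast, ha, one_zpow]

theorem fixedPoints_sup_zpowers {X : Type*} [MulAction G X] (D : Subgroup G) (g : G) :
    MulAction.fixedPoints (D ⊔ Subgroup.zpowers g : Subgroup G) X =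
      {x | x ∈ MulAction.fixedPoints D X ∧ g • x = x} := by
  ext x
  refine ⟨fun hx => ⟨fun d => hx ⟨d, Subgroup.mem_sup_left d.2⟩,
    hx ⟨g, Subgroup.mem_sup_right (Subgroup.mem_zpowers g)⟩⟩, fun ⟨h1, h2⟩ y => ?_⟩
  have hle : D ⊔ Subgroup.zpowers g ≤ MulAction.stabilizer G x :=
    sup_le (fun d hd => h1 ⟨d, hd⟩) (Subgroup.zpowers_le.2 h2)
  exact hle y.2

theorem card_sup_zpowers [Finite G] (D : Subgroup G) {g : G} (hg : g ∉ D) :
    Nat.card D < Nat.card (D ⊔ Subgroup.zpowers g : Subgroup G) := by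
  have hlt : (D : Set G) ⊂ ((D ⊔ Subgroup.zpowers g : Subgroup G) : Set G) :=
    ⟨SetLike.coe_subset_coe.2 le_sup_left, fun e => hg (e (Subgroup.mem_sup_right (Subgroup.mem_zpowers g)))⟩
  have := Set.ncard_lt_ncard hlt (Set.toFinite _)
  rwa [← Nat.card_coe_set_eq, ← Nat.card_coe_set_eq] at this

namespace Setting

variable {I : P → L → Prop} {n : ℕ} (h : Setting G I n) [Finite G] [Finite P] [Finite L]
include h

theorem res_setting {D : Subgroup G} {s : ℕ}
    (hs : SubPlane I (MulAction.fixedPoints D P) (MulAction.fixedPoints D L) s) :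
    Setting (resGrp D P L) (fun (p : fixSub D P) (l : fixSub D L) => I p l) s where
  toIsPlane := hs.toPlane h.toIsPlane
  compat γ p l := by
    obtain ⟨g, rfl⟩ := resHom_surjective D P L γ
    exact h.compat (g : G) p l
  faithful γ hγ := by
    obtain ⟨g, rfl⟩ := resHom_surjective D P L γ
    have hp : ∀ p : fixSub D P, (g : G) • (p : P) = p := fun p => congrArg Subtype.val (hγ p)
    refine Subtype.ext (Prod.ext (Equiv.ext hγ) (Equiv.ext fun l => ?_))
    apply Subtype.ext
    show (g : G) • (l : L) = l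
    obtain ⟨p, hp1, hp2⟩ : ∃ p q, (p ∈ MulAction.fixedPoints D P ∧ I p l) ∧
        (q ∈ MulAction.fixedPoints D P ∧ I q l) ∧ p ≠ q := by
      obtain ⟨p, q, hp, hq, hpq⟩ := (Set.one_lt_ncard_iff (Set.toFinite _)).1
        (show 1 < {p | p ∈ MulAction.fixedPoints D P ∧ I p (l : L)}.ncard by
          rw [hs.card_pts _ l.2]; have := hs.two_le; omega)
      exact ⟨p, q, hp, hq, hpq⟩
    obtain ⟨hp3, hq, hne⟩ := hp2
    exact h.fix_line hne hp3.2 hq.2 (hp ⟨p, hp3.1⟩) (hp ⟨hp1, hq.1⟩)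

/-- Involutions induced on the fixed subplane of a largest good subgroup have no fixed subplane. -/
theorem res_perspectivity {D : Subgroup G} (hmax : GoodMax G I n D) {s k : ℕ} (hn : n = s ^ 2 ^ k)
    (hs : SubPlane I (MulAction.fixedPoints D P) (MulAction.fixedPoints D L) s)
    (γ : resGrp D P L) (hγ : γ * γ = 1) (hγ1 : γ ≠ 1) :
    ∃ (l : fixSub D L) (c : fixSub D P), Axial (fun (p : fixSub D P) (l : fixSub D L) => I p l) γ l ∧
      Central (fun (p : fixSub D P) (l : fixSub D L) => I p l) γ c := by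
  have hR := h.res_setting hs
  refine (hR.baer hγ).resolve_right ?_
  rintro ⟨r, hsr, hr⟩
  obtain ⟨g₀, rfl⟩ := resHom_surjective D P L γ
  obtain ⟨m, ⟨a, ha⟩, hm⟩ := exists_two_elt (resHom D P L) g₀ hγ
  rw [← hm] at hγ1 hr
  set g := g₀ ^ m with hg
  have hgD : (g : G) ∉ D := by
    intro hD
    refine hγ1 (Subtype.ext (Prod.ext (Equiv.ext fun x => Subtype.ext ?_) (Equiv.ext fun x => Subtype.ext ?_)))
    · exact x.2 ⟨_, hD⟩
    · exact x.2 ⟨_, hD⟩
  have hg2 : (g : G) ^ 2 ^ a = 1 := by rw [← SubgroupClass.coe_pow, ha]; rfl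
  have hgood : Good G I n (D ⊔ Subgroup.zpowers (g : G)) := by
    refine ⟨hmax.1.1.to_sup_of_normal_left' (isPGroup_zpowers hg2) (Subgroup.zpowers_le.2 g.2),
      r, k + 1, by rw [hn, hsr, ← pow_mul, pow_succ'], ?_⟩
    rw [fixedPoints_sup_zpowers, fixedPoints_sup_zpowers]
    refine ⟨hr.two_le, fun hp hq hne h1 h2 => ?_, fun hl hm' hne h1 h2 => ?_, fun l hl => ?_, fun p hp => ?_, ?_, ?_⟩
    · exact ⟨hs.join_mem hp.1 hq.1 hne h1 h2, h.fix_line hne h1 h2 hp.2 hq.2⟩
    · exact ⟨hs.meet_mem hl.1 hm'.1 hne h1 h2, h.fix_point hne h1 h2 hl.2 hm'.2⟩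
    · rw [← hr.card_pts ⟨_, hl.1⟩ (Subtype.ext hl.2),
        ← Set.ncard_image_of_injective _ Subtype.val_injective]
      congr 1
      ext p
      exact ⟨fun ⟨⟨h1, h2⟩, h3⟩ => ⟨⟨p, h1⟩, ⟨Subtype.ext h2, h3⟩, rfl⟩,
        fun ⟨q, ⟨h1, h2⟩, e⟩ => e ▸ ⟨⟨q.2, congrArg Subtype.val h1⟩, h2⟩⟩
    · rw [← hr.card_lns ⟨_, hp.1⟩ (Subtype.ext hp.2),
        ← Set.ncard_image_of_injective _ Subtype.val_injective]
      congr 1
      ext l
      exact ⟨fun ⟨⟨h1, h2⟩, h3⟩ => ⟨⟨l, h1⟩, ⟨Subtype.ext h2, h3⟩, rfl⟩,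
        fun ⟨q, ⟨h1, h2⟩, e⟩ => e ▸ ⟨⟨q.2, congrArg Subtype.val h1⟩, h2⟩⟩
    · rw [← hr.cardX, ← Set.ncard_image_of_injective _ Subtype.val_injective]
      congr 1
      ext p
      exact ⟨fun ⟨h1, h2⟩ => ⟨⟨p, h1⟩, Subtype.ext h2, rfl⟩,
        fun ⟨q, h1, e⟩ => e ▸ ⟨q.2, congrArg Subtype.val h1⟩⟩
    · rw [← hr.cardY, ← Set.ncard_image_of_injective _ Subtype.val_injective]
      congr 1
      ext p
      exact ⟨fun ⟨h1, h2⟩ => ⟨⟨p, h1⟩, Subtype.ext h2, rfl⟩,
        fun ⟨q, h1, e⟩ => e ▸ ⟨q.2, congrArg Subtype.val h1⟩⟩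
  exact absurd (hmax.2 _ hgood) (not_le.2 (card_sup_zpowers D hgD))

/-- An element of two-power order in the normalizer and outside a largest good subgroup acts nontrivially
on its fixed points. -/
theorem res_ne_one {D : Subgroup G} (hmax : GoodMax G I n D)
    (g : Subgroup.normalizer (D : Set G)) {a : ℕ} (ha : (g : G) ^ 2 ^ a = 1) (hgD : (g : G) ∉ D) :
    resHom D P L g ≠ 1 := by
  intro e
  have hX : ∀ {x}, x ∈ MulAction.fixedPoints D P → (g : G) • x = x := fun {x} hx =>
    congrArg (fun γ : resGrp D P L => ((γ.1.1 ⟨x, hx⟩ : fixSub D P) : P)) e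
  have hY : ∀ {x}, x ∈ MulAction.fixedPoints D L → (g : G) • x = x := fun {x} hx =>
    congrArg (fun γ : resGrp D P L => ((γ.1.2 ⟨x, hx⟩ : fixSub D L) : L)) e
  obtain ⟨s, k, hn, hs⟩ := hmax.1.2
  have hgood : Good G I n (D ⊔ Subgroup.zpowers (g : G)) := by
    refine ⟨hmax.1.1.to_sup_of_normal_left' (isPGroup_zpowers ha) (Subgroup.zpowers_le.2 g.2), s, k, hn, ?_⟩
    rw [fixedPoints_sup_zpowers, fixedPoints_sup_zpowers,
      show {x | x ∈ MulAction.fixedPoints D P ∧ (g : G) • x = x} = MulAction.fixedPoints D P from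
        Set.ext fun x => ⟨fun hx => hx.1, fun hx => ⟨hx, hX hx⟩⟩,
      show {x | x ∈ MulAction.fixedPoints D L ∧ (g : G) • x = x} = MulAction.fixedPoints D L from
        Set.ext fun x => ⟨fun hx => hx.1, fun hx => ⟨hx, hY hx⟩⟩]
    exact hs
  exact absurd (hmax.2 _ hgood) (not_le.2 (card_sup_zpowers D hgD))

/-- A two-group above `D` gives an element of the normalizer. -/
theorem exists_normalizing (D T : Subgroup G) (hT : IsPGroup 2 T) (hDT : D < T) :
    ∃ (g : Subgroup.normalizer (D : Set G)) (a : ℕ), (g : G) ∈ T ∧ (g : G) ∉ D ∧ (g : G) ^ 2 ^ a = 1 := by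
  haveI := Fact.mk Nat.prime_two
  haveI := hT.isNilpotent
  have hne : D.subgroupOf T < ⊤ := lt_top_iff_ne_top.2 fun e =>
    hDT.not_ge (Subgroup.subgroupOf_eq_top.1 e)
  obtain ⟨x, hx, hxD⟩ := SetLike.exists_of_lt (normalizerCondition_of_isNilpotent _ hne)
  obtain ⟨a, ha⟩ := hT x
  refine ⟨⟨x, ?_⟩, a, x.2, fun e => hxD e, by simpa using congrArg Subtype.val ha⟩
  refine Subgroup.mem_normalizer_iff.2 fun d => ?_
  constructor
  · intro hd
    exact (Subgroup.mem_normalizer_iff.1 hx ⟨d, hDT.le hd⟩).1 hd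
  · intro hd
    have hdT : d ∈ T := by
      have := T.mul_mem (T.mul_mem (T.inv_mem x.2) (hDT.le hd)) x.2
      simpa [mul_assoc] using this
    exact (Subgroup.mem_normalizer_iff.1 hx ⟨d, hdT⟩).2 hd

/-- Two fixed points of a largest good subgroup are fixed by an involution of the induced group. -/
theorem res_fixPts (h2 : TwoTrans G P) {D : Subgroup G} (hmax : GoodMax G I n D) (a b : fixSub D P)
    (hab : a ≠ b) :
    ∃ γ : resGrp D P L, γ * γ = 1 ∧ γ ≠ 1 ∧ γ • a = a ∧ γ • b = b := by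
  haveI := Fact.mk Nat.prime_two
  obtain ⟨s, k, hn, hs⟩ := hmax.1.2
  have hab' : (a : P) ≠ b := fun e => hab (Subtype.ext e)
  let Gab := MulAction.stabilizer G (a : P) ⊓ MulAction.stabilizer G (b : P)
  have hDG : D ≤ Gab := fun d hd => ⟨a.2 ⟨d, hd⟩, b.2 ⟨d, hd⟩⟩
  by_cases hbig : ∃ T : Subgroup G, IsPGroup 2 T ∧ D < T ∧ T ≤ Gab
  · obtain ⟨T, hT, hDT, hTG⟩ := hbig
    obtain ⟨g, e, hgT, hgD, hge⟩ := h.exists_normalizing D T hT hDT
    obtain ⟨j, hj1, hj2⟩ := exists_invol_pow (resHom D P L) g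
      (a := e) (Subtype.ext (by rw [SubgroupClass.coe_pow]; exact hge)) (h.res_ne_one hmax g hge hgD)
    exact ⟨_, hj1, hj2, Subtype.ext (hTG (T.pow_mem hgT j)).1, Subtype.ext (hTG (T.pow_mem hgT j)).2⟩
  push Not at hbig
  exfalso
  -- the two-subgroups of a two-point stabilizer are no larger than `D`
  have hsmall : ∀ {c d : P}, c ≠ d → ∀ T : Subgroup G, IsPGroup 2 T → T ≤ MulAction.stabilizer G c →
      T ≤ MulAction.stabilizer G d → Nat.card T ≤ Nat.card D := by
    intro c d hcd T hT hTc hTd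
    obtain ⟨k, hk1, hk2⟩ := h2 c d a b hcd hab'
    let T' := T.map (MulAut.conj k).toMonoidHom
    have hT' : IsPGroup 2 T' := hT.map _
    have hT'G : T' ≤ Gab := by
      rintro _ ⟨t, ht, rfl⟩
      refine ⟨?_, ?_⟩
      · show (k * t * k⁻¹) • (a : P) = a
        rw [← hk1, mul_smul, mul_smul, inv_smul_smul, MulAction.mem_stabilizer_iff.1 (hTc ht)]
      · show (k * t * k⁻¹) • (b : P) = b
        rw [← hk2, mul_smul, mul_smul, inv_smul_smul, MulAction.mem_stabilizer_iff.1 (hTd ht)]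
    obtain ⟨Q, hQ⟩ := (hT'.comap_subtype (K := Gab)).exists_le_sylow
    obtain ⟨R, hR⟩ := (hmax.1.1.comap_subtype (K := Gab)).exists_le_sylow
    have hRD : (R : Subgroup Gab).map Gab.subtype = D := by
      have h1 : D ≤ (R : Subgroup Gab).map Gab.subtype := fun d hd => ⟨⟨d, hDG hd⟩, hR hd, rfl⟩
      by_contra hne
      exact hbig _ (R.2.map _) (lt_of_le_of_ne h1 (Ne.symm hne)) (Subgroup.map_subtype_le _)
    rw [← hRD, Subgroup.card_map_of_injective Gab.subtype_injective,
      R.card_eq_multiplicity, ← Q.card_eq_multiplicity,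
      ← Subgroup.card_map_of_injective (f := (MulAut.conj k).toMonoidHom) (MulAut.conj k).injective]
    refine le_trans (le_of_eq ?_) (Subgroup.card_le_of_le hQ)
    exact (Nat.card_congr (Subgroup.subgroupOfEquivOfLe hT'G).toEquiv).symm
  -- `D` is no Sylow subgroup of the whole group
  have hDmax : ∃ T : Subgroup G, IsPGroup 2 T ∧ D < T := by
    obtain ⟨S, hS⟩ := hmax.1.1.exists_le_sylow
    refine ⟨S, S.2, lt_of_le_of_ne hS fun e => ?_⟩
    refine S.not_dvd_index ?_
    rw [← e]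
    have horb : MulAction.orbit (MulAction.stabilizer G (a : P)) (b : P) = {p | p ≠ (a : P)} := by
      ext p
      constructor
      · rintro ⟨g, rfl⟩ e'
        exact hab' ((MulAction.injective (g : G))
          ((MulAction.mem_stabilizer_iff.1 g.2).trans (Eq.symm e')))
      · intro hp
        obtain ⟨g, hg1, hg2⟩ := h2 a b a p hab' (Ne.symm hp)
        exact ⟨⟨g, hg1⟩, hg2⟩
    have hrel : (MulAction.stabilizer G (b : P)).relIndex (MulAction.stabilizer G (a : P)) = n ^ 2 + n := by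
      have e1 := MulAction.index_stabilizer (MulAction.stabilizer G (a : P)) (b : P)
      rw [horb] at e1
      rw [Subgroup.relIndex]
      refine Eq.trans ?_ (e1.trans ?_)
      · congr 1
      · rw [show {p | p ≠ (a : P)} = Set.univ \ {(a : P)} by ext; simp,
          Set.ncard_diff_singleton_of_mem (Set.mem_univ _), Set.ncard_univ, h.cardP]
        omega
    have h1 : n ^ 2 + n ∣ D.index := by
      rw [← hrel, ← Subgroup.inf_relIndex_right, inf_comm]
      exact (Dvd.intro _ (Subgroup.relIndex_mul_index (inf_le_left (b := MulAction.stabilizer G (b : P))))).trans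
        (Subgroup.index_dvd_of_le hDG)
    refine (dvd_trans ?_ h1)
    rw [pow_two, ← Nat.mul_add_one]
    exact even_iff_two_dvd.1 (Nat.even_mul_succ_self n)
  obtain ⟨T, hT, hDT⟩ := hDmax
  obtain ⟨g, e, -, hgD, hge⟩ := h.exists_normalizing D T hT hDT
  obtain ⟨j, hj1, hj2⟩ := exists_invol_pow (resHom D P L) g
    (a := e) (Subtype.ext (by rw [SubgroupClass.coe_pow]; exact hge)) (h.res_ne_one hmax g hge hgD)
  obtain ⟨l, c, hl, -⟩ := h.res_perspectivity hmax hn hs _ hj1 hj2
  have hgj : ((g ^ j : _) : G) ^ 2 ^ e = 1 := by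
    rw [SubgroupClass.coe_pow, ← pow_mul, mul_comm, pow_mul, hge, one_pow]
  have hgjD : ((g ^ j : _) : G) ∉ D := by
    intro hD
    refine hj2 (Subtype.ext (Prod.ext (Equiv.ext fun x => Subtype.ext ?_) (Equiv.ext fun x => Subtype.ext ?_)))
    · exact x.2 ⟨_, hD⟩
    · exact x.2 ⟨_, hD⟩
  obtain ⟨p, q, hp, hq, hpq⟩ := (Set.one_lt_ncard_iff (Set.toFinite _)).1
    (show 1 < {p | p ∈ MulAction.fixedPoints D P ∧ I p (l : L)}.ncard by
      rw [hs.card_pts _ l.2]; have := hs.two_le; omega)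
  have hp' : ((g ^ j : _) : G) • p = p := congrArg Subtype.val (hl ⟨p, hp.1⟩ hp.2)
  have hq' : ((g ^ j : _) : G) • q = q := congrArg Subtype.val (hl ⟨q, hq.1⟩ hq.2)
  have := hsmall hpq (D ⊔ Subgroup.zpowers ((g ^ j : _) : G))
    (hmax.1.1.to_sup_of_normal_left' (isPGroup_zpowers hgj) (Subgroup.zpowers_le.2 (g ^ j).2))
    (sup_le (fun d hd => hp.1 ⟨d, hd⟩) (Subgroup.zpowers_le.2 hp'))
    (sup_le (fun d hd => hq.1 ⟨d, hd⟩) (Subgroup.zpowers_le.2 hq'))
  exact absurd this (not_le.2 (card_sup_zpowers D hgjD))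

theorem odd_primePow (h2 : TwoTrans G P) (hodd : Odd n) : ∃ p k : ℕ, p.Prime ∧ 0 < k ∧ n = p ^ k := by
  classical
  have hbot : Good G I n ⊥ := by
    refine ⟨IsPGroup.of_bot, n, 0, by rw [pow_zero, pow_one], ?_⟩
    have e : ∀ (X : Type _) [MulAction G X], MulAction.fixedPoints (⊥ : Subgroup G) X = Set.univ := fun X _ =>
      Set.eq_univ_of_forall fun x d => by rw [Subsingleton.elim d 1, one_smul]
    rw [e P]
    rw [show MulAction.fixedPoints (⊥ : Subgroup G) L = Set.univ from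
      Set.eq_univ_of_forall fun x d => by rw [Subsingleton.elim d 1, one_smul]]
    exact SubPlane.univ h.toIsPlane
  obtain ⟨D, hD, hDle⟩ := Set.exists_max_image {D | Good G I n D} (fun D => Nat.card D)
    (Set.toFinite _) ⟨⊥, hbot⟩
  have hmax : GoodMax G I n D := ⟨hD, hDle⟩
  obtain ⟨s, k, hn, hs⟩ := hmax.1.2
  have hsodd : Odd s := by
    rcases Nat.even_or_odd s with he | ho
    · exact absurd (hn ▸ he.pow_of_ne_zero (Nat.two_pow_pos k).ne') (Nat.not_even_iff_odd.2 hodd)
    · exact ho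
  have hR := h.res_setting hs
  have hyp : OddHyp (resGrp D P L) (fun (p : fixSub D P) (l : fixSub D L) => I p l) s :=
    { toSetting := hR
      odd := hsodd
      inv := fun γ hγ hγ1 => by
        obtain ⟨l, c, hl, hc⟩ := h.res_perspectivity hmax hn hs γ hγ hγ1
        refine ⟨c, l, fun e => ?_, hl, hc, hγ1⟩
        exact Nat.not_even_iff_odd.2 hsodd ((hR.involution_parity hγ hγ1 hl hc).1 e)
      fixPts := fun a b hab => h.res_fixPts h2 hmax a b hab
      fixLns := fun a b hab => by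
        obtain ⟨γ, hγ, hγ1, ha, hb⟩ := h.dual.res_fixPts (h.twoTrans_dual h2) hmax.dual a b hab
        obtain ⟨g, rfl⟩ := resHom_surjective D L P γ
        refine ⟨resHom D P L g, ?_, ?_, ha, hb⟩
        · exact Subtype.ext (Prod.ext (congrArg (fun γ : resGrp D L P => γ.1.2) hγ)
            (congrArg (fun γ : resGrp D L P => γ.1.1) hγ))
        · exact fun e => hγ1 (Subtype.ext (Prod.ext (congrArg (fun γ : resGrp D P L => γ.1.2) e)
            (congrArg (fun γ : resGrp D P L => γ.1.1) e))) }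
  obtain ⟨p, j, hp, hj, hsp⟩ := hyp.primePow
  exact ⟨p, j * 2 ^ k, hp, Nat.mul_pos hj (Nat.two_pow_pos k), by rw [hn, hsp, pow_mul]⟩

end Setting

end Cfsg.Agent.OWagner
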