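import Cfsg.Agent.OWagner.Baer

/-!
Orbits on points and lines, and transitivity consequences of double transitivity on points.
-/

set_option autoImplicit false
set_option linter.all false

namespace Cfsg.Agent.OWagner

/-- Double transitivity. -/
def TwoTrans (G X : Type*) [SMul G X] : Prop :=
  ∀ a b c d : X, a ≠ b → c ≠ d → ∃ g : G, g • a = c ∧ g • b = d

theorem TwoTrans.trans {G X : Type*} [Monoid G] [MulAction G X] (h : TwoTrans G X) {a b : X}
    (hne : ∀ x : X, ∃ y, y ≠ x) : ∃ g : G, g • a = b := by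
  obtain ⟨a', ha⟩ := hne a
  obtain ⟨b', hb⟩ := hne b
  obtain ⟨g, hg, -⟩ := h a a' b b' (Ne.symm ha) (Ne.symm hb)
  exact ⟨g, hg⟩

namespace Setting

variable {G P L : Type*} [Group G] [MulAction G P] [MulAction G L] {I : P → L → Prop} {n : ℕ}
  (h : Setting G I n) [Finite G] [Finite P] [Finite L]
include h

theorem exists_pt_ne (x : P) : ∃ y, y ≠ x := by
  obtain ⟨l, -⟩ := h.join x x
  obtain ⟨y, -, hy⟩ := h.exists_pt_off l x
  exact ⟨y, hy⟩

theorem orbits_eq (H : Subgroup G) :
    Nat.card (MulAction.orbitRel.Quotient H P) = Nat.card (MulAction.orbitRel.Quotient H L) := by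
  classical
  haveI := Fintype.ofFinite H
  haveI := Fintype.ofFinite P
  haveI := Fintype.ofFinite L
  haveI : Fintype (Quotient (MulAction.orbitRel H P)) := Fintype.ofFinite _
  haveI : Fintype (Quotient (MulAction.orbitRel H L)) := Fintype.ofFinite _
  have h1 := MulAction.sum_card_fixedBy_eq_card_orbits_mul_card_group H P
  have h2 := MulAction.sum_card_fixedBy_eq_card_orbits_mul_card_group H L
  have h3 : ∀ a : H, Fintype.card (MulAction.fixedBy P a) = Fintype.card (MulAction.fixedBy L a) := by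
    intro a
    rw [← Nat.card_eq_fintype_card, ← Nat.card_eq_fintype_card, Nat.card_coe_set_eq, Nat.card_coe_set_eq]
    exact h.fixed_eq (a : G)
  rw [Finset.sum_congr rfl fun a _ => h3 a, h2] at h1
  unfold MulAction.orbitRel.Quotient
  rw [Nat.card_eq_fintype_card, Nat.card_eq_fintype_card]
  exact (Nat.eq_of_mul_eq_mul_right Fintype.card_pos h1).symm

/-- A group with two orbits on points has two orbits on lines. -/
theorem two_orbits (H : Subgroup G) (A : P → Prop) (B : L → Prop)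
    (hA : ∀ g ∈ H, ∀ p, A (g • p) ↔ A p) (hB : ∀ g ∈ H, ∀ l, B (g • l) ↔ B l)
    (hAT : ∀ p q, (A p ↔ A q) → ∃ g ∈ H, g • p = q)
    (hA1 : ∃ p, A p) (hA0 : ∃ p, ¬ A p) (hB1 : ∃ l, B l) (hB0 : ∃ l, ¬ B l) :
    ∀ l m, (B l ↔ B m) → ∃ g ∈ H, g • l = m := by
  let fA : MulAction.orbitRel.Quotient H P → Prop := Quotient.lift A (fun a b ⟨g, hg⟩ => by
    rw [← hg]; exact propext (hA g g.2 b))
  let fB : MulAction.orbitRel.Quotient H L → Prop := Quotient.lift B (fun a b ⟨g, hg⟩ => by
    rw [← hg]; exact propext (hB g g.2 b))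
  have sA : Function.Bijective fA := by
    refine ⟨fun x y e => ?_, fun Q => ?_⟩
    · induction x using Quotient.inductionOn with | h p =>
      induction y using Quotient.inductionOn with | h q =>
      obtain ⟨g, hg, e'⟩ := hAT q p (iff_of_eq (e : A p = A q)).symm
      exact Quotient.sound ⟨⟨g, hg⟩, e'⟩
    · by_cases hQ : Q
      · obtain ⟨p, hp⟩ := hA1; exact ⟨Quotient.mk _ p, propext (iff_of_true hp hQ)⟩
      · obtain ⟨p, hp⟩ := hA0; exact ⟨Quotient.mk _ p, propext (iff_of_false hp hQ)⟩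
  have sB : Function.Bijective fB := by
    refine (Nat.bijective_iff_surjective_and_card fB).2 ⟨fun Q => ?_, ?_⟩
    · by_cases hQ : Q
      · obtain ⟨p, hp⟩ := hB1; exact ⟨Quotient.mk _ p, propext (iff_of_true hp hQ)⟩
      · obtain ⟨p, hp⟩ := hB0; exact ⟨Quotient.mk _ p, propext (iff_of_false hp hQ)⟩
    · rw [← h.orbits_eq H]; exact Nat.card_eq_of_bijective fA sA
  intro l m e
  obtain ⟨g, hg⟩ := Quotient.exact (sB.1 (show fB (Quotient.mk _ m) = fB (Quotient.mk _ l) from propext e.symm))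
  exact ⟨g, g.2, hg⟩

theorem line_orbit (h2 : TwoTrans G P) (p : P) {l m : L} (hlm : I p l ↔ I p m) :
    ∃ g : G, g • p = p ∧ g • l = m := by
  obtain ⟨q, hq⟩ := h.exists_pt_ne p
  refine h.two_orbits (MulAction.stabilizer G p) (fun x => x = p) (fun k => I p k) ?_ ?_ ?_ ⟨p, rfl⟩
    ⟨q, hq⟩ ?_ ?_ l m hlm
  · intro g hg x
    show g • x = p ↔ x = p
    constructor
    · intro e; exact (MulAction.injective g) (e.trans (MulAction.mem_stabilizer_iff.1 hg).symm)
    · rintro rfl; exact hg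
  · intro g hg k
    have := h.compat g p k
    rwa [MulAction.mem_stabilizer_iff.1 hg] at this
  · intro x y e
    by_cases hx : x = p
    · exact ⟨1, one_mem _, by rw [one_smul, hx, e.1 hx]⟩
    · obtain ⟨g, h1, h2⟩ := h2 p x p y (Ne.symm hx) (fun e' => hx (e.2 e'.symm))
      exact ⟨g, h1, h2⟩
  · obtain ⟨k, hk, -⟩ := h.join p p
    exact ⟨k, hk⟩
  · obtain ⟨k, hk, -⟩ := h.dual.exists_pt_off p (Classical.choose (h.join p p))
    exact ⟨k, hk⟩

theorem pair_orbit (h2 : TwoTrans G P) {p q : P} {l m : L} (e : I p l ↔ I q m) :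
    ∃ g : G, g • p = q ∧ g • l = m := by
  obtain ⟨g, hg⟩ := h2.trans h.exists_pt_ne (a := p) (b := q)
  obtain ⟨k, hk1, hk2⟩ := h.line_orbit h2 q (l := g • l) (m := m)
    (by rw [← e, ← h.compat g p l, hg])
  exact ⟨k * g, by rw [mul_smul, hg, hk1], by rw [mul_smul, hk2]⟩

theorem twoTrans_dual (h2 : TwoTrans G P) : TwoTrans G L := by
  intro a b c d hab hcd
  obtain ⟨p, hp, -⟩ := h.meet a a
  obtain ⟨g, -, hg⟩ := h.pair_orbit h2 (iff_of_true hp (Classical.choose_spec (h.nonempty_pts c)))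
  have hne : g • b ≠ c := fun e => hab ((MulAction.injective g) (hg.trans e.symm))
  obtain ⟨k, hk, hk'⟩ := h.two_orbits (MulAction.stabilizer G c) (fun x => I x c) (fun k => k = c)
    (fun k hk x => by
      have := h.compat k x c
      rwa [MulAction.mem_stabilizer_iff.1 hk] at this)
    (fun k hk x => by
      constructor
      · intro e; exact (MulAction.injective k) (e.trans (MulAction.mem_stabilizer_iff.1 hk).symm)
      · rintro rfl; exact hk)
    (fun x y e => by
      obtain ⟨k, h1, h2'⟩ := h.pair_orbit h2 (p := x) (q := y) (l := c) (m := c) e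
      exact ⟨k, h2', h1⟩)
    (h.nonempty_pts c) ⟨_, (h.exists_pt_off c (Classical.choose (h.nonempty_pts c))).choose_spec.1⟩
    ⟨c, rfl⟩ (h.dual.exists_pt_ne c) (g • b) d (iff_of_false hne (Ne.symm hcd))
  exact ⟨k * g, by rw [mul_smul, hg]; exact hk, by rw [mul_smul]; exact hk'⟩

/-- Transitivity on lines with a point on them and a point off them. -/
theorem triple_orbit (h2 : TwoTrans G P) {x x' A A' : P} {m m' : L} (hx : I x m) (hA : ¬ I A m)
    (hx' : I x' m') (hA' : ¬ I A' m') : ∃ g : G, g • x = x' ∧ g • A = A' ∧ g • m = m' := by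
  obtain ⟨g₀, hgA, hgm⟩ := h.pair_orbit h2 (iff_of_false hA hA')
  let K := MulAction.stabilizer G A' ⊓ MulAction.stabilizer G m'
  let M := MulAction.stabilizer G m'
  have hxm : I (g₀ • x) m' := hgm ▸ h.smul_mem hx
  suffices hk : ∀ y, I y m' → ∀ z, I z m' → ∃ g ∈ K, g • y = z by
    obtain ⟨k, ⟨hkA, hkm⟩, hk'⟩ := hk _ hxm x' hx'
    exact ⟨k * g₀, by rw [mul_smul, hk'],
      by rw [mul_smul, hgA]; exact hkA, by rw [mul_smul, hgm]; exact hkm⟩
  intro y hy
  have hoff : MulAction.orbit M A' = {p | ¬ I p m'} := by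
    ext p
    constructor
    · rintro ⟨g, rfl⟩ hp
      have := (h.compat (g : G) A' m').1
      rw [MulAction.mem_stabilizer_iff.1 g.2] at this
      exact hA' (this hp)
    · intro hp
      obtain ⟨g, h1, h2'⟩ := h.pair_orbit h2 (iff_of_false hA' hp)
      exact ⟨⟨g, h2'⟩, h1⟩
  have hon : MulAction.orbit M y = {p | I p m'} := by
    ext p
    constructor
    · rintro ⟨g, rfl⟩
      exact h.mem_of_fix_line (MulAction.mem_stabilizer_iff.1 g.2) hy
    · intro hp
      obtain ⟨g, h1, h2'⟩ := h.pair_orbit h2 (iff_of_true hy hp)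
      exact ⟨⟨g, h2'⟩, h1⟩
  have e1 := congrArg Set.ncard hoff
  rw [← MulAction.index_stabilizer, h.ncard_off] at e1
  have e2 := congrArg Set.ncard hon
  rw [← MulAction.index_stabilizer, h.card_pts] at e2
  let SA := MulAction.stabilizer M A'
  let Sy := MulAction.stabilizer M y
  have e3 : (Sy.relIndex SA) * n ^ 2 = (Sy ⊓ SA).index := by
    rw [← e1, ← Subgroup.inf_relIndex_right Sy SA, Subgroup.relIndex_mul_index inf_le_right]
  have e4 : n + 1 ∣ (Sy ⊓ SA).index := e2 ▸ Subgroup.index_dvd_of_le inf_le_left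
  rw [← e3] at e4
  have hcop : Nat.Coprime (n + 1) (n ^ 2) :=
    Nat.Coprime.pow_right 2 (by simp [Nat.coprime_add_self_left])
  have e5 := hcop.dvd_of_dvd_mul_right e4
  have e6 : Sy.relIndex SA ≠ 0 := Subgroup.index_ne_zero_of_finite
  have e7 := Nat.le_of_dvd (Nat.pos_of_ne_zero e6) e5
  have horb : MulAction.orbit SA y = {p | I p m'} := by
    refine Set.eq_of_subset_of_ncard_le ?_ ?_ (Set.toFinite _)
    · rintro p ⟨g, rfl⟩
      exact hon ▸ ⟨(g : M), rfl⟩
    · rw [h.card_pts, ← MulAction.index_stabilizer]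
      refine e7.trans (le_of_eq ?_)
      rw [Subgroup.relIndex]
      congr 1
  intro z hz
  obtain ⟨g, hg⟩ : z ∈ MulAction.orbit SA y := horb ▸ hz
  exact ⟨((g : M) : G), ⟨g.2, (g : M).2⟩, hg⟩

end Setting

end Cfsg.Agent.OWagner
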